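import Mathlib

set_option autoImplicit false

/-!
Rank one elements `1 + c φ` inside a subgroup of `SL_n`.
-/

namespace CfsgLib.H29.SLGen

open Matrix

variable {ι F : Type*} [Field F] [Fintype ι] [DecidableEq ι]

/-- The subgroup contains the element with matrix `1 + c φ`. -/
def Mem (H : Subgroup (Matrix.SpecialLinearGroup ι F)) (c φ : ι → F) : Prop :=
  ∃ g ∈ H, (g : Matrix ι ι F) = 1 + vecMulVec c φ

variable {H : Subgroup (Matrix.SpecialLinearGroup ι F)}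

theorem mem_zero (φ : ι → F) : Mem H 0 φ :=
  ⟨1, H.one_mem, by simp⟩

theorem mem_zero_right (c : ι → F) : Mem H c 0 :=
  ⟨1, H.one_mem, by simp⟩

theorem mem_congr {c φ c' φ' : ι → F} (h : vecMulVec c φ = vecMulVec c' φ') (hm : Mem H c φ) :
    Mem H c' φ' := by
  obtain ⟨g, hg, hg'⟩ := hm
  exact ⟨g, hg, by rw [hg', h]⟩

theorem mem_add {c c' φ : ι → F} (h' : φ ⬝ᵥ c' = 0) (hc : Mem H c φ) (hc' : Mem H c' φ) :
    Mem H (c + c') φ := by
  obtain ⟨g, hg, hg'⟩ := hc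
  obtain ⟨k, hk, hk'⟩ := hc'
  refine ⟨g * k, H.mul_mem hg hk, ?_⟩
  change (g : Matrix ι ι F) * (k : Matrix ι ι F) = _
  rw [hg', hk', add_mul, one_mul, mul_add, mul_one,
    vecMulVec_mul_vecMulVec, h', zero_smul, vecMulVec_zero, add_zero, add_vecMulVec]
  abel

theorem inv_eq {c φ : ι → F} (h : φ ⬝ᵥ c = 0) {g : Matrix.SpecialLinearGroup ι F}
    (hg : (g : Matrix ι ι F) = 1 + vecMulVec c φ) :
    ((g⁻¹ : Matrix.SpecialLinearGroup ι F) : Matrix ι ι F) = 1 - vecMulVec c φ := by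
  have h1 : (g : Matrix ι ι F) * (1 - vecMulVec c φ) = 1 := by
    rw [hg, add_mul, one_mul, mul_sub, mul_one, vecMulVec_mul_vecMulVec, h, zero_smul,
      vecMulVec_zero]
    abel
  have h2 : ((g⁻¹ : Matrix.SpecialLinearGroup ι F) : Matrix ι ι F) * (g : Matrix ι ι F) = 1 :=
    congrArg Subtype.val (inv_mul_cancel g)
  calc ((g⁻¹ : Matrix.SpecialLinearGroup ι F) : Matrix ι ι F)
      = ((g⁻¹ : Matrix.SpecialLinearGroup ι F) : Matrix ι ι F) *
          ((g : Matrix ι ι F) * (1 - vecMulVec c φ)) := by rw [h1, mul_one]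
    _ = _ := by rw [← mul_assoc, h2, one_mul]

theorem mem_neg {c φ : ι → F} (h : φ ⬝ᵥ c = 0) (hc : Mem H c φ) : Mem H (-c) φ := by
  obtain ⟨g, hg, hg'⟩ := hc
  exact ⟨g⁻¹, H.inv_mem hg, by rw [inv_eq h hg', neg_vecMulVec, sub_eq_add_neg]⟩

theorem mem_conj {c φ : ι → F} {g : Matrix.SpecialLinearGroup ι F} (hg : g ∈ H) (hc : Mem H c φ) :
    Mem H ((g : Matrix ι ι F) *ᵥ c)
      (φ ᵥ* ((g⁻¹ : Matrix.SpecialLinearGroup ι F) : Matrix ι ι F)) := by
  obtain ⟨k, hk, hk'⟩ := hc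
  refine ⟨g * k * g⁻¹, H.mul_mem (H.mul_mem hg hk) (H.inv_mem hg), ?_⟩
  change (g : Matrix ι ι F) * (k : Matrix ι ι F) *
    ((g⁻¹ : Matrix.SpecialLinearGroup ι F) : Matrix ι ι F) = _
  have h1 : (g : Matrix ι ι F) * ((g⁻¹ : Matrix.SpecialLinearGroup ι F) : Matrix ι ι F) = 1 :=
    congrArg Subtype.val (mul_inv_cancel g)
  rw [hk', mul_add, mul_one, add_mul, mul_vecMulVec, vecMulVec_mul, h1]

theorem mem_comm {a φ b ψ : ι → F} (ha : φ ⬝ᵥ a = 0) (hb : ψ ⬝ᵥ b = 0) (hab : φ ⬝ᵥ b = 0)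
    (h : Mem H a φ) (h' : Mem H b ψ) : Mem H ((-(ψ ⬝ᵥ a)) • b) φ := by
  obtain ⟨g, hg, hg'⟩ := h
  obtain ⟨k, hk, hk'⟩ := h'
  refine ⟨g * k * g⁻¹ * k⁻¹,
    H.mul_mem (H.mul_mem (H.mul_mem hg hk) (H.inv_mem hg)) (H.inv_mem hk), ?_⟩
  change (g : Matrix ι ι F) * (k : Matrix ι ι F) *
    ((g⁻¹ : Matrix.SpecialLinearGroup ι F) : Matrix ι ι F) *
    ((k⁻¹ : Matrix.SpecialLinearGroup ι F) : Matrix ι ι F) = _
  simp only [inv_eq ha hg', inv_eq hb hk', hg', hk', add_mul, mul_add,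
    sub_mul, mul_sub, one_mul, mul_one, smul_mul_assoc, mul_smul_comm, vecMulVec_mul_vecMulVec,
    ha, hb, hab, zero_smul, vecMulVec_zero, smul_vecMulVec, vecMulVec_smul, neg_smul, zero_mul,
    mul_zero, smul_zero, neg_vecMulVec]
  abel

/-- The axis `φ` is full: all `1 + c φ` with `φ c = 0` are in the subgroup. -/
def Full (H : Subgroup (Matrix.SpecialLinearGroup ι F)) (φ : ι → F) : Prop :=
  ∀ c : ι → F, φ ⬝ᵥ c = 0 → Mem H c φ

theorem full_smul {φ : ι → F} (h : Full H φ) (t : F) : Full H (t • φ) := by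
  intro c hc
  rcases eq_or_ne t 0 with rfl | ht
  · rw [zero_smul]; exact mem_zero_right c
  · refine mem_congr ?_ (h (t • c) ?_)
    · rw [smul_vecMulVec, vecMulVec_smul]
    · rw [smul_dotProduct, smul_eq_mul] at hc
      rw [dotProduct_smul, (mul_eq_zero.mp hc).resolve_left ht, smul_zero]

theorem full_vecMul {φ : ι → F} (h : Full H φ) {g : Matrix.SpecialLinearGroup ι F} (hg : g ∈ H) :
    Full H (φ ᵥ* (g : Matrix ι ι F)) := by
  intro c hc
  have h1 := mem_conj (H.inv_mem hg) (h ((g : Matrix ι ι F) *ᵥ c) (by rw [dotProduct_mulVec]; exact hc))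
  have h2 : ((g⁻¹ : Matrix.SpecialLinearGroup ι F) : Matrix ι ι F) * (g : Matrix ι ι F) = 1 :=
    congrArg Subtype.val (inv_mul_cancel g)
  rw [inv_inv, mulVec_mulVec, h2, one_mulVec] at h1
  exact h1

theorem full_add {φ ψ : ι → F} (hφ : Full H φ) (hψ : Full H ψ) : Full H (φ + ψ) := by
  by_cases hdep : ∃ t : F, ψ = t • φ
  · obtain ⟨t, rfl⟩ := hdep
    rw [show φ + t • φ = (1 + t) • φ by rw [add_smul, one_smul]]
    exact full_smul hφ _
  rcases eq_or_ne φ 0 with rfl | hφ0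
  · rwa [zero_add]
  obtain ⟨i, hi⟩ := Function.ne_iff.mp hφ0
  have hne : ψ - (ψ i / φ i) • φ ≠ 0 := fun h => hdep ⟨_, sub_eq_zero.mp h⟩
  obtain ⟨j, hj⟩ := Function.ne_iff.mp hne
  simp only [Pi.sub_apply, Pi.smul_apply, smul_eq_mul, Pi.zero_apply] at hj hi
  set a : ι → F := (ψ j - ψ i / φ i * φ j)⁻¹ • (Pi.single j 1 - (φ j / φ i) • Pi.single i 1)
    with ha_def
  have ha : φ ⬝ᵥ a = 0 := by
    simp only [ha_def, dotProduct_smul, dotProduct_sub, dotProduct_single, mul_one, smul_eq_mul,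
      div_mul_cancel₀ _ hi, sub_self, mul_zero]
  have ha' : ψ ⬝ᵥ a = 1 := by
    simp only [ha_def, dotProduct_smul, dotProduct_sub, dotProduct_single, mul_one, smul_eq_mul]
    rw [show φ j / φ i * ψ i = ψ i / φ i * φ j by ring]
    exact inv_mul_cancel₀ hj
  obtain ⟨g, hg, hg'⟩ := hφ a ha
  have h1 := full_vecMul hψ hg
  rwa [hg', vecMul_add, vecMul_one, vecMul_vecMulVec, ha', one_smul, add_comm] at h1

end CfsgLib.H29.SLGen
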