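import Mathlib
import Cfsg.Agent.H29.SLGen.Basic
import Cfsg.Agent.SLn.Basic

set_option autoImplicit false

/-!
Three conjugate regular unipotent elements generating `SL_n(F)`, `n ≥ 3`.
-/

namespace CfsgLib.H29.SLGen

open Matrix

variable {F : Type*} [Field F] {n : ℕ}

local notation:max "𝐞" i:max => (Pi.single i (1 : F) : Fin n → F)

/-- The upper shift. -/
def shift (F : Type*) [Field F] (n : ℕ) : Matrix (Fin n) (Fin n) F :=
  Matrix.of fun i j => if (j : ℕ) = i + 1 then 1 else 0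

theorem shift_upper : (1 + shift F n).BlockTriangular id := by
  intro i j hij
  have h' : (j : ℕ) < (i : ℕ) := hij
  simp only [Matrix.add_apply, shift, Matrix.of_apply]
  rw [Matrix.one_apply_ne (fun h => by rw [h] at h'; exact lt_irrefl _ h'), if_neg (by omega),
    add_zero]

/-- The standard regular unipotent element. -/
def regUnip (F : Type*) [Field F] (n : ℕ) : Matrix.SpecialLinearGroup (Fin n) F :=
  ⟨1 + shift F n, by
    rw [Matrix.det_of_upperTriangular shift_upper]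
    refine Finset.prod_eq_one fun i _ => ?_
    simp [shift]⟩

theorem shift_pow_apply (k : ℕ) (i j : Fin n) :
    (shift F n ^ k) i j = if (j : ℕ) = i + k then 1 else 0 := by
  induction k generalizing i j with
  | zero => simp [Matrix.one_apply, Fin.ext_iff, eq_comm]
  | succ k ih =>
    rw [pow_succ, Matrix.mul_apply]
    by_cases h : (j : ℕ) = i + (k + 1)
    · rw [if_pos h, Finset.sum_eq_single (⟨i + k, by omega⟩ : Fin n)]
      · rw [ih]; simp [shift, h, add_assoc]
      · intro b _ hb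
        rw [ih, if_neg (fun hb' => hb (Fin.ext hb')), zero_mul]
      · simp
    · rw [if_neg h]
      refine Finset.sum_eq_zero fun b _ => ?_
      rw [ih]
      split
      · rw [one_mul]; simp [shift]; omega
      · rw [zero_mul]

theorem regUnip_isNilpotent :
    IsNilpotent ((regUnip F n : Matrix (Fin n) (Fin n) F) - 1) := by
  refine ⟨n, ?_⟩
  ext i j
  show ((1 + shift F n - 1) ^ n) i j = 0
  rw [add_sub_cancel_left, shift_pow_apply, if_neg (by omega)]

theorem regUnip_pow_ne (hn : 0 < n) :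
    ((regUnip F n : Matrix (Fin n) (Fin n) F) - 1) ^ (n - 1) ≠ 0 := by
  intro h
  have h' := congrFun (congrFun h ⟨0, hn⟩) ⟨n - 1, by omega⟩
  change ((1 + shift F n - 1) ^ (n - 1)) _ _ = 0 at h'
  rw [add_sub_cancel_left, shift_pow_apply, if_pos (by simp)] at h'
  exact one_ne_zero h'

theorem regUnip_mulVec_zero (hn : 0 < n) :
    (regUnip F n : Matrix (Fin n) (Fin n) F) *ᵥ 𝐞 ⟨0, hn⟩ = 𝐞 ⟨0, hn⟩ := by
  show (1 + shift F n) *ᵥ _ = _
  ext a
  simp [mulVec_single_one, shift, Matrix.one_apply, Pi.single_apply]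

theorem regUnip_mulVec_succ (i j : Fin n) (h : (j : ℕ) = i + 1) :
    (regUnip F n : Matrix (Fin n) (Fin n) F) *ᵥ 𝐞 j = 𝐞 j + 𝐞 i := by
  show (1 + shift F n) *ᵥ _ = _
  ext a
  simp [mulVec_single_one, shift, Matrix.one_apply, Pi.single_apply, Fin.ext_iff, h, eq_comm]

theorem vecMul_regUnip_succ (i j : Fin n) (h : (j : ℕ) = i + 1) :
    𝐞 i ᵥ* (regUnip F n : Matrix (Fin n) (Fin n) F) = 𝐞 i + 𝐞 j := by
  show _ ᵥ* (1 + shift F n) = _
  ext a
  simp [single_one_vecMul, shift, Matrix.one_apply, Pi.single_apply, Fin.ext_iff, h, eq_comm]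

theorem vecMul_regUnip_last (l : Fin n) (h : (l : ℕ) + 1 = n) :
    𝐞 l ᵥ* (regUnip F n : Matrix (Fin n) (Fin n) F) = 𝐞 l := by
  show _ ᵥ* (1 + shift F n) = _
  ext a
  have := a.isLt
  simp [single_one_vecMul, shift, Matrix.one_apply, Pi.single_apply, Fin.ext_iff, eq_comm]
  omega

/-- An element reversing the standard basis up to scalars. -/
theorem exists_reverse (hn : 0 < n) : ∃ g : Matrix.SpecialLinearGroup (Fin n) F, ∃ d : Fin n → F,
    (∀ i, d i ≠ 0) ∧
    (∀ j, (g : Matrix (Fin n) (Fin n) F) *ᵥ 𝐞 j = d j • 𝐞 j.rev) ∧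
    ∀ i, 𝐞 i ᵥ* (g : Matrix (Fin n) (Fin n) F) = d i.rev • 𝐞 i.rev := by
  classical
  set s : F := ((Equiv.Perm.sign (Fin.revPerm : Equiv.Perm (Fin n)) : ℤ) : F) with hs
  have hs0 : s ≠ 0 := by
    rcases Int.units_eq_one_or (Equiv.Perm.sign (Fin.revPerm : Equiv.Perm (Fin n))) with h | h <;>
      simp [hs, h]
  set d : Fin n → F := Function.update (fun _ => 1) ⟨0, hn⟩ s⁻¹ with hd
  have hdet : ((Matrix.diagonal d).submatrix (Fin.revPerm : Equiv.Perm (Fin n)) id).det = 1 := by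
    rw [Matrix.det_permute, det_diagonal, hd, Finset.prod_update_of_mem (Finset.mem_univ _),
      Finset.prod_const_one, mul_one]
    exact mul_inv_cancel₀ hs0
  refine ⟨⟨_, hdet⟩, d, fun i => ?_, fun j => ?_, fun i => ?_⟩
  · rcases eq_or_ne i ⟨0, hn⟩ with rfl | h
    · simp [hd, hs0]
    · simp [hd, Function.update_of_ne h]
  · ext a
    show ((Matrix.diagonal d).submatrix Fin.revPerm id *ᵥ Pi.single j 1) a = _
    rw [mulVec_single_one]
    simp only [Matrix.col_apply, submatrix_apply, id_eq, Fin.revPerm_apply, Matrix.diagonal_apply,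
      Pi.smul_apply, Pi.single_apply, smul_eq_mul, mul_ite, mul_one, mul_zero]
    by_cases h : a.rev = j
    · rw [if_pos h, if_pos (by rw [← h, Fin.rev_rev]), h]
    · rw [if_neg h, if_neg (fun h' => h (by rw [h', Fin.rev_rev]))]
  · ext a
    show (Pi.single i 1 ᵥ* (Matrix.diagonal d).submatrix Fin.revPerm id) a = _
    rw [single_one_vecMul]
    simp only [Matrix.row_apply, submatrix_apply, id_eq, Fin.revPerm_apply, Matrix.diagonal_apply,
      Pi.smul_apply, Pi.single_apply, smul_eq_mul, mul_ite, mul_one, mul_zero]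
    by_cases h : i.rev = a
    · rw [if_pos h, if_pos h.symm]
    · rw [if_neg h, if_neg (Ne.symm h)]

/-- A conjugate of the regular unipotent element that is lower triangular. -/
theorem exists_lower (hn : 0 < n) : ∃ g : Matrix.SpecialLinearGroup (Fin n) F,
    ∀ k k' : Fin n, (k' : ℕ) = k + 1 → ∃ s t : F, s ≠ 0 ∧ t ≠ 0 ∧
      ((g * regUnip F n * g⁻¹ : Matrix.SpecialLinearGroup (Fin n) F) : Matrix (Fin n) (Fin n) F) *ᵥ
          𝐞 k = 𝐞 k + s • 𝐞 k' ∧
      𝐞 k' ᵥ* ((g * regUnip F n * g⁻¹ : Matrix.SpecialLinearGroup (Fin n) F) :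
          Matrix (Fin n) (Fin n) F) = 𝐞 k' + t • 𝐞 k := by
  obtain ⟨g, d, hd, hcol, hrow⟩ := exists_reverse (F := F) hn
  refine ⟨g, fun k k' hk => ?_⟩
  set v := g * regUnip F n * g⁻¹ with hv
  have hvg : (v : Matrix (Fin n) (Fin n) F) * (g : Matrix (Fin n) (Fin n) F) =
      (g : Matrix (Fin n) (Fin n) F) * (regUnip F n : Matrix (Fin n) (Fin n) F) :=
    congrArg Subtype.val (show v * g = g * regUnip F n by rw [hv, inv_mul_cancel_right])
  have hgg : (g : Matrix (Fin n) (Fin n) F) *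
      ((g⁻¹ : Matrix.SpecialLinearGroup (Fin n) F) : Matrix (Fin n) (Fin n) F) = 1 :=
    congrArg Subtype.val (mul_inv_cancel g)
  have hr : (k.rev : ℕ) = k'.rev + 1 := by simp only [Fin.val_rev]; omega
  refine ⟨d k'.rev / d k.rev, d k'.rev / d k.rev, div_ne_zero (hd _) (hd _),
    div_ne_zero (hd _) (hd _), ?_, ?_⟩
  · have h1 : (v : Matrix (Fin n) (Fin n) F) *ᵥ ((g : Matrix (Fin n) (Fin n) F) *ᵥ 𝐞 k.rev) =
        (g : Matrix (Fin n) (Fin n) F) *ᵥ (𝐞 k.rev + 𝐞 k'.rev) := by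
      rw [mulVec_mulVec, hvg, ← mulVec_mulVec, regUnip_mulVec_succ _ _ hr]
    rw [mulVec_add, hcol, hcol, Fin.rev_rev, Fin.rev_rev, mulVec_smul] at h1
    have h2 := congrArg ((d k.rev)⁻¹ • ·) h1
    simp only [smul_add, smul_smul, inv_mul_cancel₀ (hd _), one_smul] at h2
    rw [h2, div_eq_inv_mul]
  · have h1 : (𝐞 k' ᵥ* (v : Matrix (Fin n) (Fin n) F)) ᵥ* (g : Matrix (Fin n) (Fin n) F) =
        (𝐞 k' + (d k'.rev / d k.rev) • 𝐞 k) ᵥ* (g : Matrix (Fin n) (Fin n) F) := by
      rw [vecMul_vecMul, hvg, ← vecMul_vecMul, hrow, smul_vecMul,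
        vecMul_regUnip_succ _ _ hr, add_vecMul, smul_vecMul, hrow, hrow, smul_smul,
        div_mul_cancel₀ _ (hd _), smul_add]
    have h2 := congrArg (fun w => w ᵥ*
      ((g⁻¹ : Matrix.SpecialLinearGroup (Fin n) F) : Matrix (Fin n) (Fin n) F)) h1
    simp only [vecMul_vecMul, mul_assoc, hgg, mul_one, vecMul_one] at h2
    exact h2

theorem exists_scaled_primitive [Finite F] {k : F} (hk : k ≠ 0) (S : Set F)
    (hmul : ∀ a ∈ S, ∀ b ∈ S, k * (a * b) ∈ S) (h0 : (0 : F) ∈ S) {γ : F}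
    (hγ : ∀ x : F, x ≠ 0 → ∃ m : ℕ, γ ^ (m + 1) = x) (hα : γ / k ∈ S) : ∀ x : F, x ∈ S := by
  have hp : ∀ m : ℕ, γ ^ (m + 1) / k ∈ S := by
    intro m
    induction m with
    | zero => simpa using hα
    | succ m ih =>
      have := hmul _ ih _ hα
      convert this using 1
      field_simp
      ring
  intro x
  rcases eq_or_ne x 0 with rfl | hx
  · exact h0
  · obtain ⟨m, hm⟩ := hγ (k * x) (mul_ne_zero hk hx)
    have := hp m
    rwa [hm, mul_div_cancel_left₀ _ hk] at this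

theorem exists_primitive [Finite F] :
    ∃ γ : F, γ ≠ 0 ∧ ∀ x : F, x ≠ 0 → ∃ m : ℕ, γ ^ (m + 1) = x := by
  obtain ⟨γ, hγ⟩ := IsCyclic.exists_monoid_generator (α := Fˣ)
  refine ⟨γ, γ.ne_zero, fun x hx => ?_⟩
  obtain ⟨m, hm⟩ := Submonoid.mem_powers_iff _ _ |>.mp (hγ (Units.mk0 x hx))
  refine ⟨m + orderOf γ - 1, ?_⟩
  have ho : 0 < orderOf γ := orderOf_pos γ
  rw [Nat.sub_add_cancel (by omega), ← Units.val_pow_eq_pow_val, pow_add, hm,
    pow_orderOf_eq_one, mul_one, Units.val_mk0]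

/-- The main result. -/
theorem three_regular_unipotents [Finite F] (hn : 3 ≤ n) :
    ∃ u g h : Matrix.SpecialLinearGroup (Fin n) F,
      (IsNilpotent ((u : Matrix (Fin n) (Fin n) F) - 1) ∧
        ((u : Matrix (Fin n) (Fin n) F) - 1) ^ (n - 1) ≠ 0) ∧
      Subgroup.closure ({u, g * u * g⁻¹, h * u * h⁻¹} :
        Set (Matrix.SpecialLinearGroup (Fin n) F)) = ⊤ := by
  classical
  haveI : Nontrivial (Fin n) := Fin.nontrivial_iff_two_le.mpr (by omega)
  obtain ⟨G, hG⟩ := exists_lower (F := F) (show 0 < n by omega)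
  set u := regUnip F n with hu
  set v := G * u * G⁻¹ with hv
  set z : Fin n := ⟨0, by omega⟩ with hz
  set o : Fin n := ⟨1, by omega⟩ with ho
  set l : Fin n := ⟨n - 1, by omega⟩ with hl
  have hzl : z ≠ l := by simp [hz, hl, Fin.ext_iff]; omega
  have hol : o ≠ l := by simp [ho, hl, Fin.ext_iff]; omega
  have hzo : z ≠ o := by simp [hz, ho, Fin.ext_iff]
  -- the row `ψ`
  set ψ : Fin n → F :=
    𝐞 l ᵥ* ((v⁻¹ : Matrix.SpecialLinearGroup (Fin n) F) : Matrix (Fin n) (Fin n) F) with hψ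
  have hψv : ψ ᵥ* (v : Matrix (Fin n) (Fin n) F) = 𝐞 l := by
    rw [hψ, vecMul_vecMul, show ((v⁻¹ : Matrix.SpecialLinearGroup (Fin n) F) :
      Matrix (Fin n) (Fin n) F) * (v : Matrix (Fin n) (Fin n) F) = 1 from
        congrArg Subtype.val (inv_mul_cancel v), vecMul_one]
  have hψ0 : ψ z ≠ 0 := by
    intro h0
    have hall : ∀ m : ℕ, ∀ hm : m < n, ψ ⟨m, hm⟩ = 0 := by
      intro m
      induction m with
      | zero => exact fun _ => h0
      | succ m ih =>
        intro hm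
        obtain ⟨s, t, hs, -, h1, -⟩ := hG ⟨m, by omega⟩ ⟨m + 1, hm⟩ rfl
        have h2 : (ψ ᵥ* (v : Matrix (Fin n) (Fin n) F)) ⬝ᵥ 𝐞 (⟨m, by omega⟩ : Fin n) = 0 := by
          rw [hψv, single_one_dotProduct, Pi.single_apply, if_neg]
          simp [hl, Fin.ext_iff]; omega
        rw [← dotProduct_mulVec, h1, dotProduct_add, dotProduct_smul, dotProduct_single,
          dotProduct_single, mul_one, mul_one, ih (by omega), zero_add, smul_eq_mul] at h2
        exact (mul_eq_zero.mp h2).resolve_left hs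
    have : ψ = 0 := funext fun i => hall i.1 i.2
    rw [this, zero_vecMul] at hψv
    have := congrFun hψv l
    simp at this
  obtain ⟨s₁, -, hs₁, -, hvz, -⟩ := hG z o rfl
  obtain ⟨γ, hγ0, hγ⟩ := exists_primitive (F := F)
  set k : F := -(ψ z) * s₁ with hk
  have hk0 : k ≠ 0 := mul_ne_zero (neg_ne_zero.mpr hψ0) hs₁
  set α : F := γ / k with hα
  -- the second conjugating element
  set x : Matrix.SpecialLinearGroup (Fin n) F :=
    Matrix.SpecialLinearGroup.transvection hol (-α) with hx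
  refine ⟨u, x, G, ⟨regUnip_isNilpotent, regUnip_pow_ne (by omega)⟩, ?_⟩
  set H := Subgroup.closure ({u, x * u * x⁻¹, G * u * G⁻¹} :
    Set (Matrix.SpecialLinearGroup (Fin n) F)) with hH
  have huH : u ∈ H := Subgroup.subset_closure (by simp)
  have hvH : v ∈ H := Subgroup.subset_closure (by simp [hv])
  have hxH : x * u * x⁻¹ ∈ H := Subgroup.subset_closure (by simp)
  -- the elementary element
  have htv : Mem H (α • 𝐞 z) (𝐞 l) := by
    refine ⟨u⁻¹ * (x * u * x⁻¹), H.mul_mem (H.inv_mem huH) hxH, ?_⟩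
    have hxm : (x : Matrix (Fin n) (Fin n) F) = 1 + vecMulVec ((-α) • 𝐞 o) (𝐞 l) := by
      rw [hx, Matrix.SpecialLinearGroup.transvection_coe, smul_vecMulVec,
        ← Matrix.single_eq_single_vecMulVec_single, smul_single, smul_eq_mul, mul_one]
    have hum : (u : Matrix (Fin n) (Fin n) F) *ᵥ 𝐞 o = 𝐞 o + 𝐞 z :=
      regUnip_mulVec_succ z o rfl
    have huz : (u : Matrix (Fin n) (Fin n) F) *ᵥ 𝐞 z = 𝐞 z := regUnip_mulVec_zero _
    have hul : 𝐞 l ᵥ* (u : Matrix (Fin n) (Fin n) F) = 𝐞 l :=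
      vecMul_regUnip_last l (by simp [hl]; omega)
    have key : (x : Matrix (Fin n) (Fin n) F) * (u : Matrix (Fin n) (Fin n) F) =
        (u : Matrix (Fin n) (Fin n) F) * (1 + vecMulVec (α • 𝐞 z) (𝐞 l)) *
          (x : Matrix (Fin n) (Fin n) F) := by
      have hel : 𝐞 l ⬝ᵥ ((-α) • 𝐞 o) = 0 := by
        rw [dotProduct_smul, single_one_dotProduct, Pi.single_apply, if_neg hol.symm, smul_zero]
      have hM : (u : Matrix (Fin n) (Fin n) F) * (1 + vecMulVec (α • 𝐞 z) (𝐞 l)) =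
          (u : Matrix (Fin n) (Fin n) F) + vecMulVec (α • 𝐞 z) (𝐞 l) := by
        rw [mul_add, mul_one, mul_vecMulVec, mulVec_smul, huz]
      rw [hM, hxm, add_mul, one_mul, vecMulVec_mul, hul, add_mul, mul_add, mul_add, mul_one,
        mul_one, mul_vecMulVec, mulVec_smul, hum, vecMulVec_mul_vecMulVec, hel, zero_smul,
        vecMulVec_zero, add_zero, smul_add, add_vecMulVec, neg_smul, neg_smul, neg_vecMulVec,
        neg_vecMulVec]
      abel
    have hgg : (x : Matrix (Fin n) (Fin n) F) *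
        ((x⁻¹ : Matrix.SpecialLinearGroup (Fin n) F) : Matrix (Fin n) (Fin n) F) = 1 :=
      congrArg Subtype.val (mul_inv_cancel x)
    have huu : ((u⁻¹ : Matrix.SpecialLinearGroup (Fin n) F) : Matrix (Fin n) (Fin n) F) *
        (u : Matrix (Fin n) (Fin n) F) = 1 := congrArg Subtype.val (inv_mul_cancel u)
    show ((u⁻¹ : Matrix.SpecialLinearGroup (Fin n) F) : Matrix (Fin n) (Fin n) F) *
      ((x : Matrix (Fin n) (Fin n) F) * (u : Matrix (Fin n) (Fin n) F) *
        ((x⁻¹ : Matrix.SpecialLinearGroup (Fin n) F) : Matrix (Fin n) (Fin n) F)) = _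
    rw [key, mul_assoc _ (x : Matrix (Fin n) (Fin n) F), hgg, mul_one, ← mul_assoc, huu, one_mul]
  -- conjugation by `v` followed by a commutator
  have hvconj : ∀ (μ lam : F) (w : Fin n → F), 𝐞 l ⬝ᵥ w = 0 →
      𝐞 l ⬝ᵥ ((v : Matrix (Fin n) (Fin n) F) *ᵥ w) = 0 → Mem H (μ • w) (𝐞 l) →
      Mem H (lam • 𝐞 z) (𝐞 l) →
      Mem H ((-(ψ z) * (lam * μ)) • ((v : Matrix (Fin n) (Fin n) F) *ᵥ w)) (𝐞 l) := by
    intro μ lam w hw hvw hm hl'
    have h1 := mem_conj hvH hm
    rw [mulVec_smul] at h1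
    have h2 := mem_comm (a := lam • 𝐞 z) (φ := 𝐞 l) (ψ := ψ) ?_ ?_ ?_ hl' h1
    · rw [dotProduct_smul, dotProduct_single, mul_one, smul_eq_mul, smul_smul] at h2
      rwa [show -(ψ z) * (lam * μ) = -(lam * ψ z) * μ by ring]
    · rw [dotProduct_smul, single_one_dotProduct, Pi.single_apply, if_neg hzl.symm, smul_zero]
    · rw [dotProduct_smul, dotProduct_mulVec, hψv, hw, smul_zero]
    · rw [dotProduct_smul, hvw, smul_zero]
  have hlsingle : ∀ i : Fin n, i ≠ l → 𝐞 l ⬝ᵥ 𝐞 i = 0 := fun i hi => by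
    rw [single_one_dotProduct, Pi.single_apply, if_neg hi.symm]
  have hlv : ∀ (a b : Fin n) (s : F), a ≠ l → b ≠ l → 𝐞 l ⬝ᵥ (𝐞 a + s • 𝐞 b) = 0 :=
    fun a b s ha hb => by
      rw [dotProduct_add, dotProduct_smul, hlsingle a ha, hlsingle b hb, smul_zero, add_zero]
  have hρ : ∀ lam μ : F, Mem H (lam • 𝐞 z) (𝐞 l) → Mem H (μ • 𝐞 z) (𝐞 l) →
      Mem H ((-(ψ z) * (lam * μ)) • (𝐞 z + s₁ • 𝐞 o)) (𝐞 l) := by
    intro lam μ h1 h2
    have := hvconj μ lam (𝐞 z) (hlsingle z hzl) (by rw [hvz]; exact hlv _ _ _ hzl hol) h2 h1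
    rwa [hvz] at this
  have hul' : 𝐞 l ᵥ* ((u⁻¹ : Matrix.SpecialLinearGroup (Fin n) F) : Matrix (Fin n) (Fin n) F) =
      𝐞 l := by
    conv_lhs => rw [← vecMul_regUnip_last (F := F) l (by simp [hl]; omega)]
    rw [vecMul_vecMul, show (regUnip F n : Matrix (Fin n) (Fin n) F) *
      ((u⁻¹ : Matrix.SpecialLinearGroup (Fin n) F) : Matrix (Fin n) (Fin n) F) = 1 from
        congrArg Subtype.val (mul_inv_cancel u), vecMul_one]
  have hclosed : ∀ lam μ : F, Mem H (lam • 𝐞 z) (𝐞 l) → Mem H (μ • 𝐞 z) (𝐞 l) →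
      Mem H ((k * (lam * μ)) • 𝐞 z) (𝐞 l) := by
    intro lam μ h1 h2
    have h3 := hρ lam μ h1 h2
    have h4 := mem_conj huH h3
    rw [hul', mulVec_smul, mulVec_add, mulVec_smul, regUnip_mulVec_zero (F := F) (by omega),
      regUnip_mulVec_succ z o rfl] at h4
    have h5 := mem_neg (by rw [dotProduct_smul, hlv _ _ _ hzl hol, smul_zero]) h3
    have h6 := mem_add (by rw [dotProduct_neg, dotProduct_smul, hlv _ _ _ hzl hol, smul_zero,
      neg_zero]) h4 h5
    convert h6 using 1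
    rw [hk]
    module
  have hfull0 : ∀ lam : F, Mem H (lam • 𝐞 z) (𝐞 l) :=
    exists_scaled_primitive hk0 {lam | Mem H (lam • 𝐞 z) (𝐞 l)}
      (fun a ha b hb => hclosed a b ha hb) (by simpa using mem_zero _) hγ htv
  -- all centres
  have hcen : ∀ m : ℕ, ∀ hm : m + 1 < n, ∀ lam : F,
      Mem H (lam • 𝐞 (⟨m, by omega⟩ : Fin n)) (𝐞 l) := by
    intro m
    induction m with
    | zero => exact fun _ => hfull0
    | succ m ih =>
      intro hm lam
      obtain ⟨s, -, hs, -, h1, -⟩ := hG ⟨m, by omega⟩ ⟨m + 1, by omega⟩ rfl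
      have hml : (⟨m, by omega⟩ : Fin n) ≠ l := by simp [hl, Fin.ext_iff]; omega
      have hml' : (⟨m + 1, by omega⟩ : Fin n) ≠ l := by simp [hl, Fin.ext_iff]; omega
      have h2 := hvconj 1 (-(ψ z)⁻¹ * (lam / s)) (𝐞 (⟨m, by omega⟩ : Fin n)) (hlsingle _ hml)
        (by rw [h1]; exact hlv _ _ _ hml hml') (ih (by omega) 1) (hfull0 _)
      rw [h1, show -(ψ z) * (-(ψ z)⁻¹ * (lam / s) * 1) = lam / s by field_simp] at h2
      have h3 := mem_add (by rw [dotProduct_smul, hlsingle _ hml, smul_zero]) h2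
        (ih (by omega) (-(lam / s)))
      convert h3 using 1
      rw [smul_add, smul_smul, div_mul_cancel₀ _ hs]
      module
  have hFull : Full H (𝐞 l) := by
    intro c hc
    have hcl : c l = 0 := by rwa [single_one_dotProduct] at hc
    rw [pi_eq_sum_univ' c]
    suffices ∀ T : Finset (Fin n), Mem H (∑ i ∈ T, c i • 𝐞 i) (𝐞 l) ∧
        𝐞 l ⬝ᵥ (∑ i ∈ T, c i • 𝐞 i) = 0 from (this Finset.univ).1
    intro T
    induction T using Finset.induction_on with
    | empty => simp [mem_zero]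
    | insert a T haT ih =>
      rw [Finset.sum_insert haT]
      rcases eq_or_ne a l with rfl | hal
      · rw [hcl, zero_smul, zero_add]; exact ih
      · have ha : (a : ℕ) + 1 < n := by
          have := a.isLt
          simp [hl, Fin.ext_iff] at hal
          omega
        refine ⟨mem_add ih.2 (hcen a ha (c a)) ih.1, ?_⟩
        rw [dotProduct_add, dotProduct_smul, hlsingle a hal, ih.2, smul_zero, add_zero]
  -- all axes
  have hrows : ∀ d : ℕ, ∀ i : Fin n, (i : ℕ) + d + 1 = n → Full H (𝐞 i) := by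
    intro d
    induction d with
    | zero =>
      intro i hi
      rwa [show i = l by simp [hl, Fin.ext_iff]; omega]
    | succ d ih =>
      intro i hi
      obtain ⟨-, t, -, ht, -, h1⟩ := hG i ⟨i + 1, by omega⟩ rfl
      have h2 := ih ⟨i + 1, by omega⟩ (by simp; omega)
      have h3 := full_add (full_vecMul h2 hvH) (full_smul h2 (-1))
      rw [h1] at h3
      have h4 := full_smul h3 t⁻¹
      convert h4 using 1
      rw [smul_add, smul_add, smul_smul, smul_smul, inv_mul_cancel₀ ht]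
      module
  rw [eq_top_iff]
  intro M _
  have ht : ∀ (i j : Fin n) (hij : i ≠ j) (c : F),
      Matrix.SpecialLinearGroup.transvection hij c ∈ H := by
    intro i j hij c
    obtain ⟨g, hg, hg'⟩ := hrows (n - 1 - j) j (by omega) (c • 𝐞 i) (by
      rw [dotProduct_smul, single_one_dotProduct, Pi.single_apply, if_neg hij.symm, smul_zero])
    convert hg using 1
    refine Subtype.ext ?_
    show (Matrix.SpecialLinearGroup.transvection hij c : Matrix (Fin n) (Fin n) F) = g.1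
    rw [hg', Matrix.SpecialLinearGroup.transvection_coe, smul_vecMulVec, ← Matrix.single_eq_single_vecMulVec_single,
      smul_single, smul_eq_mul, mul_one]
  exact (CfsgLib.SLn.eq_top_of_transvection H ht).ge (Subgroup.mem_top M)

end CfsgLib.H29.SLGen
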