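import Mathlib
import Cfsg.Agent.H29.SLGen.Basic
import Cfsg.Agent.H29.SLGen.ThreeUnip
import Cfsg.Agent.SLn.Basic

set_option autoImplicit false

/-!
Levels of rank one elements in a subgroup containing the regular unipotent element.
-/

namespace CfsgLib.H29.SLGen

open Matrix

variable {F : Type*} [Field F] {n : ℕ}

theorem regUnip_pow_apply (k : ℕ) (i j : Fin n) :
    ((regUnip F n : Matrix (Fin n) (Fin n) F) ^ k) i j =
      if (i : ℕ) ≤ j then (Nat.choose k ((j : ℕ) - i) : F) else 0 := by
  show ((1 + shift F n) ^ k) i j = _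
  induction k generalizing i j with
  | zero =>
    rw [pow_zero]
    by_cases h : i = j
    · subst h
      rw [if_pos le_rfl, Nat.sub_self, Nat.choose_zero_right, Nat.cast_one, Matrix.one_apply_eq]
    · rw [Matrix.one_apply_ne h]
      split
      · next h' =>
        rw [Nat.choose_eq_zero_of_lt (Nat.sub_pos_of_lt
          (lt_of_le_of_ne h' (fun e => h (Fin.ext e)))), Nat.cast_zero]
      · rfl
  | succ k ih =>
    rw [pow_succ, mul_add, mul_one, Matrix.add_apply, ih, Matrix.mul_apply]
    by_cases hj : (j : ℕ) = 0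
    · rw [Finset.sum_eq_zero (fun b _ => by simp [shift, hj])]
      simp [hj]
    · have hjlt : (j : ℕ) - 1 < n := by omega
      rw [Finset.sum_eq_single (⟨(j : ℕ) - 1, hjlt⟩ : Fin n)]
      · rw [ih]
        simp only [shift, Matrix.of_apply, show (j : ℕ) - 1 + 1 = j by omega, if_true, mul_one]
        split_ifs with h1 h2 h3
        · rw [← Nat.cast_add, show (j : ℕ) - i = ((j : ℕ) - 1 - i) + 1 by omega, Nat.choose_succ_succ,
            add_comm]
        · simp [show (j : ℕ) - i = 0 by omega]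
        · omega
        · simp
      · intro b _ hb
        simp only [shift, Matrix.of_apply]
        rw [if_neg (fun h => hb (Fin.ext (by simp only; omega))), mul_zero]
      · simp

/-- The first row axis. -/
def axis (F : Type*) [Field F] (hn : 0 < n) : Fin n → F := Pi.single ⟨0, hn⟩ 1

/-- The orbit of the last basis vector. -/
def pw (F : Type*) [Field F] (hn : 0 < n) (a : ℤ) : Fin n → F :=
  ((regUnip F n ^ a : Matrix.SpecialLinearGroup (Fin n) F) : Matrix (Fin n) (Fin n) F) *ᵥ
    Pi.single ⟨n - 1, by omega⟩ 1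

/-- The value of the axis on the orbit. -/
def ev (F : Type*) [Field F] (hn : 0 < n) (a : ℤ) : F := axis F hn ⬝ᵥ pw F hn a

variable {hn : 0 < n}

theorem mulVec_pw (a b : ℤ) :
    ((regUnip F n ^ a : Matrix.SpecialLinearGroup (Fin n) F) : Matrix (Fin n) (Fin n) F) *ᵥ
      pw F hn b = pw F hn (a + b) := by
  unfold pw
  rw [mulVec_mulVec]
  exact congrArg (fun M : Matrix.SpecialLinearGroup (Fin n) F =>
    (M : Matrix (Fin n) (Fin n) F) *ᵥ Pi.single _ 1) (_root_.zpow_add _ a b).symm

theorem pw_natCast (k : ℕ) :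
    pw F hn (k : ℤ) = fun a : Fin n => (Nat.choose k (n - 1 - (a : ℕ)) : F) := by
  funext a
  have := a.isLt
  unfold pw
  rw [zpow_natCast, mulVec_single_one]
  show ((regUnip F n ^ k : Matrix.SpecialLinearGroup (Fin n) F) : Matrix (Fin n) (Fin n) F) a
    ⟨n - 1, _⟩ = _
  rw [Matrix.SpecialLinearGroup.coe_pow, regUnip_pow_apply, if_pos (by simp only; omega)]

theorem ev_natCast (k : ℕ) : ev F hn (k : ℤ) = (Nat.choose k (n - 1) : F) := by
  rw [ev, axis, single_one_dotProduct, pw_natCast]
  simp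

theorem ev_eq_zero (k : ℕ) (hk : k + 2 ≤ n) : ev F hn (k : ℤ) = 0 := by
  rw [ev_natCast, Nat.choose_eq_zero_of_lt (by omega), Nat.cast_zero]

theorem ev_pred : ev F hn ((n - 1 : ℕ) : ℤ) = 1 := by
  rw [ev_natCast, Nat.choose_self, Nat.cast_one]

section Periodic

variable (p : ℕ) [hp : Fact p.Prime] [hc : CharP F p]

include hp hc

theorem regUnip_pow_period : regUnip F n ^ (p ^ n) = 1 := by
  refine Subtype.ext ?_
  rw [Matrix.SpecialLinearGroup.coe_pow]
  ext i j
  have h1 : n < p ^ n := Nat.lt_pow_self hp.out.one_lt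
  have := j.isLt
  rw [regUnip_pow_apply]
  show _ = (1 : Matrix (Fin n) (Fin n) F) i j
  by_cases h : i = j
  · subst h
    rw [if_pos le_rfl, Nat.sub_self, Nat.choose_zero_right, Nat.cast_one, Matrix.one_apply_eq]
  · rw [Matrix.one_apply_ne h]
    split
    · next h' =>
      rw [CharP.cast_eq_zero_iff F p]
      refine hp.out.dvd_choose_pow ?_ (by omega)
      intro h0
      exact h (Fin.ext (by omega))
    · rfl

theorem cast_choose_pred : ∀ a j : ℕ, a + j < p ^ n →
    (Nat.choose (p ^ n - 1 - a) j : F) = (-1) ^ j * (Nat.choose (a + j) j : F) := by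
  intro a
  induction a with
  | zero =>
    intro j hj
    induction j with
    | zero => simp
    | succ j ih =>
      have h := Nat.choose_succ_succ (p ^ n - 1) j
      rw [show (p ^ n - 1).succ = p ^ n by have := Nat.one_le_pow n p hp.out.pos; omega] at h
      have h0 : (Nat.choose (p ^ n) j.succ : F) = 0 := by
        rw [CharP.cast_eq_zero_iff F p]
        exact hp.out.dvd_choose_pow (by omega) (by omega)
      rw [h, Nat.cast_add] at h0
      simp only [Nat.zero_add, Nat.choose_self, Nat.cast_one, mul_one, Nat.sub_zero] at ih ⊢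
      rw [ih (by omega)] at h0
      rw [pow_succ, eq_neg_of_add_eq_zero_right h0]
      ring
  | succ a iha =>
    intro j hj
    induction j with
    | zero => simp
    | succ j ih =>
      have h := Nat.choose_succ_succ (p ^ n - 1 - (a + 1)) j
      rw [show (p ^ n - 1 - (a + 1)).succ = p ^ n - 1 - a by omega] at h
      have h' := congrArg (fun x : ℕ => (x : F)) h
      simp only [Nat.cast_add] at h'
      rw [iha (j + 1) (by omega), ih (by omega)] at h'
      have h2 := Nat.choose_succ_succ (a + 1 + j) j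
      rw [show (a + 1 + j).succ = a + 1 + (j + 1) by omega] at h2
      rw [h2, Nat.cast_add]
      rw [show a + (j + 1) = a + 1 + j by omega] at h'
      simp only [Nat.succ_eq_add_one] at h' ⊢
      rw [pow_succ] at h' ⊢
      linear_combination -h'

theorem ev_negSucc (a : ℕ) (ha : a + n ≤ p ^ n) :
    ev F hn (-((a : ℤ) + 1)) = (-1) ^ (n - 1) * (Nat.choose (a + (n - 1)) (n - 1) : F) := by
  rw [← cast_choose_pred (F := F) (n := n) p a (n - 1) (by omega), ← ev_natCast (hn := hn)]
  refine congrArg (fun M : Matrix.SpecialLinearGroup (Fin n) F => axis F hn ⬝ᵥ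
    ((M : Matrix (Fin n) (Fin n) F) *ᵥ Pi.single (⟨n - 1, _⟩ : Fin n) 1)) ?_
  have hle : a + 1 ≤ p ^ n := by omega
  have hcast : ((p ^ n - 1 - a : ℕ) : ℤ) = ((p ^ n : ℕ) : ℤ) + -((a : ℤ) + 1) := by
    rw [show p ^ n - 1 - a = p ^ n - (a + 1) by omega, Nat.cast_sub hle, Nat.cast_add, Nat.cast_one]
    ring
  rw [hcast, _root_.zpow_add, zpow_natCast, regUnip_pow_period p, one_mul]

theorem ev_neg_one : ev F hn (-1) = (-1) ^ (n - 1) := by
  have h := ev_negSucc (F := F) (hn := hn) p 0
    (by have : n < p ^ n := Nat.lt_pow_self hp.out.one_lt; omega)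
  rw [Nat.zero_add, Nat.choose_self, Nat.cast_one, mul_one, Nat.cast_zero, zero_add] at h
  exact h

theorem cast_choose_lucas (v m : ℕ) :
    (Nat.choose (p ^ v * (m + 1) - 1) (p ^ v) : F) = (m : F) := by
  have key : ∀ v : ℕ, Nat.choose (p ^ v * (m + 1) - 1) (p ^ v) ≡ m [MOD p] := by
    intro v
    induction v with
    | zero => simp [Nat.ModEq]
    | succ v ih =>
      have hpos : 1 ≤ p ^ v * (m + 1) := Nat.one_le_iff_ne_zero.mpr (by positivity [hp.out.pos])
      have e1 : p ^ (v + 1) * (m + 1) - 1 = (p - 1) + p * (p ^ v * (m + 1) - 1) := by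
        rw [pow_succ', mul_assoc, Nat.mul_sub, mul_one]
        have := Nat.le_mul_of_pos_right p hpos
        have := hp.out.pos
        omega
      have h := Choose.choose_modEq_choose_mod_mul_choose_div_nat
        (n := p ^ (v + 1) * (m + 1) - 1) (k := p ^ (v + 1)) (p := p)
      have hp1 : p - 1 < p := Nat.sub_lt hp.out.pos one_pos
      rw [e1, Nat.add_mul_mod_self_left, Nat.mod_eq_of_lt hp1, Nat.add_mul_div_left _ _ hp.out.pos,
        Nat.div_eq_of_lt hp1, zero_add, pow_succ' p v, Nat.mul_mod_right,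
        Nat.mul_div_cancel_left _ hp.out.pos, Nat.choose_zero_right, one_mul] at h
      rw [e1, pow_succ']
      exact h.trans ih
  exact (CharP.natCast_eq_natCast F p).mpr (key v)

end Periodic

/-- The levels of the rank one element with centre `pw a` and axis `axis`. -/
def Lv (H : Subgroup (Matrix.SpecialLinearGroup (Fin n) F)) (hn : 0 < n) (a : ℤ) : Set F :=
  {x | Mem H (x • pw F hn a) (axis F hn)}

variable {H : Subgroup (Matrix.SpecialLinearGroup (Fin n) F)}

theorem zero_mem_Lv (a : ℤ) : (0 : F) ∈ Lv H hn a := by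
  simp only [Lv, Set.mem_setOf_eq, zero_smul]
  exact mem_zero _

theorem add_mem_Lv {a : ℤ} (ha : ev F hn a = 0) {x y : F} (hx : x ∈ Lv H hn a)
    (hy : y ∈ Lv H hn a) : x + y ∈ Lv H hn a := by
  simp only [Lv, Set.mem_setOf_eq, add_smul]
  exact mem_add (by rw [dotProduct_smul]; exact by rw [show axis F hn ⬝ᵥ pw F hn a = 0 from ha,
    smul_zero]) hx hy

theorem neg_mem_Lv {a : ℤ} (ha : ev F hn a = 0) {x : F} (hx : x ∈ Lv H hn a) :
    -x ∈ Lv H hn a := by
  simp only [Lv, Set.mem_setOf_eq, neg_smul]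
  exact mem_neg (by rw [dotProduct_smul, show axis F hn ⬝ᵥ pw F hn a = 0 from ha, smul_zero]) hx

theorem rule (hu : regUnip F n ∈ H) {e s t : ℤ} (he : ev F hn e = 0) (hs : ev F hn s = 0)
    (ht : ev F hn t = 0) {a b : F} (ha : a ∈ Lv H hn s) (hb : b ∈ Lv H hn t) :
    -(ev F hn (s + t - e)) * a * b ∈ Lv H hn e := by
  have hg : regUnip F n ^ (e - t) ∈ H := H.zpow_mem hu _
  have h1 := mem_conj hg hb
  rw [mulVec_smul, mulVec_pw, sub_add_cancel, ← _root_.zpow_neg] at h1
  have h2 := mem_comm (a := a • pw F hn s) (φ := axis F hn)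
    (ψ := axis F hn ᵥ* ((regUnip F n ^ (-(e - t)) : Matrix.SpecialLinearGroup (Fin n) F) :
      Matrix (Fin n) (Fin n) F)) (b := b • pw F hn e) ?_ ?_ ?_ ha h1
  · rw [dotProduct_smul, ← dotProduct_mulVec, mulVec_pw, smul_smul,
      show -(e - t) + s = s + t - e by ring] at h2
    show Mem H _ _
    convert h2 using 2
    simp [ev, mul_comm, mul_assoc, mul_left_comm]
  · rw [dotProduct_smul, show axis F hn ⬝ᵥ pw F hn s = 0 from hs, smul_zero]
  · rw [dotProduct_smul, ← dotProduct_mulVec, mulVec_pw, show -(e - t) + e = t by ring,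
      show axis F hn ⬝ᵥ pw F hn t = 0 from ht, smul_zero]
  · rw [dotProduct_smul, show axis F hn ⬝ᵥ pw F hn e = 0 from he, smul_zero]

theorem eq_top_of_levels (hn2 : 2 ≤ n) (hu : regUnip F n ∈ H)
    (hall : ∀ j : ℕ, j + 2 ≤ n → ∀ x : F, x ∈ Lv H hn (j : ℤ)) : H = ⊤ := by
  haveI : Nontrivial (Fin n) := Fin.nontrivial_iff_two_le.mpr hn2
  set z : Fin n := ⟨0, hn⟩ with hz
  -- the centres
  have hW : ∀ j : ℕ, ∀ hj : j + 2 ≤ n, ∀ x : F,
      Mem H (x • Pi.single (⟨n - 1 - j, by omega⟩ : Fin n) 1) (axis F hn) := by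
    intro j
    induction j using Nat.strong_induction_on with
    | _ j ih =>
      intro hj x
      have hpw : x • pw F hn (j : ℤ) = x • Pi.single (⟨n - 1 - j, by omega⟩ : Fin n) 1 +
          ∑ i ∈ (Finset.range j).attach, (x * (Nat.choose j i.1 : F)) •
            (Pi.single (⟨n - 1 - i.1, by omega⟩ : Fin n) 1 : Fin n → F) := by
        rw [pw_natCast]
        funext a
        have := a.isLt
        simp only [Pi.smul_apply, Pi.add_apply, Finset.sum_apply, Pi.single_apply, smul_eq_mul,
          mul_ite, mul_one, mul_zero, Fin.ext_iff]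
        rw [Finset.sum_attach (Finset.range j)
          (fun i => if (a : ℕ) = n - 1 - i then x * (Nat.choose j i : F) else 0)]
        rcases Nat.lt_trichotomy (n - 1 - (a : ℕ)) j with h | h | h
        · rw [if_neg (by omega), zero_add, Finset.sum_eq_single (n - 1 - (a : ℕ))]
          · rw [if_pos (by omega)]
          · intro i hi hne
            rw [Finset.mem_range] at hi
            rw [if_neg (by omega)]
          · intro h'; exact absurd (Finset.mem_range.mpr h) h'
        · rw [if_pos (by omega), h, Nat.choose_self, Nat.cast_one, mul_one,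
            Finset.sum_eq_zero (fun i hi => if_neg (by rw [Finset.mem_range] at hi; omega)),
            add_zero]
        · rw [if_neg (by omega), Nat.choose_eq_zero_of_lt h, Nat.cast_zero, mul_zero,
            Finset.sum_eq_zero (fun i hi => if_neg (by rw [Finset.mem_range] at hi; omega)),
            add_zero]
      have hsum : ∀ T : Finset {i // i ∈ Finset.range j},
          Mem H (-∑ i ∈ T, (x * (Nat.choose j i.1 : F)) •
            (Pi.single (⟨n - 1 - i.1, by omega⟩ : Fin n) 1 : Fin n → F)) (axis F hn) ∧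
          axis F hn ⬝ᵥ (-∑ i ∈ T, (x * (Nat.choose j i.1 : F)) •
            (Pi.single (⟨n - 1 - i.1, by omega⟩ : Fin n) 1 : Fin n → F)) = 0 := by
        intro T
        induction T using Finset.induction_on with
        | empty => simp [mem_zero]
        | insert i T hiT ihT =>
          have hij : i.1 < j := Finset.mem_range.mp i.2
          rw [Finset.sum_insert hiT, neg_add, ← neg_smul]
          refine ⟨mem_add ihT.2 (ih i.1 hij (by omega) _) ihT.1, ?_⟩
          rw [dotProduct_add, ihT.2, add_zero, dotProduct_smul, axis, single_one_dotProduct,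
            Pi.single_apply, if_neg (by simp [Fin.ext_iff]; omega), smul_zero]
      have h1 := mem_add (hsum Finset.univ).2 (hall j hj x) (hsum Finset.univ).1
      rwa [hpw, Finset.univ_eq_attach, add_neg_cancel_right] at h1
  have hFull : Full H (axis F hn) := by
    intro c hc
    have hcz : c z = 0 := by rwa [axis, single_one_dotProduct] at hc
    rw [pi_eq_sum_univ' c]
    suffices ∀ T : Finset (Fin n), Mem H (∑ i ∈ T, c i • Pi.single i 1) (axis F hn) ∧
        axis F hn ⬝ᵥ (∑ i ∈ T, c i • (Pi.single i 1 : Fin n → F)) = 0 from (this Finset.univ).1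
    intro T
    induction T using Finset.induction_on with
    | empty => simp [mem_zero]
    | insert a T haT ih =>
      rw [Finset.sum_insert haT]
      rcases eq_or_ne a z with rfl | haz
      · rw [hcz, zero_smul, zero_add]; exact ih
      · have ha : 0 < (a : ℕ) := Nat.pos_of_ne_zero (fun h => haz (Fin.ext h))
        have h1 := hW (n - 1 - a) (by omega) (c a)
        rw [show (⟨n - 1 - (n - 1 - (a : ℕ)), by omega⟩ : Fin n) = a from
          Fin.ext (by have := a.isLt; simp only; omega)] at h1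
        refine ⟨mem_add ih.2 h1 ih.1, ?_⟩
        rw [dotProduct_add, dotProduct_smul, ih.2, axis, single_one_dotProduct, Pi.single_apply,
          if_neg haz.symm, smul_zero, add_zero]
  have hrows : ∀ i : ℕ, ∀ hi : i < n, Full H (Pi.single (⟨i, hi⟩ : Fin n) 1) := by
    intro i
    induction i with
    | zero => exact fun _ => hFull
    | succ i ih =>
      intro hi
      have h3 := full_add (full_vecMul (ih (by omega)) hu) (full_smul (ih (by omega)) (-1))
      rwa [vecMul_regUnip_succ (⟨i, by omega⟩ : Fin n) ⟨i + 1, hi⟩ rfl, neg_one_smul,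
        add_neg_cancel_comm] at h3
  refine CfsgLib.SLn.eq_top_of_transvection H fun i j hij c => ?_
  obtain ⟨g, hg, hg'⟩ := hrows j j.2 (c • Pi.single i 1) (by
    rw [dotProduct_smul, single_one_dotProduct, Pi.single_apply, if_neg hij.symm, smul_zero])
  convert hg using 1
  refine Subtype.ext ?_
  show (Matrix.SpecialLinearGroup.transvection hij c : Matrix (Fin n) (Fin n) F) = g.1
  rw [hg', Matrix.SpecialLinearGroup.transvection_coe, smul_vecMulVec,
    ← Matrix.single_eq_single_vecMulVec_single, smul_single, smul_eq_mul, mul_one]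

/-- Generation from a non-zero level at `0` and a generating level at `1`. -/
theorem eq_top_of_two_levels [Finite F] (p : ℕ) [hp : Fact p.Prime] [CharP F p] (hn3 : 3 ≤ n)
    (h33 : n = 3 → p = 3) (hu : regUnip F n ∈ H) {L μ : F} (hL0 : L ≠ 0)
    (hL : L ∈ Lv H hn 0) (hμ : μ ∈ Lv H hn 1) (hμ0 : μ ≠ 0)
    (hgen : ∀ x : F, x ≠ 0 → (∃ m : ℕ, μ ^ (m + 1) = x) ∨ ∃ m : ℕ, L ^ (m + 1) = x) :
    H = ⊤ := by
  classical
  haveI := Fintype.ofFinite F
  set σ : F := -(ev F hn (-1)) with hσ
  have hσ2 : σ * σ = 1 := by rw [hσ, ev_neg_one p, neg_mul_neg, ← mul_pow, neg_one_mul, neg_neg,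
    one_pow]
  have hz : ∀ j : ℕ, j + 2 ≤ n → ev F hn (j : ℤ) = 0 := fun j hj => ev_eq_zero j hj
  have hz0 : ev F hn 0 = 0 := hz 0 (by omega)
  have hup : ∀ j : ℕ, j + 3 ≤ n → ∀ a ∈ Lv H hn 0, ∀ x ∈ Lv H hn (j : ℤ),
      σ * a * x ∈ Lv H hn ((j + 1 : ℕ) : ℤ) := by
    intro j hj a ha x hx
    have := rule hu (hz (j + 1) (by omega)) hz0 (hz j (by omega)) ha hx
    rwa [show (0 : ℤ) + (j : ℤ) - ((j + 1 : ℕ) : ℤ) = -1 by push_cast; ring] at this
  have hpow : ∀ j : ℕ, j + 2 ≤ n → σ ^ j * L ^ (j + 1) ∈ Lv H hn (j : ℤ) := by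
    intro j
    induction j with
    | zero => intro _; simpa using hL
    | succ j ih =>
      intro hj
      have := hup j (by omega) L hL _ (ih (by omega))
      convert this using 1
      ring
  set ℓ : F := σ ^ (n - 2) * L ^ (n - 1) with hℓ
  have hℓm : ℓ ∈ Lv H hn ((n - 2 : ℕ) : ℤ) := by
    have := hpow (n - 2) (by omega)
    rwa [show n - 2 + 1 = n - 1 by omega] at this
  have hdown : ∀ x ∈ Lv H hn 1, -(ℓ * x) ∈ Lv H hn 0 := by
    intro x hx
    have := rule hu hz0 (hz (n - 2) (by omega)) (hz 1 (by omega)) hℓm hx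
    rw [show ((n - 2 : ℕ) : ℤ) + ((1 : ℕ) : ℤ) - 0 = ((n - 1 : ℕ) : ℤ) by omega, ev_pred,
      neg_one_mul, neg_mul] at this
    exact this
  set k : F := -(ℓ * σ) with hk
  have hσ0 : σ ≠ 0 := fun h => by rw [h, zero_mul] at hσ2; exact zero_ne_one hσ2
  have hℓ0 : ℓ ≠ 0 := mul_ne_zero (pow_ne_zero _ hσ0) (pow_ne_zero _ hL0)
  have hk0 : k ≠ 0 := neg_ne_zero.mpr (mul_ne_zero hℓ0 hσ0)
  have hclosed : ∀ a ∈ Lv H hn 0, ∀ b ∈ Lv H hn 0, k * (a * b) ∈ Lv H hn 0 := by
    intro a ha b hb
    have := hdown _ (hup 0 (by omega) a ha b hb)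
    convert this using 1
    rw [hk]; ring
  -- the subring
  let M : Submonoid F := Submonoid.closure {x : F | x / k ∈ Lv H hn 0}
  have hMiff : ∀ x : F, x ≠ 0 → x ∈ M → ∀ y : F, y / k ∈ Lv H hn 0 → x * y / k ∈ Lv H hn 0 := by
    intro x _ hx
    induction hx using Submonoid.closure_induction with
    | mem w hw =>
      intro y hy
      convert hclosed _ hw _ hy using 1
      field_simp
    | one => intro y hy; rwa [one_mul]
    | mul a b _ _ iha ihb =>
      intro y hy
      rename_i hab
      rw [mul_assoc]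
      exact iha (left_ne_zero_of_mul hab) _ (ihb (right_ne_zero_of_mul hab) y hy)
  have hN : ∀ x : F, x ≠ 0 → x ^ (Fintype.card F - 1) = 1 := fun x hx =>
    FiniteField.pow_card_sub_one_eq_one x hx
  have hkL : (k * L) / k ∈ Lv H hn 0 := by rwa [mul_div_cancel_left₀ _ hk0]
  have hMmem : ∀ x : F, x ≠ 0 → (x ∈ M ↔ x / k ∈ Lv H hn 0) := by
    intro x hx
    refine ⟨fun h => ?_, fun h => Submonoid.subset_closure h⟩
    have h1 : (1 : F) / k ∈ Lv H hn 0 := by
      have hpw : ∀ m : ℕ, (k * L) ^ (m + 1) / k ∈ Lv H hn 0 := by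
        intro m
        induction m with
        | zero => rwa [pow_one]
        | succ m ih =>
          convert hclosed _ ih _ hkL using 1
          field_simp
          ring
      have := hpw (Fintype.card F - 1 - 1)
      rwa [Nat.sub_add_cancel (by have := Fintype.one_lt_card (α := F); omega),
        hN _ (mul_ne_zero hk0 hL0)] at this
    simpa using hMiff x hx h 1 h1
  have hsign : ∀ (j : ℕ) (x : F), x ≠ 0 → σ ^ j * x ∈ M → x ∈ M := by
    intro j x hx h
    have hσj : σ ^ j = 1 ∨ σ ^ j = -1 := by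
      refine sq_eq_one_iff.mp ?_
      rw [← pow_mul, mul_comm j 2, pow_mul, sq, hσ2, one_pow]
    rcases hσj with e | e
    · rwa [e, one_mul] at h
    · rw [e, neg_one_mul] at h
      rw [hMmem x hx]
      have := neg_mem_Lv hz0 ((hMmem _ (neg_ne_zero.mpr hx)).mp h)
      rwa [neg_div, neg_neg] at this
  have hnegM : ∀ x : F, x ≠ 0 → -x ∈ M → x ∈ M := by
    intro x hx h
    rw [hMmem x hx]
    have := neg_mem_Lv hz0 ((hMmem _ (neg_ne_zero.mpr hx)).mp h)
    rwa [neg_div, neg_neg] at this
  -- `L ^ n` and the second element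
  have hLn : L ^ n ∈ M := by
    have h : k * L ∈ M := Submonoid.subset_closure hkL
    refine hsign (n - 1) _ (pow_ne_zero _ hL0) (hnegM _ (mul_ne_zero (pow_ne_zero _ hσ0)
      (pow_ne_zero _ hL0)) ?_)
    convert h using 1
    obtain ⟨r, rfl⟩ : ∃ r, n = r + 2 := ⟨n - 2, by omega⟩
    simp only [hk, hℓ, show r + 2 - 2 = r by omega, show r + 2 - 1 = r + 1 by omega]
    ring
  have hLμ : L ^ (2 * (n - 1)) * μ ∈ M := by
    have h : k * -(ℓ * μ) ∈ M := Submonoid.subset_closure
      (by show k * -(ℓ * μ) / k ∈ Lv H hn 0; rw [mul_div_cancel_left₀ _ hk0]; exact hdown μ hμ)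
    refine hsign (2 * (n - 2) + 1) _ (mul_ne_zero (pow_ne_zero _ hL0) hμ0) ?_
    convert h using 1
    rw [hk, hℓ]
    ring
  -- `L` itself
  obtain ⟨e, -, hq⟩ := FiniteField.card F p
  have hfrob : ∀ v : ℕ, L ^ (p ^ v) ∈ M → L ∈ M := by
    intro v hv
    have h1 : (L ^ (p ^ v)) ^ (p ^ (((e : ℕ) - 1) * v)) = L := by
      rw [← pow_mul, ← pow_add, show v + ((e : ℕ) - 1) * v = (e : ℕ) * v by
        have := e.pos
        rw [Nat.sub_mul, one_mul, Nat.add_sub_cancel' (Nat.le_mul_of_pos_left v this)],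
        pow_mul, ← hq, FiniteField.pow_card_pow]
    rw [← h1]
    exact Submonoid.pow_mem M hv _
  obtain ⟨v, m, hpm, hnm⟩ := Nat.exists_eq_pow_mul_and_not_dvd (show n ≠ 0 by omega) p hp.out.ne_one
  have hLM : L ∈ M := by
    rcases Nat.eq_or_lt_of_le (show 1 ≤ m from Nat.one_le_iff_ne_zero.mpr
      (fun h => hpm (h ▸ dvd_zero p))) with h1 | h1
    · rw [← h1, mul_one] at hnm
      exact hfrob v (hnm ▸ hLn)
    · have hi : p ^ v + 3 ≤ n := by
        by_contra hlt
        have hpos : 0 < p ^ v := Nat.pos_of_ne_zero (pow_ne_zero _ hp.out.ne_zero)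
        have : p ^ v * 2 ≤ n := hnm ▸ Nat.mul_le_mul_left _ h1
        rcases (show p ^ v = 1 ∨ p ^ v = 2 by omega) with h2 | h2
        · rw [h2, one_mul] at hnm
          have h3 : n = 3 := by omega
          exact hpm (by rw [h33 h3, ← hnm, h3])
        · have hv : p = 2 := by
            rcases v with - | v
            · simp at h2
            · exact (Nat.prime_dvd_prime_iff_eq hp.out Nat.prime_two).mp
                (h2 ▸ dvd_pow_self p (by omega))
          rw [h2] at hnm
          exact hpm (by rw [hv]; omega)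
      have h := rule hu hz0 (hz (n - 2) (by omega)) (hz (1 + p ^ v) (by omega)) hℓm
        (hpow (1 + p ^ v) (by omega))
      rw [show ((n - 2 : ℕ) : ℤ) + ((1 + p ^ v : ℕ) : ℤ) - 0 = ((p ^ v * (m + 1) - 1 : ℕ) : ℤ) by
        rw [mul_add, mul_one, ← hnm]; omega, ev_natCast] at h
      have hch : (Nat.choose (p ^ v * (m + 1) - 1) (n - 1) : F) = (m : F) := by
        rw [← cast_choose_lucas (F := F) p v m]
        refine congrArg Nat.cast (Nat.choose_symm_of_eq_add ?_)
        rw [mul_add, mul_one, ← hnm]; omega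
      rw [hch] at h
      set x : F := ℓ * (σ ^ (1 + p ^ v) * L ^ (1 + p ^ v + 1)) with hx
      have hx0 : x ≠ 0 := mul_ne_zero hℓ0 (mul_ne_zero (pow_ne_zero _ hσ0) (pow_ne_zero _ hL0))
      have hmx : (m : F) * x ∈ Lv H hn 0 := by
        have := neg_mem_Lv hz0 h
        convert this using 1
        rw [hx]; ring
      have hxm : x ∈ Lv H hn 0 := by
        obtain ⟨r, hr⟩ : ∃ r : ℕ, ((r * m : ℕ) : F) = 1 := by
          refine ⟨((m : ZMod p)⁻¹).val, ?_⟩
          have hm0 : (m : ZMod p) ≠ 0 := by rwa [Ne, ZMod.natCast_eq_zero_iff]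
          have := congrArg (ZMod.castHom dvd_rfl F) (inv_mul_cancel₀ hm0)
          rw [map_mul, map_one, map_natCast, ZMod.castHom_apply, ZMod.cast_eq_val] at this
          rw [Nat.cast_mul]
          exact this
        have hnat : ∀ r : ℕ, (r : F) * ((m : F) * x) ∈ Lv H hn 0 := by
          intro r
          induction r with
          | zero => simpa using zero_mem_Lv (H := H) (hn := hn) 0
          | succ r ih => rw [Nat.cast_succ, add_mul, one_mul]; exact add_mem_Lv hz0 ih hmx
        have := hnat r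
        rwa [← mul_assoc, ← Nat.cast_mul, hr, one_mul] at this
      have hkx : k * x ∈ M := Submonoid.subset_closure
        (by show k * x / k ∈ Lv H hn 0; rwa [mul_div_cancel_left₀ _ hk0])
      have h2n : L ^ (2 * n + p ^ v) ∈ M := by
        refine hsign (2 * (n - 2) + 1 + (1 + p ^ v)) _ (pow_ne_zero _ hL0) (hnegM _
          (mul_ne_zero (pow_ne_zero _ hσ0) (pow_ne_zero _ hL0)) ?_)
        convert hkx using 1
        rw [hk, hx, hℓ, show 2 * n + p ^ v = (n - 1) + (n - 1) + (1 + p ^ v + 1) by omega]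
        ring
      refine hfrob v ?_
      have h' := M.mul_mem h2n (Submonoid.pow_mem M hLn (2 * (Fintype.card F - 1 - 1)))
      rw [← pow_mul, ← pow_add] at h'
      obtain ⟨N, hN'⟩ : ∃ N, Fintype.card F - 1 = N + 1 :=
        ⟨Fintype.card F - 2, by have := Fintype.one_lt_card (α := F); omega⟩
      rw [hN', Nat.add_sub_cancel,
        show 2 * n + p ^ v + n * (2 * N) = p ^ v + (N + 1) * (2 * n) by ring, pow_add, pow_mul L (N + 1),
        ← hN', hN L hL0, one_pow, mul_one] at h'
      exact h'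
  have hμM : μ ∈ M := by
    have h' := M.mul_mem (Submonoid.pow_mem M hLM (2 * (n - 1) * (Fintype.card F - 1 - 1))) hLμ
    obtain ⟨N, hN'⟩ : ∃ N, Fintype.card F - 1 = N + 1 :=
      ⟨Fintype.card F - 2, by have := Fintype.one_lt_card (α := F); omega⟩
    rw [← mul_assoc, ← pow_add, hN', Nat.add_sub_cancel,
      show 2 * (n - 1) * N + 2 * (n - 1) = (N + 1) * (2 * (n - 1)) by ring, pow_mul, ← hN',
      hN L hL0, one_pow, one_mul] at h'
    exact h'
  have hall0 : ∀ x : F, x ∈ Lv H hn 0 := by
    intro x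
    rcases eq_or_ne x 0 with rfl | hx
    · exact zero_mem_Lv 0
    · have hkxM : k * x ∈ M := by
        rcases hgen (k * x) (mul_ne_zero hk0 hx) with ⟨j, hj⟩ | ⟨j, hj⟩
        · exact hj ▸ Submonoid.pow_mem M hμM (j + 1)
        · exact hj ▸ Submonoid.pow_mem M hLM (j + 1)
      have := (hMmem _ (mul_ne_zero hk0 hx)).mp hkxM
      rwa [mul_div_cancel_left₀ _ hk0] at this
  refine eq_top_of_levels (hn := hn) (by omega) hu fun j => ?_
  induction j with
  | zero => exact fun _ => hall0
  | succ j ih =>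
    intro hj x
    have := hup j (by omega) _ (hall0 1) _ (ih (by omega) (σ * x))
    rwa [mul_one, ← mul_assoc, hσ2, one_mul] at this

end CfsgLib.H29.SLGen
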