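import Mathlib
import Cfsg.Agent.H29.SLGen.Levels

set_option autoImplicit false

/-!
Two conjugate regular unipotent elements generating `SL_n`: characteristic two, and dimension at
least five.
-/

namespace CfsgLib.H29.SLGen

open Matrix
open scoped commutatorElement

/-- A pair `u`, `g u g⁻¹` generates if `u, g` do and `g` normalises the pair's subgroup. -/
theorem closure_pair_eq_top {G : Type*} [Group G] [Finite G] (hperf : commutator G = ⊤) {u g : G}
    (hK : Subgroup.closure ({u, g} : Set G) = ⊤)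
    (hg : g * (g * u * g⁻¹) * g⁻¹ ∈ Subgroup.closure ({u, g * u * g⁻¹} : Set G)) :
    Subgroup.closure ({u, g * u * g⁻¹} : Set G) = ⊤ := by
  set H := Subgroup.closure ({u, g * u * g⁻¹} : Set G) with hH
  have hu : u ∈ H := Subgroup.subset_closure (by simp)
  have hgn : g ∈ Subgroup.normalizer (H : Set G) := by
    have hle : H.map (MulAut.conj g).toMonoidHom ≤ H := by
      rw [hH, MonoidHom.map_closure, Subgroup.closure_le]
      rintro _ ⟨a, ha, rfl⟩
      rcases ha with rfl | rfl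
      · exact Subgroup.subset_closure (Or.inr rfl)
      · exact hg
    have heq : H.map (MulAut.conj g).toMonoidHom = H :=
      Subgroup.eq_of_le_of_card_ge hle
        (by rw [Subgroup.card_map_of_injective (MulAut.conj g).injective])
    refine Subgroup.mem_normalizer_iff.mpr fun x => ⟨fun hx => ?_, fun hx => ?_⟩
    · exact heq.le (Subgroup.mem_map_of_mem _ hx)
    · obtain ⟨y, hy, hyx⟩ := heq.ge hx
      rwa [← (MulAut.conj g).injective hyx]
  haveI hn : H.Normal := by
    refine Subgroup.normalizer_eq_top_iff.mp (top_le_iff.mp (hK ▸ (Subgroup.closure_le _).mpr ?_))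
    rintro a (rfl | rfl)
    · exact Subgroup.le_normalizer hu
    · exact hgn
  rw [eq_top_iff, ← hperf, commutator_def, Subgroup.commutator_le]
  intro a _ b _
  have hz : ∀ x : G, QuotientGroup.mk' H x ∈ Subgroup.zpowers (QuotientGroup.mk' H g) := by
    intro x
    have hx : x ∈ (Subgroup.zpowers (QuotientGroup.mk' H g)).comap (QuotientGroup.mk' H) := by
      refine (hK ▸ (Subgroup.closure_le _).mpr ?_ : (⊤ : Subgroup G) ≤ _) (Subgroup.mem_top x)
      rintro c (rfl | rfl)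
      · show QuotientGroup.mk' H c ∈ Subgroup.zpowers _
        rw [show QuotientGroup.mk' H c = 1 from (QuotientGroup.eq_one_iff c).mpr hu]
        exact Subgroup.one_mem _
      · exact Subgroup.mem_zpowers _
    exact hx
  obtain ⟨i, hi⟩ := Subgroup.mem_zpowers_iff.mp (hz a)
  obtain ⟨j, hj⟩ := Subgroup.mem_zpowers_iff.mp (hz b)
  rw [← QuotientGroup.eq_one_iff]
  show QuotientGroup.mk' H ⁅a, b⁆ = 1
  rw [map_commutatorElement, ← hi, ← hj, commutatorElement_eq_one_iff_mul_comm]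
  exact (Commute.refl _).zpow_zpow i j

variable {F : Type*} [Field F] {n : ℕ}

/-- Being a regular unipotent element. -/
def IsRegUnip (u : Matrix.SpecialLinearGroup (Fin n) F) : Prop :=
  IsNilpotent ((u : Matrix (Fin n) (Fin n) F) - 1) ∧
    ((u : Matrix (Fin n) (Fin n) F) - 1) ^ (n - 1) ≠ 0

theorem IsRegUnip.conj {u : Matrix.SpecialLinearGroup (Fin n) F} (hu : IsRegUnip u)
    (g : Matrix.SpecialLinearGroup (Fin n) F) : IsRegUnip (g * u * g⁻¹) := by
  set G : Matrix (Fin n) (Fin n) F := (g : Matrix (Fin n) (Fin n) F)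
  set G' : Matrix (Fin n) (Fin n) F :=
    ((g⁻¹ : Matrix.SpecialLinearGroup (Fin n) F) : Matrix (Fin n) (Fin n) F)
  have h1 : G * G' = 1 := congrArg Subtype.val (mul_inv_cancel g)
  have h2 : G' * G = 1 := congrArg Subtype.val (inv_mul_cancel g)
  let X : (Matrix (Fin n) (Fin n) F)ˣ := ⟨G, G', h1, h2⟩
  have he : ((g * u * g⁻¹ : Matrix.SpecialLinearGroup (Fin n) F) : Matrix (Fin n) (Fin n) F) - 1 =
      (X : Matrix (Fin n) (Fin n) F) * ((u : Matrix (Fin n) (Fin n) F) - 1) *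
        ((X⁻¹ : (Matrix (Fin n) (Fin n) F)ˣ) : Matrix (Fin n) (Fin n) F) := by
    show G * (u : Matrix (Fin n) (Fin n) F) * G' - 1 = G * _ * G'
    rw [mul_sub, sub_mul, mul_one, h1]
  obtain ⟨⟨k, hk⟩, hne⟩ := hu
  refine ⟨⟨k, ?_⟩, fun h => hne ?_⟩
  · rw [he, Units.conj_pow, hk, mul_zero, zero_mul]
  · rw [he, Units.conj_pow] at h
    exact (Units.mul_right_eq_zero _).mp ((Units.mul_left_eq_zero _).mp h)

theorem isRegUnip_of_unit_conj {u v : Matrix.SpecialLinearGroup (Fin n) F} (hu : IsRegUnip u)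
    (X : (Matrix (Fin n) (Fin n) F)ˣ) (h : (v : Matrix (Fin n) (Fin n) F) =
      (X : Matrix (Fin n) (Fin n) F) * (u : Matrix (Fin n) (Fin n) F) *
        ((X⁻¹ : (Matrix (Fin n) (Fin n) F)ˣ) : Matrix (Fin n) (Fin n) F)) : IsRegUnip v := by
  have he : (v : Matrix (Fin n) (Fin n) F) - 1 =
      (X : Matrix (Fin n) (Fin n) F) * ((u : Matrix (Fin n) (Fin n) F) - 1) *
        ((X⁻¹ : (Matrix (Fin n) (Fin n) F)ˣ) : Matrix (Fin n) (Fin n) F) := by
    rw [h, mul_sub, sub_mul, mul_one, Units.mul_inv]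
  obtain ⟨⟨k, hk⟩, hne⟩ := hu
  refine ⟨⟨k, ?_⟩, fun h' => hne ?_⟩
  · rw [he, Units.conj_pow, hk, mul_zero, zero_mul]
  · rw [he, Units.conj_pow] at h'
    exact (Units.mul_right_eq_zero _).mp ((Units.mul_left_eq_zero _).mp h')

theorem regUnip_isRegUnip (hn : 0 < n) : IsRegUnip (regUnip F n) :=
  ⟨regUnip_isNilpotent, regUnip_pow_ne hn⟩

theorem exists_rank_one (c φ : Fin n → F) (h : φ ⬝ᵥ c = 0) :
    ∃ g : Matrix.SpecialLinearGroup (Fin n) F,
      (g : Matrix (Fin n) (Fin n) F) = 1 + vecMulVec c φ := by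
  refine ⟨⟨1 + vecMulVec c φ, ?_⟩, rfl⟩
  rw [vecMulVec_eq Unit, det_one_add_replicateCol_mul_replicateRow, h, add_zero]

variable [Finite F]

theorem two_regUnip_char_two [CharP F 2] (hn : 4 ≤ n) :
    ∃ u g : Matrix.SpecialLinearGroup (Fin n) F, IsRegUnip u ∧
      Subgroup.closure ({u, g * u * g⁻¹} : Set (Matrix.SpecialLinearGroup (Fin n) F)) = ⊤ := by
  classical
  haveI := Fintype.ofFinite F
  haveI : Nontrivial (Fin n) := Fin.nontrivial_iff_two_le.mpr (by omega)
  have hn0 : 0 < n := by omega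
  obtain ⟨lam, hlam0, hlam⟩ := exists_primitive (F := F)
  have hz0 : ev F hn0 0 = 0 := ev_eq_zero 0 (by omega)
  have hdot : axis F hn0 ⬝ᵥ (lam • pw F hn0 0) = 0 := by
    rw [dotProduct_smul, show axis F hn0 ⬝ᵥ pw F hn0 0 = 0 from hz0, smul_zero]
  obtain ⟨g, hg⟩ := exists_rank_one _ _ hdot
  refine ⟨regUnip F n, g, regUnip_isRegUnip hn0, closure_pair_eq_top
    (CfsgLib.SLn.commutator_eq_top (Or.inl (by rw [Fintype.card_fin]; omega))) ?_ ?_⟩
  · have hu : regUnip F n ∈ Subgroup.closure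
        ({regUnip F n, g} : Set (Matrix.SpecialLinearGroup (Fin n) F)) :=
      Subgroup.subset_closure (by simp)
    have hL : lam ∈ Lv (Subgroup.closure
        ({regUnip F n, g} : Set (Matrix.SpecialLinearGroup (Fin n) F))) hn0 0 :=
      ⟨g, Subgroup.subset_closure (by simp), hg⟩
    have hμ := rule hu (ev_eq_zero (hn := hn0) 1 (by omega)) hz0 hz0 hL hL
    rw [show (0 : ℤ) + 0 - ((1 : ℕ) : ℤ) = -1 by norm_num, ev_neg_one 2] at hμ
    exact eq_top_of_two_levels 2 (by omega) (by omega) hu hlam0 hL hμ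
      (mul_ne_zero (mul_ne_zero (neg_ne_zero.mpr (pow_ne_zero _ (neg_ne_zero.mpr one_ne_zero)))
        hlam0) hlam0) fun x hx => Or.inr (hlam x hx)
  · have hgg : g * g = 1 := by
      refine Subtype.ext ?_
      show (g : Matrix (Fin n) (Fin n) F) * (g : Matrix (Fin n) (Fin n) F) = 1
      rw [hg, add_mul, one_mul, mul_add, mul_one, vecMulVec_mul_vecMulVec, hdot, zero_smul,
        vecMulVec_zero, add_zero, add_assoc, CharTwo.add_self_eq_zero, add_zero]
    rw [show g * (g * regUnip F n * g⁻¹) * g⁻¹ = (g * g) * regUnip F n * (g * g)⁻¹ by group, hgg,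
      one_mul, inv_one, mul_one]
    exact Subgroup.subset_closure (by simp)

theorem two_regUnip_odd (p : ℕ) [hp : Fact p.Prime] [CharP F p] (hp2 : p ≠ 2) (hn : 5 ≤ n) :
    ∃ u g : Matrix.SpecialLinearGroup (Fin n) F, IsRegUnip u ∧
      Subgroup.closure ({u, g * u * g⁻¹} : Set (Matrix.SpecialLinearGroup (Fin n) F)) = ⊤ := by
  classical
  haveI : Nontrivial (Fin n) := Fin.nontrivial_iff_two_le.mpr (by omega)
  have hn0 : 0 < n := by omega
  obtain ⟨lam, hlam0, hlam⟩ := exists_primitive (F := F)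
  have hz : ∀ j : ℕ, j + 2 ≤ n → ev F hn0 (j : ℤ) = 0 := fun j hj => ev_eq_zero j hj
  have hdot : axis F hn0 ⬝ᵥ (lam • pw F hn0 1) = 0 := by
    rw [dotProduct_smul, show axis F hn0 ⬝ᵥ pw F hn0 1 = 0 from hz 1 (by omega), smul_zero]
  obtain ⟨g, hg⟩ := exists_rank_one _ _ hdot
  set u := regUnip F n with hu_def
  refine ⟨u, g, regUnip_isRegUnip hn0, closure_pair_eq_top
    (CfsgLib.SLn.commutator_eq_top (Or.inl (by rw [Fintype.card_fin]; omega))) ?_ ?_⟩
  · set K := Subgroup.closure ({u, g} : Set (Matrix.SpecialLinearGroup (Fin n) F))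
    have hu : regUnip F n ∈ K := Subgroup.subset_closure (by simp [hu_def])
    have hL : lam ∈ Lv K hn0 1 := ⟨g, Subgroup.subset_closure (by simp), hg⟩
    have hσ0 : ev F hn0 (-1) ≠ 0 := by
      rw [ev_neg_one p]; exact pow_ne_zero _ (neg_ne_zero.mpr one_ne_zero)
    have hodd : ∀ j : ℕ, 2 * j + 3 ≤ n →
        ∃ x : F, x ≠ 0 ∧ x ∈ Lv K hn0 ((2 * j + 1 : ℕ) : ℤ) := by
      intro j
      induction j with
      | zero => exact fun _ => ⟨lam, hlam0, hL⟩
      | succ j ih =>
        intro hj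
        obtain ⟨x, hx0, hx⟩ := ih (by omega)
        refine ⟨_, ?_, rule hu (hz (2 * (j + 1) + 1) (by omega)) (hz 1 (by omega))
          (hz (2 * j + 1) (by omega)) hL hx⟩
        rw [show ((1 : ℕ) : ℤ) + ((2 * j + 1 : ℕ) : ℤ) - ((2 * (j + 1) + 1 : ℕ) : ℤ) = -1 by
          push_cast; ring]
        exact mul_ne_zero (mul_ne_zero (neg_ne_zero.mpr hσ0) hlam0) hx0
    obtain ⟨L, hL0, hLm⟩ : ∃ L : F, L ≠ 0 ∧ L ∈ Lv K hn0 0 := by
      rcases Nat.even_or_odd n with ⟨r, hr⟩ | ⟨r, hr⟩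
      · obtain ⟨v, m, hpm, hnm⟩ :=
          Nat.exists_eq_pow_mul_and_not_dvd (show n ≠ 0 by omega) p hp.out.ne_one
        have hodd' : Odd (p ^ v) := (hp.out.odd_of_ne_two hp2).pow
        have hmeven : Even m := by
          have : Even (p ^ v * m) := hnm ▸ ⟨r, hr⟩
          exact (Nat.even_mul.mp this).resolve_left (Nat.not_even_iff_odd.mpr hodd')
        have hm2 : 2 ≤ m := by
          rcases hmeven with ⟨s, hs⟩
          have : m ≠ 0 := fun h => hpm (h ▸ dvd_zero p)
          omega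
        have hi2 : p ^ v * 2 ≤ n := hnm ▸ Nat.mul_le_mul_left _ hm2
        obtain ⟨s, hs⟩ := hodd'
        have hcase : p ^ v + 5 ≤ n ∨ (p ^ v = 3 ∧ n = 6) := by
          rcases Nat.lt_or_ge n (p ^ v + 5) with h | h
          · right
            rcases (show p ^ v = 1 ∨ p ^ v = 3 by omega) with h1 | h1 <;> omega
          · exact Or.inl h
        have he : ev F hn0 ((p ^ v + 3 : ℕ) : ℤ) = 0 := by
          rcases hcase with h | ⟨h3, h6⟩
          · exact hz _ (by omega)
          · have hp3 : p = 3 := by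
              rcases v with - | v
              · simp at h3
              · exact (Nat.prime_dvd_prime_iff_eq hp.out Nat.prime_three).mp
                  (h3 ▸ dvd_pow_self p (by omega))
            subst hp3
            rw [h3, ev_natCast, CharP.cast_eq_zero_iff F 3, h6]
            decide
        obtain ⟨x, hx0, hx⟩ : ∃ x : F, x ≠ 0 ∧ x ∈ Lv K hn0 ((p ^ v + 3 : ℕ) : ℤ) := by
          refine ⟨_, ?_, rule hu he (hz 1 (by omega)) (hz 1 (by omega)) hL hL⟩
          refine mul_ne_zero (mul_ne_zero (neg_ne_zero.mpr ?_) hlam0) hlam0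
          rw [show ((1 : ℕ) : ℤ) + ((1 : ℕ) : ℤ) - ((p ^ v + 3 : ℕ) : ℤ) = -(((p ^ v : ℕ) : ℤ) + 1)
            by push_cast; ring, ev_negSucc p (p ^ v) (by
              have : 2 * n ≤ p ^ n := by
                calc 2 * n ≤ 2 ^ n := Nat.mul_le_pow (by norm_num) n
                  _ ≤ p ^ n := Nat.pow_le_pow_left hp.out.two_le n
              omega)]
          refine mul_ne_zero (pow_ne_zero _ (neg_ne_zero.mpr one_ne_zero)) ?_
          have hch : Nat.choose (p ^ v + (n - 1)) (n - 1) =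
              Nat.choose (p ^ v * (m + 1) - 1) (p ^ v) := by
            rw [show p ^ v * (m + 1) - 1 = p ^ v + (n - 1) by rw [mul_add, mul_one, ← hnm]; omega]
            exact (Nat.choose_symm_of_eq_add rfl).symm
          rw [hch, cast_choose_lucas p v m, Ne, CharP.cast_eq_zero_iff F p]
          exact hpm
        have hev : ∀ j : ℕ, 2 * j ≤ p ^ v + 3 → ev F hn0 ((2 * j : ℕ) : ℤ) = 0 := by
          intro j hj
          rcases Nat.lt_or_ge n (2 * j + 2) with h | h
          · rwa [show 2 * j = p ^ v + 3 by omega]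
          · exact hz _ h
        have hdown : ∀ j : ℕ, 2 * j ≤ p ^ v + 3 →
            (∃ y : F, y ≠ 0 ∧ y ∈ Lv K hn0 ((2 * j : ℕ) : ℤ)) →
              ∃ L : F, L ≠ 0 ∧ L ∈ Lv K hn0 0 := by
          intro j
          induction j with
          | zero => exact fun _ h => h
          | succ j ih =>
            rintro hj ⟨y, hy0, hy⟩
            obtain ⟨w, hw0, hw⟩ := hodd (r - 2) (by omega)
            refine ih (by omega) ⟨_, ?_, rule hu (hev j (by omega)) (hz (2 * (r - 2) + 1) (by omega))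
              (hev (j + 1) hj) hw hy⟩
            rw [show ((2 * (r - 2) + 1 : ℕ) : ℤ) + ((2 * (j + 1) : ℕ) : ℤ) - ((2 * j : ℕ) : ℤ) =
              ((n - 1 : ℕ) : ℤ) by omega, ev_pred]
            exact mul_ne_zero (mul_ne_zero (neg_ne_zero.mpr one_ne_zero) hw0) hy0
        refine hdown (s + 2) (by omega) ⟨x, hx0, ?_⟩
        rwa [show 2 * (s + 2) = p ^ v + 3 by omega]
      · obtain ⟨x, hx0, hx⟩ := hodd (r - 1) (by omega)
        refine ⟨_, ?_, rule hu (hz 0 (by omega)) (hz (2 * (r - 1) + 1) (by omega)) (hz 1 (by omega))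
          hx hL⟩
        rw [show ((2 * (r - 1) + 1 : ℕ) : ℤ) + ((1 : ℕ) : ℤ) - ((0 : ℕ) : ℤ) =
          ((n - 1 : ℕ) : ℤ) by omega, ev_pred]
        exact mul_ne_zero (mul_ne_zero (neg_ne_zero.mpr one_ne_zero) hx0) hlam0
    exact eq_top_of_two_levels p (by omega) (by omega) hu hL0 hLm hL hlam0
      fun x hx => Or.inl (hlam x hx)
  · set g₁ := u * g * u⁻¹ with hg₁
    have hg₁m : (g₁ : Matrix (Fin n) (Fin n) F) = 1 + vecMulVec (lam • pw F hn0 2)
        (axis F hn0 ᵥ* ((u⁻¹ : Matrix.SpecialLinearGroup (Fin n) F) :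
          Matrix (Fin n) (Fin n) F)) := by
      show (u : Matrix (Fin n) (Fin n) F) * (g : Matrix (Fin n) (Fin n) F) *
        ((u⁻¹ : Matrix.SpecialLinearGroup (Fin n) F) : Matrix (Fin n) (Fin n) F) = _
      have h := mulVec_pw (F := F) (hn := hn0) (n := n) 1 1
      rw [zpow_one] at h
      rw [hg, mul_add, mul_one, add_mul, mul_vecMulVec, vecMulVec_mul, mulVec_smul, h,
        show (1 : ℤ) + 1 = 2 by norm_num]
      congr 1
      exact congrArg Subtype.val (mul_inv_cancel u)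
    have hψ : (axis F hn0 ᵥ* ((u⁻¹ : Matrix.SpecialLinearGroup (Fin n) F) :
        Matrix (Fin n) (Fin n) F)) ⬝ᵥ (lam • pw F hn0 1) = 0 := by
      have h := mulVec_pw (F := F) (hn := hn0) (n := n) (-1) 1
      rw [_root_.zpow_neg_one] at h
      rw [dotProduct_smul, ← dotProduct_mulVec, h, show (-1 : ℤ) + 1 = ((0 : ℕ) : ℤ) by norm_num,
        show axis F hn0 ⬝ᵥ pw F hn0 ((0 : ℕ) : ℤ) = 0 from hz 0 (by omega), smul_zero]
    have hφ : axis F hn0 ⬝ᵥ (lam • pw F hn0 2) = 0 := by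
      rw [dotProduct_smul, show axis F hn0 ⬝ᵥ pw F hn0 2 = 0 from hz 2 (by omega), smul_zero]
    have hcomm : Commute g g₁ := by
      refine Subtype.ext ?_
      show (g : Matrix (Fin n) (Fin n) F) * (g₁ : Matrix (Fin n) (Fin n) F) =
        (g₁ : Matrix (Fin n) (Fin n) F) * (g : Matrix (Fin n) (Fin n) F)
      rw [hg, hg₁m, add_mul, one_mul, mul_add, mul_one, vecMulVec_mul_vecMulVec, hφ, add_mul,
        one_mul, mul_add, mul_one, vecMulVec_mul_vecMulVec, hψ, zero_smul, zero_smul,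
        vecMulVec_zero, vecMulVec_zero]
      abel
    have hv : g * u * g⁻¹ = g * g₁⁻¹ * u := by rw [hg₁]; group
    have hy : g * g₁⁻¹ ∈ Subgroup.closure
        ({u, g * u * g⁻¹} : Set (Matrix.SpecialLinearGroup (Fin n) F)) := by
      rw [show g * g₁⁻¹ = (g * u * g⁻¹) * u⁻¹ by rw [hv]; group]
      exact Subgroup.mul_mem _ (Subgroup.subset_closure (by simp))
        (Subgroup.inv_mem _ (Subgroup.subset_closure (by simp)))
    have hc : g * g * g₁⁻¹ * g⁻¹ = g * g₁⁻¹ := by
      rw [mul_assoc g g, hcomm.inv_right.eq, ← mul_assoc, mul_inv_cancel_right, ← hcomm.inv_right.eq]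
    have he : g * (g * u * g⁻¹) * g⁻¹ = (g * g₁⁻¹) * (g * u * g⁻¹) := by
      conv_lhs => rw [hv]
      rw [show g * (g * g₁⁻¹ * u) * g⁻¹ = g * g * g₁⁻¹ * g⁻¹ * (g * u * g⁻¹) by group, hc]
    rw [he]
    exact Subgroup.mul_mem _ hy (Subgroup.subset_closure (by simp))

end CfsgLib.H29.SLGen
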