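import Mathlib
import Cfsg.Agent.H29.SLGen.TwoUnip

set_option autoImplicit false

/-!
Two regular unipotent elements generating `SL_4` in odd characteristic.
-/

namespace CfsgLib.H29.SLGen

open Matrix
open scoped commutatorElement

variable {F : Type*} [Field F] [Finite F]

/-- Characteristic three: `u ^ 3` and `v ^ 3` are opposite root elements. -/
theorem two_regUnip_four_three [CharP F 3] :
    ∃ u g : Matrix.SpecialLinearGroup (Fin 4) F, IsRegUnip u ∧
      Subgroup.closure ({u, g * u * g⁻¹} : Set (Matrix.SpecialLinearGroup (Fin 4) F)) = ⊤ := by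
  classical
  haveI := Fintype.ofFinite F
  haveI : Fact (Nat.Prime 3) := ⟨Nat.prime_three⟩
  have hn : 0 < 4 := by norm_num
  obtain ⟨a, ha0, ha⟩ := exists_primitive (F := F)
  have hdet : (!![0, 0, 0, 1; 0, 0, 1, 0; 0, a⁻¹, 0, 0; a, 0, 0, 0] :
      Matrix (Fin 4) (Fin 4) F).det = 1 := by
    simp [Matrix.det_succ_row_zero, Fin.sum_univ_succ, Fin.succAbove]
    field_simp
  set G : Matrix.SpecialLinearGroup (Fin 4) F := ⟨_, hdet⟩ with hG
  set u := regUnip F 4 with hu_def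
  refine ⟨u, G, regUnip_isRegUnip hn, ?_⟩
  set H := Subgroup.closure ({u, G * u * G⁻¹} : Set (Matrix.SpecialLinearGroup (Fin 4) F)) with hH
  have hu : regUnip F 4 ∈ H := Subgroup.subset_closure (by simp [hu_def])
  have hu3 : (u : Matrix (Fin 4) (Fin 4) F) ^ 3 =
      1 + vecMulVec (Pi.single 0 1) (Pi.single 3 1) := by
    have h3 : (3 : F) = 0 := by exact_mod_cast CharP.cast_eq_zero F 3
    ext i j
    rw [hu_def, regUnip_pow_apply, ← Matrix.single_eq_single_vecMulVec_single]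
    fin_cases i <;> fin_cases j <;> simp [Matrix.single, Matrix.one_apply, Nat.choose, h3]
  have hGG : (G : Matrix (Fin 4) (Fin 4) F) *
      ((G⁻¹ : Matrix.SpecialLinearGroup (Fin 4) F) : Matrix (Fin 4) (Fin 4) F) = 1 :=
    congrArg Subtype.val (mul_inv_cancel G)
  have hrow : Pi.single 3 1 ᵥ* ((G⁻¹ : Matrix.SpecialLinearGroup (Fin 4) F) :
      Matrix (Fin 4) (Fin 4) F) = axis F hn := by
    have h : axis F hn ᵥ* (G : Matrix (Fin 4) (Fin 4) F) = Pi.single 3 1 := by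
      rw [axis, single_one_vecMul]
      ext i
      fin_cases i <;> simp [hG, Pi.single_apply]
    rw [← h, vecMul_vecMul, hGG, vecMul_one]
  have hcol : (G : Matrix (Fin 4) (Fin 4) F) *ᵥ Pi.single 0 1 = a • pw F hn 0 := by
    rw [show (0 : ℤ) = ((0 : ℕ) : ℤ) from rfl, pw_natCast, mulVec_single_one]
    ext i
    fin_cases i <;> simp [hG, Nat.choose]
  have hz0 : ev F hn 0 = 0 := ev_eq_zero 0 (by norm_num)
  have hL : a ∈ Lv H hn 0 := by
    refine ⟨(G * u * G⁻¹) ^ 3, H.pow_mem (Subgroup.subset_closure (by simp)) 3, ?_⟩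
    rw [conj_pow]
    show (G : Matrix (Fin 4) (Fin 4) F) * ((u ^ 3 : Matrix.SpecialLinearGroup (Fin 4) F) :
      Matrix (Fin 4) (Fin 4) F) *
      ((G⁻¹ : Matrix.SpecialLinearGroup (Fin 4) F) : Matrix (Fin 4) (Fin 4) F) = _
    rw [Matrix.SpecialLinearGroup.coe_pow, hu3, mul_add, mul_one, add_mul, hGG, mul_vecMulVec,
      vecMulVec_mul, hrow, hcol]
  have hμ := rule hu (ev_eq_zero (hn := hn) 1 (by norm_num)) hz0 hz0 hL hL
  rw [show (0 : ℤ) + 0 - ((1 : ℕ) : ℤ) = -1 by norm_num, ev_neg_one 3] at hμ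
  exact eq_top_of_two_levels 3 (by norm_num) (by norm_num) hu ha0 hL hμ
    (mul_ne_zero (mul_ne_zero (neg_ne_zero.mpr (pow_ne_zero _ (neg_ne_zero.mpr one_ne_zero))) ha0)
      ha0) fun x hx => Or.inr (ha x hx)

/-- A commutator in the subgroup of a normalised pair. -/
theorem commutator_mem_of_pair {G : Type*} [Group G] [Finite G] {u g : G}
    (hg : g * (g * u * g⁻¹) * g⁻¹ ∈ Subgroup.closure ({u, g * u * g⁻¹} : Set G)) {a b : G}
    (ha : a ∈ Subgroup.closure ({u, g} : Set G)) (hb : b ∈ Subgroup.closure ({u, g} : Set G)) :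
    ⁅a, b⁆ ∈ Subgroup.closure ({u, g * u * g⁻¹} : Set G) := by
  set H := Subgroup.closure ({u, g * u * g⁻¹} : Set G) with hH
  have hgn : g ∈ Subgroup.normalizer (H : Set G) := by
    have hle : H.map (MulAut.conj g).toMonoidHom ≤ H := by
      rw [hH, MonoidHom.map_closure, Subgroup.closure_le]
      rintro _ ⟨c, hc, rfl⟩
      rcases hc with rfl | rfl
      · exact Subgroup.subset_closure (Or.inr rfl)
      · exact hg
    have heq : H.map (MulAut.conj g).toMonoidHom = H :=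
      Subgroup.eq_of_le_of_card_ge hle
        (by rw [Subgroup.card_map_of_injective (MulAut.conj g).injective])
    refine Subgroup.mem_normalizer_iff.mpr fun x => ⟨fun hx => ?_, fun hx => ?_⟩
    · exact heq.le (Subgroup.mem_map_of_mem _ hx)
    · obtain ⟨y, hy, hyx⟩ := heq.ge hx
      rwa [← (MulAut.conj g).injective hyx]
  have hdec : ∀ c ∈ Subgroup.closure ({u, g} : Set G), ∃ h ∈ H, ∃ i : ℤ, c = h * g ^ i := by
    intro c hc
    have hle : Subgroup.closure ({u, g} : Set G) ≤ H ⊔ Subgroup.zpowers g := by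
      rw [Subgroup.closure_le]
      rintro d (rfl | rfl)
      · exact Subgroup.mem_sup_left (Subgroup.subset_closure (by simp))
      · exact Subgroup.mem_sup_right (Subgroup.mem_zpowers _)
    have h := hle hc
    rw [← SetLike.mem_coe, Subgroup.coe_mul_of_right_le_normalizer_left _ _
      (Subgroup.zpowers_le.mpr hgn)] at h
    obtain ⟨x, hx, y, hy, rfl⟩ := h
    obtain ⟨i, rfl⟩ := Subgroup.mem_zpowers_iff.mp hy
    exact ⟨x, hx, i, rfl⟩
  obtain ⟨x, hx, i, rfl⟩ := hdec a ha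
  obtain ⟨y, hy, j, rfl⟩ := hdec b hb
  have hc : ∀ (k : ℤ), ∀ w ∈ H, g ^ k * w * (g ^ k)⁻¹ ∈ H := fun k w hw =>
    (Subgroup.mem_normalizer_iff.mp (Subgroup.zpow_mem _ hgn k) w).mp hw
  have he : ⁅x * g ^ i, y * g ^ j⁆ =
      x * (g ^ i * y * (g ^ i)⁻¹) * (g ^ j * x⁻¹ * (g ^ j)⁻¹) * y⁻¹ := by
    rw [commutatorElement_def]
    group
  rw [he]
  exact H.mul_mem (H.mul_mem (H.mul_mem hx (hc i y hy)) (hc j _ (H.inv_mem hx))) (H.inv_mem hy)

theorem pw_four_neg_one : pw F (show 0 < 4 by norm_num) (-1) = ![-1, 1, -1, 1] := by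
  have h : (regUnip F 4 : Matrix (Fin 4) (Fin 4) F) *ᵥ ![-1, 1, -1, 1] = Pi.single 3 1 := by
    show (1 + shift F 4) *ᵥ _ = _
    ext i
    fin_cases i <;> simp [Matrix.mulVec, dotProduct, Fin.sum_univ_four, shift, Matrix.one_apply]
  unfold pw
  rw [show (⟨4 - 1, by norm_num⟩ : Fin 4) = 3 from rfl, ← h, mulVec_mulVec, _root_.zpow_neg_one,
    show ((regUnip F 4)⁻¹ : Matrix.SpecialLinearGroup (Fin 4) F).1 *
      (regUnip F 4 : Matrix (Fin 4) (Fin 4) F) = 1 from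
      congrArg Subtype.val (inv_mul_cancel (regUnip F 4)), one_mulVec]

omit [Finite F] in
theorem reflection_mul_inv {ω : F} (hω0 : ω ≠ 0) {c φ : Fin 4 → F} (h : φ ⬝ᵥ c = 1) :
    (1 + vecMulVec ((ω - 1) • c) φ) * (1 + vecMulVec ((ω⁻¹ - 1) • c) φ) = 1 := by
  have hω : (ω - 1) + (ω⁻¹ - 1) + (ω - 1) * (ω⁻¹ - 1) = 0 := by field_simp; ring
  have h2 : vecMulVec c φ * vecMulVec c φ = vecMulVec c φ := by
    rw [vecMulVec_mul_vecMulVec, h, one_smul]
  simp only [smul_vecMulVec, add_mul, one_mul, mul_add, mul_one, smul_mul_assoc, mul_smul_comm,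
    smul_smul, h2]
  linear_combination (norm := module) hω • (vecMulVec c φ)

/-- Characteristic at least five. -/
theorem closure_eq_top_four (h2 : (2 : F) ≠ 0) (h3 : (3 : F) ≠ 0) {ω : F} (hω0 : ω ≠ 0)
    (hω1 : ω ≠ 1) (hgen : ∀ K : Subfield F, ω + ω⁻¹ ∈ K → K = ⊤)
    (v : Matrix.SpecialLinearGroup (Fin 4) F)
    (hv : (v : Matrix (Fin 4) (Fin 4) F) =
      (1 + vecMulVec ((ω - 1) • pw F (show 0 < 4 by norm_num) 0) ![3, 1, -1, 1]) *
        (regUnip F 4 : Matrix (Fin 4) (Fin 4) F) *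
        (1 + vecMulVec ((ω⁻¹ - 1) • pw F (show 0 < 4 by norm_num) 0) ![3, 1, -1, 1])) :
    Subgroup.closure ({regUnip F 4, v} : Set (Matrix.SpecialLinearGroup (Fin 4) F)) = ⊤ := by
  classical
  haveI := Fintype.ofFinite F
  have hn : 0 < 4 := by norm_num
  set φ : Fin 4 → F := ![3, 1, -1, 1] with hφ_def
  set u := regUnip F 4 with hu_def
  have hP : ∀ k : ℕ, φ ⬝ᵥ pw F hn (k : ℤ) =
      3 * (Nat.choose k 3 : F) + (Nat.choose k 2 : F) - (Nat.choose k 1 : F) + 1 := by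
    intro k
    rw [pw_natCast]
    simp [hφ_def, dotProduct, Fin.sum_univ_four]
    ring
  have hP0 : φ ⬝ᵥ pw F hn 0 = 1 := by have := hP 0; simpa [Nat.choose] using this
  have hP1 : φ ⬝ᵥ pw F hn 1 = 0 := by have := hP 1; simpa [Nat.choose] using this
  have hP2 : φ ⬝ᵥ pw F hn 2 = 0 := by
    have := hP 2; simp [Nat.choose] at this; rw [this]; ring
  have hP3 : φ ⬝ᵥ pw F hn 3 = 4 := by
    have := hP 3; simp [Nat.choose] at this; rw [this]; ring
  have hP5 : φ ⬝ᵥ pw F hn 5 = 36 := by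
    have := hP 5; simp [Nat.choose] at this; rw [this]; ring
  have hPm1 : φ ⬝ᵥ pw F hn (-1) = 0 := by
    rw [pw_four_neg_one]; simp [hφ_def, dotProduct, Fin.sum_univ_four]; try ring
  have hPm2 : φ ⬝ᵥ pw F hn (-2) = -6 := by
    have h : pw F hn (-2) = ![-4, 3, -2, 1] := by
      have h1 : (regUnip F 4 : Matrix (Fin 4) (Fin 4) F) *ᵥ ![-4, 3, -2, 1] =
          ![-1, 1, -1, 1] := by
        show (1 + shift F 4) *ᵥ _ = _
        ext i
        fin_cases i <;>
          simp [Matrix.mulVec, dotProduct, Fin.sum_univ_four, shift, Matrix.one_apply] <;> ring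
      rw [show (-2 : ℤ) = -1 + -1 by norm_num, ← mulVec_pw, pw_four_neg_one, ← h1, mulVec_mulVec,
        _root_.zpow_neg_one, show ((regUnip F 4)⁻¹ : Matrix.SpecialLinearGroup (Fin 4) F).1 *
          (regUnip F 4 : Matrix (Fin 4) (Fin 4) F) = 1 from
          congrArg Subtype.val (inv_mul_cancel (regUnip F 4)), one_mulVec]
    rw [h]; simp [hφ_def, dotProduct, Fin.sum_univ_four]; ring
  set H := Subgroup.closure ({u, v} : Set (Matrix.SpecialLinearGroup (Fin 4) F)) with hH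
  have hu : u ∈ H := Subgroup.subset_closure (by simp)
  -- the reflection
  set c := pw F hn 0 with hc
  have hrr : (1 + vecMulVec ((ω - 1) • c) φ) * (1 + vecMulVec ((ω⁻¹ - 1) • c) φ) = 1 :=
    reflection_mul_inv hω0 hP0
  set r : GL (Fin 4) F := ⟨1 + vecMulVec ((ω - 1) • c) φ, 1 + vecMulVec ((ω⁻¹ - 1) • c) φ, hrr,
    mul_eq_one_comm.mp hrr⟩ with hr
  set T : Matrix.SpecialLinearGroup (Fin 4) F →* GL (Fin 4) F := Matrix.SpecialLinearGroup.toGL
    with hT
  set U := T u with hU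
  have hTv : T v = r * U * r⁻¹ := Units.ext hv
  set r₁ := U * r * U⁻¹ with hr₁
  set r₂ := U * r₁ * U⁻¹ with hr₂
  have hUm : (U : Matrix (Fin 4) (Fin 4) F) = (u : Matrix (Fin 4) (Fin 4) F) := rfl
  have hUi : ((U⁻¹ : GL (Fin 4) F) : Matrix (Fin 4) (Fin 4) F) =
      ((u ^ (-1 : ℤ) : Matrix.SpecialLinearGroup (Fin 4) F) : Matrix (Fin 4) (Fin 4) F) := by
    rw [_root_.zpow_neg_one, hU, ← map_inv]
    rfl
  have hconj : ∀ (X : GL (Fin 4) F) (t : ℤ) (ψ : Fin 4 → F) (δ : F),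
      (X : Matrix (Fin 4) (Fin 4) F) = 1 + vecMulVec (δ • pw F hn t) ψ →
      ((U * X * U⁻¹ : GL (Fin 4) F) : Matrix (Fin 4) (Fin 4) F) = 1 + vecMulVec (δ • pw F hn (1 + t))
        (ψ ᵥ* ((u ^ (-1 : ℤ) : Matrix.SpecialLinearGroup (Fin 4) F) :
          Matrix (Fin 4) (Fin 4) F)) := by
    intro X t ψ δ hX
    rw [Units.val_mul, Units.val_mul, hX, mul_add, mul_one, add_mul, Units.mul_inv, mul_vecMulVec,
      vecMulVec_mul, mulVec_smul, hUi, hUm]
    have h := mulVec_pw (F := F) (hn := hn) 1 t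
    rw [zpow_one] at h
    rw [h]
  set ψ₁ := φ ᵥ* ((u ^ (-1 : ℤ) : Matrix.SpecialLinearGroup (Fin 4) F) :
    Matrix (Fin 4) (Fin 4) F) with hψ₁
  set ψ₂ := ψ₁ ᵥ* ((u ^ (-1 : ℤ) : Matrix.SpecialLinearGroup (Fin 4) F) :
    Matrix (Fin 4) (Fin 4) F) with hψ₂
  have hr₁m : (r₁ : Matrix (Fin 4) (Fin 4) F) = 1 + vecMulVec ((ω - 1) • pw F hn 1) ψ₁ := by
    have := hconj r 0 φ (ω - 1) rfl
    rwa [show (1 : ℤ) + 0 = 1 from rfl] at this
  have hr₂m : (r₂ : Matrix (Fin 4) (Fin 4) F) = 1 + vecMulVec ((ω - 1) • pw F hn 2) ψ₂ := by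
    have := hconj r₁ 1 ψ₁ (ω - 1) hr₁m
    rwa [show (1 : ℤ) + 1 = 2 from rfl] at this
  have hr₂i : ((r₂⁻¹ : GL (Fin 4) F) : Matrix (Fin 4) (Fin 4) F) =
      1 + vecMulVec ((ω⁻¹ - 1) • pw F hn 2) ψ₂ := by
    have h1 := hconj r⁻¹ 0 φ (ω⁻¹ - 1) rfl
    rw [show (1 : ℤ) + 0 = 1 from rfl] at h1
    have h2 := hconj (U * r⁻¹ * U⁻¹) 1 ψ₁ (ω⁻¹ - 1) h1
    rw [show r₂⁻¹ = U * (U * r⁻¹ * U⁻¹) * U⁻¹ by
      simp only [hr₂, hr₁, _root_.mul_inv_rev, inv_inv, mul_assoc]]
    rwa [show (1 : ℤ) + 1 = 2 from rfl] at h2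
  have hψ₁v : ∀ t : ℤ, ψ₁ ⬝ᵥ pw F hn t = φ ⬝ᵥ pw F hn (-1 + t) := fun t => by
    rw [hψ₁, ← dotProduct_mulVec, mulVec_pw]
  have hψ₂v : ∀ t : ℤ, ψ₂ ⬝ᵥ pw F hn t = φ ⬝ᵥ pw F hn (-2 + t) := fun t => by
    rw [hψ₂, ← dotProduct_mulVec, mulVec_pw, hψ₁v, show -1 + (-1 + t) = -2 + t by ring]
  -- `r` commutes with its first conjugate
  have hcomm : Commute r r₁ := by
    refine Units.ext ?_
    show (r : Matrix (Fin 4) (Fin 4) F) * (r₁ : Matrix (Fin 4) (Fin 4) F) =
      (r₁ : Matrix (Fin 4) (Fin 4) F) * (r : Matrix (Fin 4) (Fin 4) F)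
    rw [hr₁m]
    show (1 + vecMulVec ((ω - 1) • c) φ) * (1 + vecMulVec ((ω - 1) • pw F hn 1) ψ₁) =
      (1 + vecMulVec ((ω - 1) • pw F hn 1) ψ₁) * (1 + vecMulVec ((ω - 1) • c) φ)
    simp only [add_mul, one_mul, mul_add, mul_one, vecMulVec_mul_vecMulVec, dotProduct_smul, hP1,
      hψ₁v, hc, add_zero, hPm1, smul_zero, zero_smul, vecMulVec_zero]
    abel
  have hnorm : r * (r * U * r⁻¹) * r⁻¹ ∈ Subgroup.closure ({U, r * U * r⁻¹} : Set (GL (Fin 4) F)) := by
    have hc' : r * r * r₁⁻¹ * r⁻¹ = r * r₁⁻¹ := by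
      rw [mul_assoc r r, hcomm.inv_right.eq, ← mul_assoc, mul_inv_cancel_right,
        ← hcomm.inv_right.eq]
    have he : r * (r * U * r⁻¹) * r⁻¹ = r * r₁⁻¹ * (r * U * r⁻¹) := by
      rw [← hc', hr₁]
      group
    rw [he, show r * r₁⁻¹ = r * U * r⁻¹ * U⁻¹ by rw [hr₁]; group]
    exact Subgroup.mul_mem _ (Subgroup.mul_mem _ (Subgroup.subset_closure (by simp))
      (Subgroup.inv_mem _ (Subgroup.subset_closure (by simp)))) (Subgroup.subset_closure (by simp))
  have hr₂mem : r₂ ∈ Subgroup.closure ({U, r} : Set (GL (Fin 4) F)) := by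
    have hUm' : U ∈ Subgroup.closure ({U, r} : Set (GL (Fin 4) F)) :=
      Subgroup.subset_closure (by simp)
    rw [hr₂, hr₁]
    exact Subgroup.mul_mem _ (Subgroup.mul_mem _ hUm' (Subgroup.mul_mem _ (Subgroup.mul_mem _ hUm'
      (Subgroup.subset_closure (by simp))) (Subgroup.inv_mem _ hUm'))) (Subgroup.inv_mem _ hUm')
  set δ : F := -6 * ((ω - 1) * (ω⁻¹ - 1)) with hδ
  have hτ : Mem H (δ • pw F hn 2) φ := by
    have hmem := commutator_mem_of_pair hnorm (Subgroup.subset_closure (by simp) : r ∈ _) hr₂mem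
    have hmap : Subgroup.closure ({U, r * U * r⁻¹} : Set (GL (Fin 4) F)) = H.map T := by
      rw [hH, MonoidHom.map_closure, Set.image_insert_eq, Set.image_singleton, hTv]
    rw [hmap] at hmem
    obtain ⟨w, hw, hwT⟩ := hmem
    refine ⟨w, hw, ?_⟩
    have hwm : (w : Matrix (Fin 4) (Fin 4) F) = ((⁅r, r₂⁆ : GL (Fin 4) F) : Matrix _ _ F) := by
      rw [← hwT]; rfl
    rw [hwm, commutatorElement_def, Units.val_mul, Units.val_mul, Units.val_mul, hr₂m, hr₂i]
    have hb : φ ⬝ᵥ pw F hn 2 = 0 := hP2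
    have hψb : ψ₂ ⬝ᵥ pw F hn 2 = 1 := by rw [hψ₂v, show (-2 : ℤ) + 2 = 0 by norm_num, hP0]
    have hψa : ψ₂ ⬝ᵥ c = -6 := by rw [hc, hψ₂v, add_zero, hPm2]
    show (1 + vecMulVec ((ω - 1) • c) φ) * (1 + vecMulVec ((ω - 1) • pw F hn 2) ψ₂) *
      (1 + vecMulVec ((ω⁻¹ - 1) • c) φ) * (1 + vecMulVec ((ω⁻¹ - 1) • pw F hn 2) ψ₂) = _
    have e1 : (1 + vecMulVec ((ω - 1) • c) φ) * (1 + vecMulVec ((ω - 1) • pw F hn 2) ψ₂) =
        1 + vecMulVec ((ω - 1) • c) φ + vecMulVec ((ω - 1) • pw F hn 2) ψ₂ := by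
      rw [add_mul, one_mul, mul_add, mul_one, vecMulVec_mul_vecMulVec, dotProduct_smul, hb,
        smul_zero, zero_smul, vecMulVec_zero]
      abel
    have e2 : (1 + vecMulVec ((ω - 1) • c) φ + vecMulVec ((ω - 1) • pw F hn 2) ψ₂) *
        (1 + vecMulVec ((ω⁻¹ - 1) • c) φ) =
        1 + vecMulVec ((ω - 1) • pw F hn 2) ψ₂ + vecMulVec (δ • pw F hn 2) φ := by
      rw [add_mul, hrr, mul_add, mul_one, vecMulVec_mul_vecMulVec, dotProduct_smul, hψa,
        vecMulVec_smul]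
      simp only [smul_vecMulVec, smul_eq_mul, smul_smul, hδ]
      module
    rw [e1, e2]
    simp only [add_mul, one_mul, mul_add, mul_one, vecMulVec_mul_vecMulVec, dotProduct_smul, hψb,
      hb, smul_zero, zero_smul, vecMulVec_zero, add_zero, smul_eq_mul, mul_one, smul_vecMulVec,
      vecMulVec_smul, smul_smul, smul_mul_assoc, mul_smul_comm, one_smul]
    have hω : (ω - 1) + (ω⁻¹ - 1) + (ω - 1) * (ω⁻¹ - 1) = 0 := by field_simp; ring
    linear_combination (norm := module) hω • (vecMulVec (pw F hn 2) ψ₂)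
  -- levels
  let L : ℤ → Set F := fun a => {x | Mem H (x • pw F hn (2 + a)) φ}
  let Q : ℤ → F := fun a => φ ⬝ᵥ pw F hn (2 + a)
  have hQ0 : Q 0 = 0 := by simpa [Q] using hP2
  have hQm1 : Q (-1) = 0 := by simp only [Q]; norm_num; exact hP1
  have hQm3 : Q (-3) = 0 := by simp only [Q]; norm_num; exact hPm1
  have hQ1 : Q 1 = 4 := by simp only [Q]; norm_num; exact hP3
  have hQ3 : Q 3 = 36 := by simp only [Q]; norm_num; exact hP5
  have hQm2 : Q (-2) = 1 := by simp only [Q]; norm_num; exact hP0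
  have Lrule : ∀ (e s t : ℤ), Q e = 0 → Q s = 0 → Q t = 0 → ∀ a ∈ L s, ∀ b ∈ L t,
      -(Q (s + t - e)) * a * b ∈ L e := by
    intro e s t he hs ht a ha b hb
    have h1 := mem_conj (H.zpow_mem hu (e - t)) hb
    rw [mulVec_smul, mulVec_pw, show e - t + (2 + t) = 2 + e by ring, ← _root_.zpow_neg] at h1
    have h2 := mem_comm (a := a • pw F hn (2 + s)) (φ := φ)
      (ψ := φ ᵥ* ((u ^ (-(e - t)) : Matrix.SpecialLinearGroup (Fin 4) F) :
        Matrix (Fin 4) (Fin 4) F)) (b := b • pw F hn (2 + e)) ?_ ?_ ?_ ha h1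
    · rw [dotProduct_smul, ← dotProduct_mulVec, mulVec_pw, smul_smul,
        show -(e - t) + (2 + s) = 2 + (s + t - e) by ring] at h2
      show Mem H _ _
      convert h2 using 2
      simp [Q, mul_comm, mul_left_comm]
    · rw [dotProduct_smul, show φ ⬝ᵥ pw F hn (2 + s) = 0 from hs, smul_zero]
    · rw [dotProduct_smul, ← dotProduct_mulVec, mulVec_pw,
        show -(e - t) + (2 + e) = 2 + t by ring,
        show φ ⬝ᵥ pw F hn (2 + t) = 0 from ht, smul_zero]
    · rw [dotProduct_smul, show φ ⬝ᵥ pw F hn (2 + e) = 0 from he, smul_zero]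
  have hδL : δ ∈ L 0 := by simpa [L] using hτ
  have hup1 : ∀ a ∈ L 0, ∀ b ∈ L 0, -4 * a * b ∈ L (-1) := fun a ha b hb => by
    have := Lrule (-1) 0 0 hQm1 hQ0 hQ0 a ha b hb
    rwa [show (0 : ℤ) + 0 - -1 = 1 by norm_num, hQ1] at this
  have hup3 : ∀ a ∈ L 0, ∀ b ∈ L 0, -36 * a * b ∈ L (-3) := fun a ha b hb => by
    have := Lrule (-3) 0 0 hQm3 hQ0 hQ0 a ha b hb
    rwa [show (0 : ℤ) + 0 - -3 = 3 by norm_num, hQ3] at this
  have hdown : ∀ a ∈ L (-1), ∀ b ∈ L (-1), -1 * a * b ∈ L 0 := fun a ha b hb => by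
    have := Lrule 0 (-1) (-1) hQ0 hQm1 hQm1 a ha b hb
    rwa [show (-1 : ℤ) + -1 - 0 = -2 by norm_num, hQm2] at this
  have hcross : ∀ a ∈ L 0, ∀ b ∈ L (-3), -1 * a * b ∈ L (-1) := fun a ha b hb => by
    have := Lrule (-1) 0 (-3) hQm1 hQ0 hQm3 a ha b hb
    rwa [show (0 : ℤ) + -3 - -1 = -2 by norm_num, hQm2] at this
  set k : F := -16 * δ ^ 2 with hk
  have hω2 : ω - 1 ≠ 0 := sub_ne_zero.mpr hω1
  have hω2' : ω⁻¹ - 1 ≠ 0 := sub_ne_zero.mpr (fun h => hω1 (inv_eq_one.mp h))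
  have h6 : (6 : F) ≠ 0 := by
    rw [show (6 : F) = 2 * 3 by norm_num]; exact mul_ne_zero h2 h3
  have h16 : (16 : F) ≠ 0 := by rw [show (16 : F) = 2 ^ 4 by norm_num]; exact pow_ne_zero _ h2
  have hδ0 : δ ≠ 0 := mul_ne_zero (neg_ne_zero.mpr h6) (mul_ne_zero hω2 hω2')
  have hk0 : k ≠ 0 := mul_ne_zero (neg_ne_zero.mpr h16) (pow_ne_zero _ hδ0)
  have hclosed : ∀ a ∈ L 0, ∀ b ∈ L 0, k * (a * b) ∈ L 0 := fun a ha b hb => by
    have := hdown _ (hup1 a ha b hb) _ (hup1 δ hδL δ hδL)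
    convert this using 1
    rw [hk]; ring
  have hL0zero : (0 : F) ∈ L 0 := by simpa [L] using mem_zero (H := H) φ
  have hL0add : ∀ a ∈ L 0, ∀ b ∈ L 0, a + b ∈ L 0 := fun a ha b hb => by
    show Mem H _ _
    rw [add_smul]
    exact mem_add (by rw [dotProduct_smul, show φ ⬝ᵥ pw F hn (2 + 0) = 0 from hQ0, smul_zero]) ha hb
  have hL0neg : ∀ a ∈ L 0, -a ∈ L 0 := fun a ha => by
    show Mem H _ _
    rw [neg_smul]
    exact mem_neg (by rw [dotProduct_smul, show φ ⬝ᵥ pw F hn (2 + 0) = 0 from hQ0, smul_zero]) ha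
  have hkδ : (k * δ) / k ∈ L 0 := by rwa [mul_div_cancel_left₀ _ hk0]
  have hpw : ∀ m : ℕ, (k * δ) ^ (m + 1) / k ∈ L 0 := by
    intro m
    induction m with
    | zero => rwa [pow_one]
    | succ m ih =>
      convert hclosed _ ih _ hkδ using 1
      field_simp
      ring
  have hmulR : ∀ a b : F, a / k ∈ L 0 → b / k ∈ L 0 → a * b / k ∈ L 0 := fun a b ha hb => by
    convert hclosed _ ha _ hb using 1
    field_simp
  have hone : (1 : F) / k ∈ L 0 := by
    obtain ⟨N, hN⟩ : ∃ N, Fintype.card F - 1 = N + 1 :=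
      ⟨Fintype.card F - 2, by have := Fintype.one_lt_card (α := F); omega⟩
    have := hpw N
    rwa [← hN, FiniteField.pow_card_sub_one_eq_one _ (mul_ne_zero hk0 hδ0)] at this
  have hinvR : ∀ a : F, a / k ∈ L 0 → a⁻¹ / k ∈ L 0 := by
    intro a ha
    rcases eq_or_ne a 0 with rfl | ha0
    · simpa using hL0zero
    have hp : ∀ m : ℕ, a ^ m / k ∈ L 0 := by
      intro m
      induction m with
      | zero => simpa using hone
      | succ m ih => rw [pow_succ]; exact hmulR _ _ ih ha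
    obtain ⟨N, hN⟩ : ∃ N, Fintype.card F - 1 = N + 1 :=
      ⟨Fintype.card F - 2, by have := Fintype.one_lt_card (α := F); omega⟩
    have h := hp N
    have he : a ^ N = a⁻¹ := eq_inv_of_mul_eq_one_left
      (by rw [← pow_succ, ← hN, FiniteField.pow_card_sub_one_eq_one _ ha0])
    rwa [he] at h
  let R : Subfield F :=
    { carrier := {x | x / k ∈ L 0}
      mul_mem' := fun {a b} ha hb => hmulR a b ha hb
      one_mem' := hone
      add_mem' := fun {a b} ha hb => by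
        show (a + b) / k ∈ L 0
        rw [add_div]; exact hL0add _ ha _ hb
      zero_mem' := by simpa using hL0zero
      neg_mem' := fun {a} ha => by
        show -a / k ∈ L 0
        rw [neg_div]; exact hL0neg _ ha
      inv_mem' := fun a ha => hinvR a ha }
  have h16R : (16 : F) ∈ R := natCast_mem R 16
  have hd3 : δ ^ 3 ∈ R := by
    have h : k * δ ∈ R := hkδ
    have h' := R.mul_mem (R.neg_mem (R.inv_mem h16R)) h
    convert h' using 1
    rw [hk]; field_simp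
  have hd7 : δ ^ 7 ∈ R := by
    have h : -1 * (-1 * δ * (-36 * δ * δ)) * (-4 * δ * δ) ∈ L 0 := hdown _
      (hcross _ hδL _ (hup3 _ hδL _ hδL)) _ (hup1 _ hδL _ hδL)
    have h1 : k * (-1 * (-1 * δ * (-36 * δ * δ)) * (-4 * δ * δ)) ∈ R := by
      show _ / k ∈ L 0
      rwa [mul_div_cancel_left₀ _ hk0]
    have h36R : (36 : F) ∈ R := natCast_mem R 36
    have h4R : (4 : F) ∈ R := natCast_mem R 4
    have hc0 : (16 : F) * 36 * 4 ≠ 0 := by
      rw [show (16 : F) * 36 * 4 = 2 ^ 8 * 3 ^ 2 by norm_num]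
      exact mul_ne_zero (pow_ne_zero _ h2) (pow_ne_zero _ h3)
    have h2' := R.mul_mem (R.inv_mem (R.mul_mem (R.mul_mem h16R h36R) h4R)) (R.neg_mem h1)
    have e : -(k * (-1 * (-1 * δ * (-36 * δ * δ)) * (-4 * δ * δ))) = 16 * 36 * 4 * δ ^ 7 := by
      rw [hk]; ring
    rw [e, ← mul_assoc, inv_mul_cancel₀ hc0, one_mul] at h2'
    exact h2'
  have hRtop : R = ⊤ := by
    refine hgen R ?_
    have hd : δ ∈ R := by
      have := R.mul_mem hd7 (R.inv_mem (R.mul_mem hd3 hd3))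
      convert this using 1
      field_simp
    have h6R : (6 : F) ∈ R := natCast_mem R 6
    have h2R : (2 : F) ∈ R := natCast_mem R 2
    have := R.add_mem (R.mul_mem hd (R.inv_mem h6R)) h2R
    convert this using 1
    rw [hδ]; field_simp; ring
  have hall : ∀ x : F, x ∈ L 0 := fun x => by
    have : k * x ∈ R := hRtop ▸ Subfield.mem_top _
    have h : k * x / k ∈ L 0 := this
    rwa [mul_div_cancel_left₀ _ hk0] at h
  have hall1 : ∀ x : F, x ∈ L (-1) := fun x => by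
    have h4 : (4 : F) ≠ 0 := by rw [show (4 : F) = 2 ^ 2 by norm_num]; exact pow_ne_zero _ h2
    have := hup1 1 (hall 1) (-x / 4) (hall _)
    convert this using 1
    field_simp
  have hall3 : ∀ x : F, x ∈ L (-3) := fun x => by
    have h36 : (36 : F) ≠ 0 := by
      rw [show (36 : F) = 2 ^ 2 * 3 ^ 2 by norm_num]
      exact mul_ne_zero (pow_ne_zero _ h2) (pow_ne_zero _ h3)
    have := hup3 1 (hall 1) (-x / 36) (hall _)
    convert this using 1
    field_simp
  -- full axis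
  have hFull : Full H φ := by
    intro w hw
    have hA : Mem H ((w 1 + w 0) • pw F hn 2) φ := by simpa [L] using hall (w 1 + w 0)
    have hB : Mem H ((w 2 - 2 * (w 1 + w 0) - w 0) • pw F hn 1) φ := by
      simpa [L] using hall1 (w 2 - 2 * (w 1 + w 0) - w 0)
    have hC : Mem H ((-w 0) • pw F hn (-1)) φ := by simpa [L] using hall3 (-w 0)
    have h1 := mem_add (by rw [dotProduct_smul, hP1, smul_zero]) hA hB
    have h2 := mem_add (by rw [dotProduct_smul, hPm1, smul_zero]) h1 hC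
    have hw' : φ ⬝ᵥ w = 3 * w 0 + w 1 - w 2 + w 3 := by
      simp [hφ_def, dotProduct, Fin.sum_univ_four]; ring
    rw [hw'] at hw
    convert h2 using 1
    rw [show (2 : ℤ) = ((2 : ℕ) : ℤ) from rfl, show (1 : ℤ) = ((1 : ℕ) : ℤ) from rfl, pw_natCast,
      pw_natCast, show (-((1 : ℕ) : ℤ)) = -1 from rfl, pw_four_neg_one]
    ext i
    fin_cases i <;> simp [Nat.choose] <;> first | linear_combination hw | linear_combination -hw | ring
  -- all axes
  have hdiff : ∀ ψ : Fin 4 → F, Full H ψ →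
      Full H (ψ ᵥ* (u : Matrix (Fin 4) (Fin 4) F) + (-1 : F) • ψ) :=
    fun ψ h => full_add (full_vecMul h hu) (full_smul h (-1))
  have hsh : ∀ a b c d : F, ![a, b, c, d] ᵥ* (u : Matrix (Fin 4) (Fin 4) F) +
      (-1 : F) • ![a, b, c, d] = ![0, a, b, c] := by
    intro a b c d
    show _ ᵥ* (1 + shift F 4) + _ = _
    ext i
    fin_cases i <;> simp [Matrix.vecMul, dotProduct, Fin.sum_univ_four, shift, Matrix.one_apply]
  have f1 : Full H ![0, 3, 1, -1] := by
    have := hdiff _ hFull; rw [hφ_def, hsh] at this; exact this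
  have f2 : Full H ![0, 0, 3, 1] := by
    have := hdiff _ f1; rw [hsh] at this; exact this
  have f3 : Full H ![0, 0, 0, 3] := by
    have := hdiff _ f2; rw [hsh] at this; exact this
  have g3 : Full H ![0, 0, 0, 1] := by
    have := full_smul f3 3⁻¹; simpa [h3] using this
  have g2 : Full H ![0, 0, 1, 0] := by
    have := full_smul (full_add f2 (full_smul g3 (-1))) 3⁻¹; simpa [h3] using this
  have g1 : Full H ![0, 1, 0, 0] := by
    have := full_smul (full_add f1 (full_add (full_smul g2 (-1)) g3)) 3⁻¹; simpa [h3] using this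
  have g0 : Full H ![1, 0, 0, 0] := by
    have hF := hFull
    rw [hφ_def] at hF
    have := full_smul (full_add hF (full_add (full_smul g1 (-1)) (full_add g2 (full_smul g3 (-1)))))
      3⁻¹
    simpa [h3] using this
  refine CfsgLib.SLn.eq_top_of_transvection H fun i j hij x => ?_
  have hj : Full H (Pi.single j 1) := by
    fin_cases j
    · convert g0; ext a; fin_cases a <;> simp [Pi.single_apply]
    · convert g1; ext a; fin_cases a <;> simp [Pi.single_apply]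
    · convert g2; ext a; fin_cases a <;> simp [Pi.single_apply]
    · convert g3; ext a; fin_cases a <;> simp [Pi.single_apply]
  obtain ⟨w, hw, hw'⟩ := hj (x • Pi.single i 1) (by
    rw [dotProduct_smul, single_one_dotProduct, Pi.single_apply, if_neg hij.symm, smul_zero])
  convert hw using 1
  refine Subtype.ext ?_
  show (Matrix.SpecialLinearGroup.transvection hij x : Matrix (Fin 4) (Fin 4) F) = w.1
  rw [hw', Matrix.SpecialLinearGroup.transvection_coe, smul_vecMulVec,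
    ← Matrix.single_eq_single_vecMulVec_single, smul_single, smul_eq_mul, mul_one]

/-- The field generated by `ω + ω⁻¹` for a generator `ω`. -/
theorem subfield_eq_top_of_order {ω : Fˣ}
    (hlt' : ∀ k m : ℕ, 2 ≤ k → k * k ≤ Nat.card F → 0 < m → m ≤ k + 1 → ω ^ m ≠ 1)
    (K : Subfield F) (hK : (ω : F) + (ω : F)⁻¹ ∈ K) : K = ⊤ := by
  classical
  haveI := Fintype.ofFinite F
  haveI := Fintype.ofFinite K
  by_contra hne
  obtain ⟨p, hp⟩ := CharP.exists K
  haveI := hp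
  haveI hp' : Fact p.Prime := ⟨(CharP.char_is_prime K p)⟩
  haveI : CharP F p := (RingHom.charP_iff (K.subtype) Subtype.val_injective p).mp hp
  obtain ⟨a, -, ha⟩ := FiniteField.card K p
  have hd := Module.card_eq_pow_finrank (K := K) (V := F)
  have hd2 : 2 ≤ Module.finrank K F := by
    by_contra h
    have h1 : Module.finrank K F = 1 := by
      have : 0 < Module.finrank K F := Module.finrank_pos
      omega
    rw [h1, pow_one] at hd
    refine hne (eq_top_iff.mpr fun x _ => ?_)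
    obtain ⟨y, rfl⟩ := ((Fintype.bijective_iff_injective_and_card (Subtype.val : K → F)).mpr
      ⟨Subtype.val_injective, hd.symm⟩).2 x
    exact y.2
  set s : F := (ω : F) + (ω : F)⁻¹ with hs
  have hω0 : (ω : F) ≠ 0 := ω.ne_zero
  have hfix : s ^ Fintype.card K = s := congrArg Subtype.val (FiniteField.pow_card (⟨s, hK⟩ : K))
  set w : F := (ω : F) ^ Fintype.card K with hw
  have hwinv : ((ω : F)⁻¹) ^ Fintype.card K = w⁻¹ := inv_pow _ _
  have hw0 : w ≠ 0 := pow_ne_zero _ hω0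
  have hsum : w + w⁻¹ = s := by
    rw [← hwinv, hw, ha, ← add_pow_char_pow, ← ha]
    exact hfix
  have hfac : (w - (ω : F)) * (w - (ω : F)⁻¹) = 0 := by
    have : w * w + 1 = w * s := by rw [← hsum]; field_simp
    rw [hs] at this
    calc (w - (ω : F)) * (w - (ω : F)⁻¹)
        = w * w + (ω : F) * (ω : F)⁻¹ - w * ((ω : F) + (ω : F)⁻¹) := by ring
      _ = 0 := by rw [mul_inv_cancel₀ hω0, this, sub_self]
  have hK2 : Fintype.card K * Fintype.card K ≤ Nat.card F := by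
    rw [Nat.card_eq_fintype_card, hd]
    calc Fintype.card K * Fintype.card K = Fintype.card K ^ 2 := (sq _).symm
      _ ≤ _ := Nat.pow_le_pow_right Fintype.card_pos hd2
  have hK1 := Fintype.one_lt_card (α := K)
  have hlt : ∀ m : ℕ, 0 < m → m ≤ Fintype.card K + 1 → ω ^ m ≠ 1 :=
    fun m hm hm' => hlt' _ m hK1 hK2 hm hm'
  rcases mul_eq_zero.mp hfac with h | h
  · refine hlt (Fintype.card K - 1) (by omega) (by omega) (Units.ext ?_)
    rw [Units.val_pow_eq_pow_val, Units.val_one]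
    refine mul_right_cancel₀ hω0 ?_
    rw [one_mul, ← pow_succ, Nat.sub_add_cancel (by omega)]
    exact sub_eq_zero.mp h
  · refine hlt (Fintype.card K + 1) (by omega) le_rfl (Units.ext ?_)
    have h' := sub_eq_zero.mp h
    rw [hw] at h'
    rw [Units.val_pow_eq_pow_val, Units.val_one, pow_succ, h', inv_mul_cancel₀ hω0]

theorem subfield_eq_top_of_primitive (hq : 4 < Nat.card F) {ω : Fˣ}
    (hω : orderOf ω = Nat.card F - 1) (K : Subfield F) (hK : (ω : F) + (ω : F)⁻¹ ∈ K) :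
    K = ⊤ := by
  refine subfield_eq_top_of_order (fun k m hk hk2 hm hm' h => ?_) K hK
  have hdvd := orderOf_dvd_of_pow_eq_one h
  rw [hω] at hdvd
  have := Nat.le_of_dvd hm hdvd
  nlinarith [Nat.sub_add_cancel (show 1 ≤ Nat.card F by omega)]

theorem exists_conjugate_four {ω : F} (hω0 : ω ≠ 0) :
    ∃ v : Matrix.SpecialLinearGroup (Fin 4) F, IsRegUnip v ∧
      (v : Matrix (Fin 4) (Fin 4) F) =
      (1 + vecMulVec ((ω - 1) • pw F (show 0 < 4 by norm_num) 0) ![3, 1, -1, 1]) *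
        (regUnip F 4 : Matrix (Fin 4) (Fin 4) F) *
        (1 + vecMulVec ((ω⁻¹ - 1) • pw F (show 0 < 4 by norm_num) 0) ![3, 1, -1, 1]) := by
  have h1 : ![(3 : F), 1, -1, 1] ⬝ᵥ pw F (show 0 < 4 by norm_num) ((0 : ℕ) : ℤ) = 1 := by
    rw [pw_natCast]; simp [dotProduct, Fin.sum_univ_four, Nat.choose]
  set c := pw F (show 0 < 4 by norm_num) 0 with hc
  set φ : Fin 4 → F := ![3, 1, -1, 1]
  have h1' : φ ⬝ᵥ c = 1 := h1
  have hrr : (1 + vecMulVec ((ω - 1) • c) φ) * (1 + vecMulVec ((ω⁻¹ - 1) • c) φ) = 1 :=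
    reflection_mul_inv hω0 h1'
  have hdet : ((1 + vecMulVec ((ω - 1) • c) φ) * (regUnip F 4 : Matrix (Fin 4) (Fin 4) F) *
      (1 + vecMulVec ((ω⁻¹ - 1) • c) φ)).det = 1 := by
    rw [det_mul, det_mul, mul_right_comm, ← det_mul, hrr, det_one, one_mul]
    exact (regUnip F 4).2
  exact ⟨⟨_, hdet⟩, isRegUnip_of_unit_conj (regUnip_isRegUnip (by norm_num))
    ⟨_, _, hrr, mul_eq_one_comm.mp hrr⟩ rfl, rfl⟩

end CfsgLib.H29.SLGen
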