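import Mathlib
import Cfsg.Agent.H29.SLGen.DimFour

set_option autoImplicit false

/-!
Two conjugate regular unipotent elements generating `SL_n` over a finite field, `n ≥ 4`.
-/

namespace CfsgLib.H29.SLGen

open Matrix

variable {F : Type*} [Field F] [Finite F]

theorem subfield_eq_top_of_prime (h : (Nat.card F).Prime) (K : Subfield F) : K = ⊤ := by
  classical
  haveI := Fintype.ofFinite F
  haveI : Fact (Nat.card F).Prime := ⟨h⟩
  haveI : CharP F (Nat.card F) := charP_of_card_eq_prime (by rw [Nat.card_eq_fintype_card])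
  refine eq_top_iff.mpr fun x _ => ?_
  obtain ⟨y, rfl⟩ := (ZMod.castHom_bijective F (n := Nat.card F)
    (by rw [Nat.card_eq_fintype_card])).2 x
  rw [← ZMod.natCast_zmod_val y, map_natCast]
  exact natCast_mem K _

theorem two_regUnip_four (h2 : (2 : F) ≠ 0) (h3 : (3 : F) ≠ 0) :
    ∃ u v : Matrix.SpecialLinearGroup (Fin 4) F, IsRegUnip u ∧ IsRegUnip v ∧
      Subgroup.closure ({u, v} : Set (Matrix.SpecialLinearGroup (Fin 4) F)) = ⊤ := by
  classical
  haveI := Fintype.ofFinite F
  obtain ⟨g, hg⟩ := IsCyclic.exists_generator (α := Fˣ)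
  have hord : orderOf g = Nat.card F - 1 := by
    rw [orderOf_eq_card_of_forall_mem_zpowers hg, Nat.card_units]
  have hq : 4 < Nat.card F := by
    obtain ⟨p, hp⟩ := CharP.exists F
    haveI := hp
    have hpr : p.Prime := CharP.char_is_prime F p
    have hp2 : p ≠ 2 := fun h => h2 (by
      have := CharP.cast_eq_zero F p; rw [h] at this; exact_mod_cast this)
    have hp3 : p ≠ 3 := fun h => h3 (by
      have := CharP.cast_eq_zero F p; rw [h] at this; exact_mod_cast this)
    haveI := Fact.mk hpr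
    obtain ⟨a, -, ha⟩ := FiniteField.card F p
    have hp5 : 5 ≤ p := by
      by_contra hlt
      have := hpr.two_le
      interval_cases p
      · exact hp2 rfl
      · exact hp3 rfl
      · norm_num at hpr
    have : p ≤ p ^ (a : ℕ) := Nat.le_self_pow a.pos.ne' p
    rw [Nat.card_eq_fintype_card, ha]
    omega
  have hω1 : (g : F) ≠ 1 := fun h => by
    rw [Units.val_eq_one] at h
    rw [h, orderOf_one] at hord
    omega
  obtain ⟨v, hv, hvm⟩ := exists_conjugate_four (F := F) (g.ne_zero)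
  exact ⟨regUnip F 4, v, regUnip_isRegUnip (by norm_num), hv,
    closure_eq_top_four h2 h3 g.ne_zero hω1 (subfield_eq_top_of_primitive hq hord) v hvm⟩

theorem two_conj_regUnip_four_prime (hF : (Nat.card F).Prime) (h2 : (2 : F) ≠ 0)
    (h3 : (3 : F) ≠ 0) :
    ∃ u g : Matrix.SpecialLinearGroup (Fin 4) F, IsRegUnip u ∧
      Subgroup.closure ({u, g * u * g⁻¹} : Set (Matrix.SpecialLinearGroup (Fin 4) F)) = ⊤ := by
  classical
  haveI := Fintype.ofFinite F
  have hn : 0 < 4 := by norm_num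
  set u := regUnip F 4 with hu_def
  set φ : Fin 4 → F := ![3, 1, -1, 1] with hφ
  set c := pw F hn 0 with hc
  have hφc : φ ⬝ᵥ c = 1 := by
    rw [hc, show (0 : ℤ) = ((0 : ℕ) : ℤ) from rfl, pw_natCast]
    simp [hφ, dotProduct, Fin.sum_univ_four, Nat.choose]
  have hrdet : ∀ ω : F, (1 + vecMulVec ((ω - 1) • c) φ).det = ω := fun ω => by
    rw [vecMulVec_eq Unit, det_one_add_replicateCol_mul_replicateRow, dotProduct_smul, hφc,
      smul_eq_mul, mul_one, add_sub_cancel]
  by_cases h5 : (5 : F) = 0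
  · -- `X` conjugates `u` to `u ^ 2`
    set X : Matrix (Fin 4) (Fin 4) F := !![8, 4, 0, 0; 0, 4, 1, 0; 0, 0, 2, 0; 0, 0, 0, 1] with hX
    have hω0 : (4 : F) ≠ 0 := by rw [show (4 : F) = 2 ^ 2 by norm_num]; exact pow_ne_zero _ h2
    have hω1 : (4 : F) ≠ 1 := fun h => h3 (by linear_combination h)
    have hdet : ((1 + vecMulVec (((4 : F) - 1) • c) φ) * X).det = 1 := by
      rw [det_mul, hrdet, show X.det = 64 by
        simp [hX, Matrix.det_succ_row_zero, Fin.sum_univ_succ, Fin.succAbove]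
        norm_num]
      linear_combination (51 : F) * h5
    obtain ⟨v, hv, hvm⟩ := exists_conjugate_four (F := F) hω0
    set g : Matrix.SpecialLinearGroup (Fin 4) F := ⟨_, hdet⟩ with hg
    refine ⟨u, g, regUnip_isRegUnip hn, ?_⟩
    have hXu : X * (u : Matrix (Fin 4) (Fin 4) F) = (u : Matrix (Fin 4) (Fin 4) F) ^ 2 * X := by
      show X * (1 + shift F 4) = (1 + shift F 4) ^ 2 * X
      ext i j
      fin_cases i <;> fin_cases j <;>
        simp [hX, sq, Matrix.mul_apply, Fin.sum_univ_four, shift, Matrix.one_apply] <;> norm_num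
    have hrr := reflection_mul_inv hω0 hφc
    have hconj : g * u * g⁻¹ = v ^ 2 := by
      rw [mul_inv_eq_iff_eq_mul]
      refine Subtype.ext ?_
      show (g : Matrix (Fin 4) (Fin 4) F) * (u : Matrix (Fin 4) (Fin 4) F) =
        ((v ^ 2 : Matrix.SpecialLinearGroup (Fin 4) F) : Matrix (Fin 4) (Fin 4) F) *
          (g : Matrix (Fin 4) (Fin 4) F)
      rw [Matrix.SpecialLinearGroup.coe_pow]
      show (1 + vecMulVec (((4 : F) - 1) • c) φ) * X * _ =
        (v : Matrix (Fin 4) (Fin 4) F) ^ 2 * ((1 + vecMulVec (((4 : F) - 1) • c) φ) * X)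
      set R := 1 + vecMulVec (((4 : F) - 1) • c) φ with hR
      set R' := 1 + vecMulVec (((4 : F)⁻¹ - 1) • c) φ with hR'
      have hR'R : R' * R = 1 := mul_eq_one_comm.mp hrr
      rw [mul_assoc R X, hXu, hvm, sq, sq]
      show _ = R * (u : Matrix (Fin 4) (Fin 4) F) * R' * (R * (u : Matrix (Fin 4) (Fin 4) F) * R') *
        (R * X)
      calc R * ((u : Matrix (Fin 4) (Fin 4) F) * (u : Matrix (Fin 4) (Fin 4) F) * X)
          = R * (u : Matrix (Fin 4) (Fin 4) F) * (R' * R) * (u : Matrix (Fin 4) (Fin 4) F) *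
              (R' * R) * X := by rw [hR'R]; simp only [mul_one, mul_assoc]
        _ = _ := by simp only [mul_assoc]
    have hv625 : v ^ (5 ^ 4) = 1 := by
      haveI : Fact (Nat.Prime 5) := ⟨by norm_num⟩
      haveI : CharP F 5 :=
        (CharP.charP_iff_prime_eq_zero (by norm_num)).mpr (by exact_mod_cast h5)
      set R : GL (Fin 4) F := ⟨_, _, reflection_mul_inv hω0 hφc,
        mul_eq_one_comm.mp (reflection_mul_inv hω0 hφc)⟩ with hR
      have hT : Matrix.SpecialLinearGroup.toGL v =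
          R * Matrix.SpecialLinearGroup.toGL u * R⁻¹ := Units.ext hvm
      refine Matrix.SpecialLinearGroup.toGL_injective ?_
      rw [map_pow, hT, conj_pow, ← map_pow, hu_def, regUnip_pow_period 5, map_one, mul_one,
        mul_inv_cancel]
    rw [hconj, eq_top_iff, ← closure_eq_top_four h2 h3 hω0 hω1
      (fun K _ => subfield_eq_top_of_prime hF K) v hvm, Subgroup.closure_le]
    rintro a (rfl | rfl)
    · exact Subgroup.subset_closure (by simp [hu_def])
    · have hmem := Subgroup.pow_mem _ (Subgroup.subset_closure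
        (show a ^ 2 ∈ ({u, a ^ 2} : Set (Matrix.SpecialLinearGroup (Fin 4) F)) by simp)) 313
      rwa [← pow_mul, show 2 * 313 = 5 ^ 4 + 1 by norm_num, pow_add, hv625, one_mul, pow_one] at hmem
  · set ω : F := (2 ^ 4)⁻¹ with hω
    have h24 : (2 : F) ^ 4 ≠ 0 := pow_ne_zero _ h2
    have hω0 : ω ≠ 0 := inv_ne_zero h24
    have hω1 : ω ≠ 1 := fun h => by
      have h15 : (3 : F) * 5 = 0 := by linear_combination inv_eq_one.mp h
      exact (mul_ne_zero h3 h5) h15
    have hdet : ((2 : F) • (1 + vecMulVec ((ω - 1) • c) φ)).det = 1 := by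
      rw [det_smul, Fintype.card_fin, hrdet, hω, mul_inv_cancel₀ h24]
    obtain ⟨v, hv, hvm⟩ := exists_conjugate_four (F := F) hω0
    set g : Matrix.SpecialLinearGroup (Fin 4) F := ⟨_, hdet⟩ with hg
    refine ⟨u, g, regUnip_isRegUnip hn, ?_⟩
    have hconj : g * u * g⁻¹ = v := by
      rw [mul_inv_eq_iff_eq_mul]
      refine Subtype.ext ?_
      show (2 : F) • (1 + vecMulVec ((ω - 1) • c) φ) * (u : Matrix (Fin 4) (Fin 4) F) =
        (v : Matrix (Fin 4) (Fin 4) F) * ((2 : F) • (1 + vecMulVec ((ω - 1) • c) φ))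
      rw [hvm, smul_mul_assoc, mul_smul_comm, mul_assoc,
        show (1 + vecMulVec ((ω⁻¹ - 1) • pw F hn 0) φ) * (1 + vecMulVec ((ω - 1) • c) φ) = 1 from
          mul_eq_one_comm.mp (reflection_mul_inv hω0 hφc), mul_one]
    rw [hconj]
    exact closure_eq_top_four h2 h3 hω0 hω1 (fun K _ => subfield_eq_top_of_prime hF K) v hvm

/-- The two statements together. -/
theorem two_regular_unipotents {n : ℕ} (hn : 4 ≤ n) :
    (∃ u v : Matrix.SpecialLinearGroup (Fin n) F, IsRegUnip u ∧ IsRegUnip v ∧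
      Subgroup.closure ({u, v} : Set (Matrix.SpecialLinearGroup (Fin n) F)) = ⊤) ∧
    ((Nat.card F).Prime → ∃ u g : Matrix.SpecialLinearGroup (Fin n) F, IsRegUnip u ∧
      Subgroup.closure ({u, g * u * g⁻¹} : Set (Matrix.SpecialLinearGroup (Fin n) F)) = ⊤) := by
  classical
  obtain ⟨p, hp⟩ := CharP.exists F
  haveI := hp
  haveI : Fact p.Prime := ⟨CharP.char_is_prime F p⟩
  have of_conj : (∃ u g : Matrix.SpecialLinearGroup (Fin n) F, IsRegUnip u ∧
      Subgroup.closure ({u, g * u * g⁻¹} : Set (Matrix.SpecialLinearGroup (Fin n) F)) = ⊤) →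
    (∃ u v : Matrix.SpecialLinearGroup (Fin n) F, IsRegUnip u ∧ IsRegUnip v ∧
      Subgroup.closure ({u, v} : Set (Matrix.SpecialLinearGroup (Fin n) F)) = ⊤) :=
    fun ⟨u, g, hu, hc⟩ => ⟨u, g * u * g⁻¹, hu, hu.conj g, hc⟩
  by_cases hp2 : p = 2
  · subst hp2
    exact ⟨of_conj (two_regUnip_char_two hn), fun _ => two_regUnip_char_two hn⟩
  rcases Nat.lt_or_ge n 5 with h | h
  · obtain rfl : n = 4 := by omega
    by_cases hp3 : p = 3
    · subst hp3
      exact ⟨of_conj two_regUnip_four_three, fun _ => two_regUnip_four_three⟩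
    · have hp' := (Fact.out : p.Prime)
      have h2 : (2 : F) ≠ 0 := by
        intro h0
        exact hp2 ((Nat.prime_dvd_prime_iff_eq hp' Nat.prime_two).mp
          ((CharP.cast_eq_zero_iff F p 2).mp (by exact_mod_cast h0)))
      have h3 : (3 : F) ≠ 0 := by
        intro h0
        exact hp3 ((Nat.prime_dvd_prime_iff_eq hp' Nat.prime_three).mp
          ((CharP.cast_eq_zero_iff F p 3).mp (by exact_mod_cast h0)))
      exact ⟨two_regUnip_four h2 h3, fun hF => two_conj_regUnip_four_prime hF h2 h3⟩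
  · exact ⟨of_conj (two_regUnip_odd p hp2 h), fun _ => two_regUnip_odd p hp2 h⟩

end CfsgLib.H29.SLGen
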