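import Mathlib
import Cfsg.Agent.H29.SLGen.DimFourConj

set_option autoImplicit false

/-!
Two conjugate regular unipotent elements generating `SL_3`.
-/

namespace CfsgLib.H29.SLGen

open Matrix

variable {F : Type*} [Field F]

local notation "𝕖" i:max => (Pi.single (i : Fin 3) (1 : F) : Fin 3 → F)

theorem regUnip_three :
    (regUnip F 3 : Matrix (Fin 3) (Fin 3) F) = !![1, 1, 0; 0, 1, 1; 0, 0, 1] := by
  show 1 + shift F 3 = _
  ext i j
  fin_cases i <;> fin_cases j <;> simp [shift, Matrix.one_apply]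

theorem one_add_root_zero_two (x : F) :
    (1 : Matrix (Fin 3) (Fin 3) F) + vecMulVec (x • 𝕖 0) (𝕖 2) = !![1, 0, x; 0, 1, 0; 0, 0, 1] := by
  ext i j
  fin_cases i <;> fin_cases j <;> simp [vecMulVec_apply, Matrix.one_apply, Pi.single_apply]

theorem one_add_root_one_two (x : F) :
    (1 : Matrix (Fin 3) (Fin 3) F) + vecMulVec (x • 𝕖 1) (𝕖 2) = !![1, 0, 0; 0, 1, x; 0, 0, 1] := by
  ext i j
  fin_cases i <;> fin_cases j <;> simp [vecMulVec_apply, Matrix.one_apply, Pi.single_apply]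

/-- The last step: a full axis spreads to all axes. -/
theorem top_of_roots {H : Subgroup (Matrix.SpecialLinearGroup (Fin 3) F)}
    {v : Matrix.SpecialLinearGroup (Fin 3) F} (hu : regUnip F 3 ∈ H) (hv : v ∈ H)
    (h02 : ∀ x : F, Mem H (x • 𝕖 0) (𝕖 2)) (h12 : ∀ x : F, Mem H (x • 𝕖 1) (𝕖 2))
    (hv20 : (v : Matrix (Fin 3) (Fin 3) F) 2 0 ≠ 0) : H = ⊤ := by
  have f2 : Full H (𝕖 2) := by
    intro w hw
    have hw2 : w 2 = 0 := by rwa [single_one_dotProduct] at hw
    have h := mem_add (by simp) (h02 (w 0)) (h12 (w 1))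
    convert h using 1
    ext i; fin_cases i <;> simp [hw2]
  set r0 := (v : Matrix (Fin 3) (Fin 3) F) 2 0 with hr0
  set r1 := (v : Matrix (Fin 3) (Fin 3) F) 2 1 with hr1
  have fa : Full H ![r0, r1, 0] := by
    have h := full_add (full_vecMul f2 hv) (full_smul f2 (-((v : Matrix (Fin 3) (Fin 3) F) 2 2)))
    convert h using 1
    rw [single_one_vecMul]
    ext i; fin_cases i <;> simp [hr0, hr1]
  have fb : Full H ![0, r0, 0] := by
    have h := full_add (full_add (full_vecMul fa hu) (full_smul fa (-1))) (full_smul f2 (-r1))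
    convert h using 1
    rw [regUnip_three]
    ext i; fin_cases i <;> simp [Matrix.vecMul, dotProduct, Fin.sum_univ_three]
  have f1 : Full H (𝕖 1) := by
    have h := full_smul fb r0⁻¹
    convert h using 1
    ext i; fin_cases i <;> simp [hv20]
  have f0 : Full H (𝕖 0) := by
    have h := full_smul (full_add fa (full_smul f1 (-r1))) r0⁻¹
    convert h using 1
    ext i; fin_cases i <;> simp [hv20, Pi.single_apply, Matrix.vecHead, Matrix.vecTail]
  refine CfsgLib.SLn.eq_top_of_transvection H fun i j hij x => ?_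
  have hj : Full H (Pi.single j 1) := by fin_cases j <;> assumption
  obtain ⟨w, hw, hw'⟩ := hj (x • Pi.single i 1) (by
    rw [dotProduct_smul, single_one_dotProduct, Pi.single_apply, if_neg hij.symm, smul_zero])
  convert hw using 1
  refine Subtype.ext ?_
  show (Matrix.SpecialLinearGroup.transvection hij x : Matrix (Fin 3) (Fin 3) F) = w.1
  rw [hw', Matrix.SpecialLinearGroup.transvection_coe, smul_vecMulVec,
    ← Matrix.single_eq_single_vecMulVec_single, smul_single, smul_eq_mul, mul_one]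

variable [Finite F]

/-- An additive set of levels closed under a scaled product is everything. -/
theorem levels_eq_univ (S : Set F) {k α : F} (hk : k ≠ 0) (hα0 : α ≠ 0) (h0 : (0 : F) ∈ S)
    (hadd : ∀ a ∈ S, ∀ b ∈ S, a + b ∈ S) (hneg : ∀ a ∈ S, -a ∈ S)
    (hmul : ∀ a ∈ S, ∀ b ∈ S, k * (a * b) ∈ S) (hα : α ∈ S)
    (hgen : ∀ K : Subfield F, k * α ∈ K → K = ⊤) (x : F) : x ∈ S := by
  classical
  haveI := Fintype.ofFinite F
  have hkα : (k * α) / k ∈ S := by rwa [mul_div_cancel_left₀ _ hk]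
  have hmulR : ∀ a b : F, a / k ∈ S → b / k ∈ S → a * b / k ∈ S := fun a b ha hb => by
    convert hmul _ ha _ hb using 1
    field_simp
  have hpos : ∀ (a : F), a / k ∈ S → ∀ m : ℕ, a ^ (m + 1) / k ∈ S := by
    intro a ha m
    induction m with
    | zero => rwa [pow_one]
    | succ m ih => rw [pow_succ]; exact hmulR _ _ ih ha
  obtain ⟨N, hN⟩ : ∃ N, Fintype.card F - 1 = N + 1 :=
    ⟨Fintype.card F - 2, by have := Fintype.one_lt_card (α := F); omega⟩
  have hone : (1 : F) / k ∈ S := by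
    have := hpos _ hkα N
    rwa [← hN, FiniteField.pow_card_sub_one_eq_one _ (mul_ne_zero hk hα0)] at this
  have hinvR : ∀ a : F, a / k ∈ S → a⁻¹ / k ∈ S := by
    intro a ha
    rcases eq_or_ne a 0 with rfl | ha0
    · simpa using h0
    have he : a ^ N = a⁻¹ := eq_inv_of_mul_eq_one_left
      (by rw [← pow_succ, ← hN, FiniteField.pow_card_sub_one_eq_one _ ha0])
    rcases N with - | N
    · rw [← he, pow_zero]; exact hone
    · rw [← he]; exact hpos _ ha N
  let R : Subfield F :=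
    { carrier := {y | y / k ∈ S}
      mul_mem' := fun {a b} ha hb => hmulR a b ha hb
      one_mem' := hone
      add_mem' := fun {a b} ha hb => by
        show (a + b) / k ∈ S
        rw [add_div]; exact hadd _ ha _ hb
      zero_mem' := by simpa using h0
      neg_mem' := fun {a} ha => by
        show -a / k ∈ S
        rw [neg_div]; exact hneg _ ha
      inv_mem' := fun a ha => hinvR a ha }
  have h : k * x ∈ R := (hgen R hkα) ▸ Subfield.mem_top _
  have h' : k * x / k ∈ S := h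
  rwa [mul_div_cancel_left₀ _ hk] at h'

theorem exists_lower_three {δ : F} (hδ : δ ≠ 0) : ∃ g : Matrix.SpecialLinearGroup (Fin 3) F,
    ((g * regUnip F 3 * g⁻¹ : Matrix.SpecialLinearGroup (Fin 3) F) : Matrix (Fin 3) (Fin 3) F) =
      !![1, 0, 0; δ, 1, 0; 0, δ, 1] := by
  have hdet : (!![0, 0, -δ⁻¹; 0, -1, 0; -δ, 0, 0] : Matrix (Fin 3) (Fin 3) F).det = 1 := by
    rw [Matrix.det_fin_three]; simp [hδ]
  have hdet' : (!![1, 0, 0; δ, 1, 0; 0, δ, 1] : Matrix (Fin 3) (Fin 3) F).det = 1 := by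
    rw [Matrix.det_fin_three]; simp
  set g : Matrix.SpecialLinearGroup (Fin 3) F := ⟨_, hdet⟩ with hg
  set w : Matrix.SpecialLinearGroup (Fin 3) F := ⟨_, hdet'⟩ with hw
  refine ⟨g, ?_⟩
  have h : g * regUnip F 3 * g⁻¹ = w := by
    rw [mul_inv_eq_iff_eq_mul]
    refine Subtype.ext ?_
    show (!![0, 0, -δ⁻¹; 0, -1, 0; -δ, 0, 0] : Matrix (Fin 3) (Fin 3) F) *
      (regUnip F 3 : Matrix (Fin 3) (Fin 3) F) =
      !![1, 0, 0; δ, 1, 0; 0, δ, 1] * !![0, 0, -δ⁻¹; 0, -1, 0; -δ, 0, 0]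
    rw [regUnip_three]
    ext i j
    fin_cases i <;> fin_cases j <;> simp [Matrix.mul_apply, Fin.sum_univ_three, hδ]
  rw [h]

/-- Lower triangular partner and one element in the corner root group. -/
theorem lower_top {δ α : F} (hδ : δ ≠ 0) (hα0 : α ≠ 0)
    (hgen : ∀ K : Subfield F, -δ ^ 3 * α ∈ K → K = ⊤)
    {H : Subgroup (Matrix.SpecialLinearGroup (Fin 3) F)}
    {v : Matrix.SpecialLinearGroup (Fin 3) F} (hu : regUnip F 3 ∈ H) (hv : v ∈ H)
    (hvm : (v : Matrix (Fin 3) (Fin 3) F) = !![1, 0, 0; δ, 1, 0; 0, δ, 1])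
    (ht : Mem H (α • 𝕖 0) (𝕖 2)) : H = ⊤ := by
  have hψ : (𝕖 2) ᵥ* ((v⁻¹ : Matrix.SpecialLinearGroup (Fin 3) F) : Matrix (Fin 3) (Fin 3) F) =
      ![δ ^ 2, -δ, 1] := by
    have h : ![δ ^ 2, -δ, 1] ᵥ* (v : Matrix (Fin 3) (Fin 3) F) = 𝕖 2 := by
      rw [hvm]; ext i; fin_cases i <;> simp [Matrix.vecMul, dotProduct, Fin.sum_univ_three] <;> ring
    rw [← h, vecMul_vecMul, show (v : Matrix (Fin 3) (Fin 3) F) *
      ((v⁻¹ : Matrix.SpecialLinearGroup (Fin 3) F) : Matrix (Fin 3) (Fin 3) F) = 1 from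
        congrArg Subtype.val (mul_inv_cancel v), vecMul_one]
  have hφu : (𝕖 2) ᵥ* (((regUnip F 3)⁻¹ : Matrix.SpecialLinearGroup (Fin 3) F) :
      Matrix (Fin 3) (Fin 3) F) = 𝕖 2 := by
    have h : (𝕖 2) ᵥ* (regUnip F 3 : Matrix (Fin 3) (Fin 3) F) = 𝕖 2 :=
      vecMul_regUnip_last 2 rfl
    conv_lhs => rw [← h]
    rw [vecMul_vecMul, show (regUnip F 3 : Matrix (Fin 3) (Fin 3) F) *
      (((regUnip F 3)⁻¹ : Matrix.SpecialLinearGroup (Fin 3) F) : Matrix (Fin 3) (Fin 3) F) = 1 from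
        congrArg Subtype.val (mul_inv_cancel (regUnip F 3)), vecMul_one]
  have hcomm : ∀ a b : F, Mem H (a • 𝕖 0) (𝕖 2) → Mem H (b • 𝕖 0) (𝕖 2) →
      Mem H ((-(a * δ ^ 2) * b) • ![1, δ, 0]) (𝕖 2) := by
    intro a b ha hb
    have h1 := mem_conj hv hb
    have hve : (v : Matrix (Fin 3) (Fin 3) F) *ᵥ 𝕖 0 = ![1, δ, 0] := by
      rw [hvm]; ext i; fin_cases i <;> simp
    rw [mulVec_smul, hve, hψ] at h1
    have h2 := mem_comm (a := a • 𝕖 0) (φ := 𝕖 2) ?_ ?_ ?_ ha h1
    · rw [smul_smul] at h2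
      convert h2 using 2
      simp [dotProduct, Fin.sum_univ_three, mul_comm]
    · simp
    · simp [dotProduct, Fin.sum_univ_three]; ring
    · simp
  have hclosed : ∀ a b : F, Mem H (a • 𝕖 0) (𝕖 2) → Mem H (b • 𝕖 0) (𝕖 2) →
      Mem H ((-δ ^ 3 * (a * b)) • 𝕖 0) (𝕖 2) := by
    intro a b ha hb
    have h1 := hcomm a b ha hb
    have h2 := mem_conj hu h1
    rw [hφu] at h2
    have h3 := mem_add (by simp) h2 (mem_neg (by simp) h1)
    convert h3 using 1
    rw [regUnip_three]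
    ext i
    fin_cases i <;> simp [Matrix.mulVec, dotProduct, Fin.sum_univ_three] <;> ring
  have h02 : ∀ x : F, Mem H (x • 𝕖 0) (𝕖 2) := levels_eq_univ {x | Mem H (x • 𝕖 0) (𝕖 2)}
    (neg_ne_zero.mpr (pow_ne_zero 3 hδ)) hα0 (by simp [mem_zero])
    (fun a ha b hb => by
      show Mem H _ _
      rw [add_smul]; exact mem_add (by simp) ha hb)
    (fun a ha => by
      show Mem H _ _
      rw [neg_smul]; exact mem_neg (by simp) ha)
    (fun a ha b hb => hclosed a b ha hb) ht hgen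
  have h12 : ∀ x : F, Mem H (x • 𝕖 1) (𝕖 2) := by
    intro x
    have h1 := hcomm (-(x / δ ^ 3)) 1 (h02 _) (h02 _)
    have h2 := mem_add (by simp) h1 (h02 (-(x / δ)))
    convert h2 using 1
    ext i
    fin_cases i <;> simp <;> field_simp <;> ring
  refine top_of_roots hu (H.mul_mem hv hv) h02 h12 ?_
  show ((v : Matrix (Fin 3) (Fin 3) F) * (v : Matrix (Fin 3) (Fin 3) F)) 2 0 ≠ 0
  rw [hvm]
  simp [Matrix.mul_apply, Fin.sum_univ_three, hδ]

/-- The generic odd case. -/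
theorem generic_three {c : F} (hc : c ≠ 0) (hs : 1 + c ≠ 0) (hC : c ^ 3 ≠ (c ^ 3)⁻¹)
    (hgen : ∀ K : Subfield F, c ^ 3 + (c ^ 3)⁻¹ ∈ K → K = ⊤) :
    ∃ g : Matrix.SpecialLinearGroup (Fin 3) F, Subgroup.closure
      ({regUnip F 3, g * regUnip F 3 * g⁻¹} : Set (Matrix.SpecialLinearGroup (Fin 3) F)) = ⊤ := by
  classical
  set s := 1 + c with hs_def
  set G : Matrix (Fin 3) (Fin 3) F :=
    !![(1 - c) / s ^ 2, 0, c / s ^ 2; s / c, 0, 0; s ^ 2 / c, s, 0] with hG
  have hdet : G.det = 1 := by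
    rw [hG, Matrix.det_fin_three]; simp; field_simp
  set g : Matrix.SpecialLinearGroup (Fin 3) F := ⟨G, hdet⟩ with hg
  set u := regUnip F 3 with hu_def
  refine ⟨g, ?_⟩
  set v := g * u * g⁻¹ with hv_def
  set V : Matrix (Fin 3) (Fin 3) F := !![1, -(1 - c) / s ^ 2, (1 - c) / s ^ 3;
    0, 1 - s / c, 1 / c; s ^ 3 / c, -(1 - c) - s ^ 2 / c, 1 + s / c] with hV
  have hvm : (v : Matrix (Fin 3) (Fin 3) F) = V := by
    have h : V * G = G * (u : Matrix (Fin 3) (Fin 3) F) := by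
      rw [hu_def, regUnip_three, hV, hG]
      ext i j
      fin_cases i <;> fin_cases j <;> simp [Matrix.mul_apply, Fin.sum_univ_three] <;> field_simp <;>
        first | ring1 | (rw [hs_def]; ring1) | (left; rw [hs_def]; ring1) | simp
    have h2 : G * ((g⁻¹ : Matrix.SpecialLinearGroup (Fin 3) F) : Matrix (Fin 3) (Fin 3) F) = 1 :=
      congrArg Subtype.val (mul_inv_cancel g)
    show G * (u : Matrix (Fin 3) (Fin 3) F) *
      ((g⁻¹ : Matrix.SpecialLinearGroup (Fin 3) F) : Matrix (Fin 3) (Fin 3) F) = V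
    rw [← h, mul_assoc, h2, mul_one]
  set H := Subgroup.closure ({u, v} : Set (Matrix.SpecialLinearGroup (Fin 3) F)) with hH
  have hu : u ∈ H := Subgroup.subset_closure (by simp)
  have hv : v ∈ H := Subgroup.subset_closure (by simp)
  set h := v * u * v with hh
  obtain ⟨p1, p2, p3, hhm⟩ : ∃ p1 p2 p3 : F, (h : Matrix (Fin 3) (Fin 3) F) =
      !![c, p1, p2; 0, (c ^ 2)⁻¹, p3; 0, 0, c] := by
    refine ⟨(h : Matrix (Fin 3) (Fin 3) F) 0 1, (h : Matrix (Fin 3) (Fin 3) F) 0 2,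
      (h : Matrix (Fin 3) (Fin 3) F) 1 2, ?_⟩
    have hm : (h : Matrix (Fin 3) (Fin 3) F) = V * !![1, 1, 0; 0, 1, 1; 0, 0, 1] * V := by
      show (v : Matrix (Fin 3) (Fin 3) F) * (u : Matrix (Fin 3) (Fin 3) F) *
        (v : Matrix (Fin 3) (Fin 3) F) = _
      rw [hvm, hu_def, regUnip_three]
    rw [hm, hV]
    ext i j
    fin_cases i <;> fin_cases j <;> simp [Matrix.mul_apply, Fin.sum_univ_three] <;> field_simp <;>
      first | ring1 | (rw [hs_def]; ring1) | (left; rw [hs_def]; ring1) | simp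
  have hhH : h ∈ H := H.mul_mem (H.mul_mem hv hu) hv
  -- unitriangular elements
  let W : F → F → Prop := fun x y => ∃ z : F, ∃ w ∈ H,
    (w : Matrix (Fin 3) (Fin 3) F) = !![1, x, z; 0, 1, y; 0, 0, 1]
  have hW1 : W 1 1 := ⟨0, u, hu, regUnip_three⟩
  have hWmul : ∀ x y x' y', W x y → W x' y' → W (x + x') (y + y') := by
    rintro x y x' y' ⟨z, w, hw, hwm⟩ ⟨z', w', hw', hwm'⟩
    refine ⟨z + z' + x * y', w * w', H.mul_mem hw hw', ?_⟩
    show (w : Matrix (Fin 3) (Fin 3) F) * (w' : Matrix (Fin 3) (Fin 3) F) = _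
    rw [hwm, hwm']
    ext i j
    fin_cases i <;> fin_cases j <;> simp [Matrix.mul_apply, Fin.sum_univ_three] <;> ring
  have hWneg : ∀ x y, W x y → W (-x) (-y) := by
    rintro x y ⟨z, w, hw, hwm⟩
    refine ⟨x * y - z, w⁻¹, H.inv_mem hw, ?_⟩
    have h1 : (w : Matrix (Fin 3) (Fin 3) F) * !![1, -x, x * y - z; 0, 1, -y; 0, 0, 1] = 1 := by
      rw [hwm]
      ext i j
      fin_cases i <;> fin_cases j <;> simp [Matrix.mul_apply, Fin.sum_univ_three] <;> ring
    have h2 : ((w⁻¹ : Matrix.SpecialLinearGroup (Fin 3) F) : Matrix (Fin 3) (Fin 3) F) *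
        (w : Matrix (Fin 3) (Fin 3) F) = 1 := congrArg Subtype.val (inv_mul_cancel w)
    rw [← mul_one ((w⁻¹ : Matrix.SpecialLinearGroup (Fin 3) F) : Matrix (Fin 3) (Fin 3) F), ← h1,
      ← mul_assoc, h2, one_mul]
  set C := c ^ 3 with hC_def
  have hC0 : C ≠ 0 := pow_ne_zero _ hc
  have hWh : ∀ x y, W x y → W (C * x) (C⁻¹ * y) := by
    rintro x y ⟨z, w, hw, hwm⟩
    refine ⟨(c * z + p1 * y - C * x * p3) / c, h * w * h⁻¹,
      H.mul_mem (H.mul_mem hhH hw) (H.inv_mem hhH), ?_⟩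
    have h1 : (h : Matrix (Fin 3) (Fin 3) F) * (w : Matrix (Fin 3) (Fin 3) F) =
        !![1, C * x, (c * z + p1 * y - C * x * p3) / c; 0, 1, C⁻¹ * y; 0, 0, 1] *
          (h : Matrix (Fin 3) (Fin 3) F) := by
      rw [hhm, hwm, hC_def]
      ext i j
      fin_cases i <;> fin_cases j <;> simp [Matrix.mul_apply, Fin.sum_univ_three] <;>
        field_simp <;> ring
    show (h : Matrix (Fin 3) (Fin 3) F) * (w : Matrix (Fin 3) (Fin 3) F) *
      ((h⁻¹ : Matrix.SpecialLinearGroup (Fin 3) F) : Matrix (Fin 3) (Fin 3) F) = _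
    rw [h1, mul_assoc, show (h : Matrix (Fin 3) (Fin 3) F) *
      ((h⁻¹ : Matrix.SpecialLinearGroup (Fin 3) F) : Matrix (Fin 3) (Fin 3) F) = 1 from
        congrArg Subtype.val (mul_inv_cancel h), mul_one]
  have hWh' : ∀ x y, W x y → W (C⁻¹ * x) (C * y) := by
    rintro x y ⟨z, w, hw, hwm⟩
    refine ⟨z + (C⁻¹ * x * 0) + (x * p3 - p1 * (C * y)) / c, h⁻¹ * w * h,
      H.mul_mem (H.mul_mem (H.inv_mem hhH) hw) hhH, ?_⟩
    have h1 : (w : Matrix (Fin 3) (Fin 3) F) * (h : Matrix (Fin 3) (Fin 3) F) =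
        (h : Matrix (Fin 3) (Fin 3) F) *
          !![1, C⁻¹ * x, z + (C⁻¹ * x * 0) + (x * p3 - p1 * (C * y)) / c;
            0, 1, C * y; 0, 0, 1] := by
      rw [hhm, hwm, hC_def]
      ext i j
      fin_cases i <;> fin_cases j <;> simp [Matrix.mul_apply, Fin.sum_univ_three] <;>
        field_simp <;> ring
    show ((h⁻¹ : Matrix.SpecialLinearGroup (Fin 3) F) : Matrix (Fin 3) (Fin 3) F) *
      (w : Matrix (Fin 3) (Fin 3) F) * (h : Matrix (Fin 3) (Fin 3) F) = _
    rw [mul_assoc, h1, ← mul_assoc, show ((h⁻¹ : Matrix.SpecialLinearGroup (Fin 3) F) :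
      Matrix (Fin 3) (Fin 3) F) * (h : Matrix (Fin 3) (Fin 3) F) = 1 from
        congrArg Subtype.val (inv_mul_cancel h), one_mul]
  have hW0 : W 0 0 := by
    have := hWmul _ _ _ _ hW1 (hWneg _ _ hW1)
    rwa [add_neg_cancel] at this
  let R : Subfield F :=
    { carrier := {r | ∀ x y, W x y → W (r * x) (r * y)}
      mul_mem' := fun {a b} ha hb x y hxy => by
        rw [mul_assoc, mul_assoc]; exact ha _ _ (hb _ _ hxy)
      one_mem' := fun x y hxy => by rwa [one_mul, one_mul]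
      add_mem' := fun {a b} ha hb x y hxy => by
        rw [add_mul, add_mul]; exact hWmul _ _ _ _ (ha _ _ hxy) (hb _ _ hxy)
      zero_mem' := fun x y _ => by rwa [zero_mul, zero_mul]
      neg_mem' := fun {a} ha x y hxy => by
        rw [neg_mul, neg_mul]; exact hWneg _ _ (ha _ _ hxy)
      inv_mem' := fun a ha x y hxy => by
        haveI := Fintype.ofFinite F
        rcases eq_or_ne a 0 with rfl | ha0
        · rw [_root_.inv_zero, zero_mul, zero_mul]; exact hW0
        have hp : ∀ m : ℕ, ∀ x y, W x y → W (a ^ m * x) (a ^ m * y) := by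
          intro m
          induction m with
          | zero => intro x y h; rwa [pow_zero, one_mul, one_mul]
          | succ m ih =>
            intro x y h
            rw [pow_succ, mul_assoc, mul_assoc]; exact ih _ _ (ha _ _ h)
        obtain ⟨N, hN⟩ : ∃ N, Fintype.card F - 1 = N + 1 :=
          ⟨Fintype.card F - 2, by have := Fintype.one_lt_card (α := F); omega⟩
        have he : a ^ N = a⁻¹ := eq_inv_of_mul_eq_one_left
          (by rw [← pow_succ, ← hN, FiniteField.pow_card_sub_one_eq_one _ ha0])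
        rw [← he]; exact hp N _ _ hxy }
  have hR : R = ⊤ := hgen R fun x y hxy => by
    rw [add_mul, add_mul, add_comm (C * y)]
    exact hWmul _ _ _ _ (hWh x y hxy) (hWh' x y hxy)
  have hWall : ∀ x y, W x y := by
    intro x y
    have hr : ∀ (r : F), r ∈ R := fun r => hR ▸ Subfield.mem_top r
    set t := (x - y) / (C - C⁻¹) with ht
    have hden : C - C⁻¹ ≠ 0 := sub_ne_zero.mpr hC
    have h1 := hr (x - t * C) 1 1 hW1
    have h2 := hr t _ _ (hWh 1 1 hW1)
    have h3 := hWmul _ _ _ _ h1 h2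
    convert h3 using 1
    · ring
    · have : t * (C - C⁻¹) = x - y := div_mul_cancel₀ _ hden
      linear_combination this
  have h02 : ∀ x : F, Mem H (x • 𝕖 0) (𝕖 2) := by
    intro x
    obtain ⟨z, w, hw, hwm⟩ := hWall 1 0
    obtain ⟨z', w', hw', hwm'⟩ := hWall 0 x
    refine ⟨w * w' * w⁻¹ * w'⁻¹,
      H.mul_mem (H.mul_mem (H.mul_mem hw hw') (H.inv_mem hw)) (H.inv_mem hw'), ?_⟩
    rw [one_add_root_zero_two]
    set T : Matrix.SpecialLinearGroup (Fin 3) F :=
      ⟨!![1, 0, x; 0, 1, 0; 0, 0, 1], by rw [Matrix.det_fin_three]; simp⟩ with hT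
    have he : w * w' = T * (w' * w) := by
      refine Subtype.ext ?_
      show (w : Matrix (Fin 3) (Fin 3) F) * (w' : Matrix (Fin 3) (Fin 3) F) =
        !![1, 0, x; 0, 1, 0; 0, 0, 1] *
          ((w' : Matrix (Fin 3) (Fin 3) F) * (w : Matrix (Fin 3) (Fin 3) F))
      rw [hwm, hwm']
      ext i j
      fin_cases i <;> fin_cases j <;> simp [Matrix.mul_apply, Fin.sum_univ_three] <;> ring
    rw [show w * w' * w⁻¹ * w'⁻¹ = T by rw [he]; group]
  have h12 : ∀ x : F, Mem H (x • 𝕖 1) (𝕖 2) := by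
    intro x
    obtain ⟨z, w, hw, hwm⟩ := hWall 0 x
    obtain ⟨w', hw', hwm'⟩ := h02 (-z)
    refine ⟨w' * w, H.mul_mem hw' hw, ?_⟩
    show (w' : Matrix (Fin 3) (Fin 3) F) * (w : Matrix (Fin 3) (Fin 3) F) = _
    rw [hwm, hwm', one_add_root_zero_two, one_add_root_one_two]
    ext i j
    fin_cases i <;> fin_cases j <;> simp [Matrix.mul_apply, Fin.sum_univ_three]
  refine top_of_roots hu hv h02 h12 ?_
  rw [hvm, hV]
  simp [hc, hs]

end CfsgLib.H29.SLGen
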