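import Mathlib
import Cfsg.Agent.H29.SLGen.DimThree

set_option autoImplicit false

/-!
All finite fields: two conjugate regular unipotent elements generating `SL_3`.
-/

namespace CfsgLib.H29.SLGen

open Matrix

variable {F : Type*} [Field F] [Finite F]

/-- A generating element with small subfield orders excluded. -/
theorem subfield_eq_top_of_mem {ω : Fˣ}
    (hlt : ∀ k m : ℕ, 2 ≤ k → k * k ≤ Nat.card F → 0 < m → m + 1 ≤ k → ω ^ m ≠ 1)
    (K : Subfield F) (hK : (ω : F) ∈ K) : K = ⊤ := by
  classical
  haveI := Fintype.ofFinite F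
  haveI := Fintype.ofFinite K
  by_contra hne
  have hd := Module.card_eq_pow_finrank (K := K) (V := F)
  have hd2 : 2 ≤ Module.finrank K F := by
    by_contra h
    have h1 : Module.finrank K F = 1 := by
      have : 0 < Module.finrank K F := Module.finrank_pos
      omega
    rw [h1, pow_one] at hd
    refine hne (eq_top_iff.mpr fun x _ => ?_)
    obtain ⟨y, rfl⟩ := ((Fintype.bijective_iff_injective_and_card (Subtype.val : K → F)).mpr
      ⟨Subtype.val_injective, hd.symm⟩).2 x
    exact y.2
  have hK2 : Fintype.card K * Fintype.card K ≤ Nat.card F := by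
    rw [Nat.card_eq_fintype_card, hd]
    calc Fintype.card K * Fintype.card K = Fintype.card K ^ 2 := (sq _).symm
      _ ≤ _ := Nat.pow_le_pow_right Fintype.card_pos hd2
  have hK1 := Fintype.one_lt_card (α := K)
  have hne0 : (⟨(ω : F), hK⟩ : K) ≠ 0 := fun h => ω.ne_zero (congrArg Subtype.val h)
  have h := congrArg Subtype.val (FiniteField.pow_card_sub_one_eq_one _ hne0)
  refine hlt _ (Fintype.card K - 1) hK1 hK2 (by omega) (by omega) (Units.ext ?_)
  rw [Units.val_pow_eq_pow_val, Units.val_one]
  exact h

/-- The lower case from a corner root element. -/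
theorem lower_pair {δ α : F} (hδ : δ ≠ 0) (hα0 : α ≠ 0)
    (hgen : ∀ K : Subfield F, -δ ^ 3 * α ∈ K → K = ⊤)
    (ht : ∀ (H : Subgroup (Matrix.SpecialLinearGroup (Fin 3) F))
      (v : Matrix.SpecialLinearGroup (Fin 3) F), regUnip F 3 ∈ H → v ∈ H →
      (v : Matrix (Fin 3) (Fin 3) F) = !![1, 0, 0; δ, 1, 0; 0, δ, 1] →
      Mem H (α • Pi.single 0 1) (Pi.single 2 1)) :
    ∃ g : Matrix.SpecialLinearGroup (Fin 3) F, Subgroup.closure
      ({regUnip F 3, g * regUnip F 3 * g⁻¹} : Set (Matrix.SpecialLinearGroup (Fin 3) F)) = ⊤ := by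
  obtain ⟨g, hg⟩ := exists_lower_three hδ
  refine ⟨g, ?_⟩
  set H := Subgroup.closure
    ({regUnip F 3, g * regUnip F 3 * g⁻¹} : Set (Matrix.SpecialLinearGroup (Fin 3) F))
  have hu : regUnip F 3 ∈ H := Subgroup.subset_closure (by simp)
  have hv : g * regUnip F 3 * g⁻¹ ∈ H := Subgroup.subset_closure (by simp)
  exact lower_top hδ hα0 hgen hu hv hg (ht H _ hu hv hg)

/-- Addition in the field of four elements, tabulated. -/
def f4add : Fin 4 → Fin 4 → Fin 4 :=
  ![![0, 1, 2, 3], ![1, 0, 3, 2], ![2, 3, 0, 1], ![3, 2, 1, 0]]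

/-- Multiplication in the field of four elements, tabulated. -/
def f4mul : Fin 4 → Fin 4 → Fin 4 :=
  ![![0, 0, 0, 0], ![0, 1, 2, 3], ![0, 2, 3, 1], ![0, 3, 1, 2]]

/-- Matrix product over the tabulated field. -/
def f4mm (A B : Fin 3 → Fin 3 → Fin 4) : Fin 3 → Fin 3 → Fin 4 := fun i j =>
  f4add (f4add (f4mul (A i 0) (B 0 j)) (f4mul (A i 1) (B 1 j))) (f4mul (A i 2) (B 2 j))

def f4one : Fin 3 → Fin 3 → Fin 4 := ![![1, 0, 0], ![0, 1, 0], ![0, 0, 1]]
def f4u : Fin 3 → Fin 3 → Fin 4 := ![![1, 1, 0], ![0, 1, 1], ![0, 0, 1]]
def f4v : Fin 3 → Fin 3 → Fin 4 := ![![2, 0, 2], ![2, 0, 0], ![0, 2, 3]]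
def f4g : Fin 3 → Fin 3 → Fin 4 := ![![3, 2, 0], ![1, 2, 2], ![1, 1, 1]]

/-- Value of a word in `u` (`false`) and `v` (`true`). -/
def f4word : List Bool → Fin 3 → Fin 3 → Fin 4
  | [] => f4one
  | b :: l => f4mm (if b then f4v else f4u) (f4word l)

/-- An elementary matrix over the tabulated field. -/
def f4root (a b : Fin 3) (x : Fin 4) : Fin 3 → Fin 3 → Fin 4 := fun i j =>
  if i = a ∧ j = b then x else if i = j then 1 else 0

theorem two_regUnip_three_four (hq : Nat.card F = 4) :
    ∃ g : Matrix.SpecialLinearGroup (Fin 3) F, Subgroup.closure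
      ({regUnip F 3, g * regUnip F 3 * g⁻¹} : Set (Matrix.SpecialLinearGroup (Fin 3) F)) = ⊤ := by
  classical
  haveI := Fintype.ofFinite F
  haveI : Nontrivial (Fin 3) := inferInstance
  rw [Nat.card_eq_fintype_card] at hq
  have h4 : (4 : F) = 0 := by
    have := FiniteField.cast_card_eq_zero F
    rw [hq] at this
    exact_mod_cast this
  have h2 : (2 : F) = 0 := by
    have : (2 : F) * 2 = 0 := by linear_combination h4
    exact (mul_eq_zero.mp this).elim id id
  obtain ⟨w, hw0, hw1⟩ : ∃ w : F, w ≠ 0 ∧ w ≠ 1 := by
    by_contra h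
    push Not at h
    have : (Finset.univ : Finset F) ⊆ {0, 1} := fun x _ => by
      rcases eq_or_ne x 0 with rfl | hx
      · simp
      · simp [h x hx]
    have h' := (Finset.card_le_card this).trans Finset.card_le_two
    rw [Finset.card_univ, hq] at h'
    omega
  have hw : w * w = w + 1 := by
    have h3 : w ^ 3 = 1 := by
      have := FiniteField.pow_card_sub_one_eq_one w hw0
      rwa [hq] at this
    have : (w - 1) * (w * w + w + 1) = 0 := by linear_combination h3
    linear_combination (mul_eq_zero.mp this).resolve_left (sub_ne_zero.mpr hw1) - (w + 1) * h2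
  have hall : ∀ x : F, x = 0 ∨ x = 1 ∨ x = w ∨ x = w + 1 := by
    intro x
    have hw01 : w + 1 ≠ 0 := fun h => hw1 (by linear_combination h - h2)
    have hsub : ({0, 1, w, w + 1} : Finset F).card = 4 := by
      rw [Finset.card_insert_of_notMem, Finset.card_insert_of_notMem, Finset.card_insert_of_notMem,
        Finset.card_singleton]
      · simp
      · simp [hw1.symm, hw0]
      · simp [hw0.symm, hw01.symm]
    have hu : ({0, 1, w, w + 1} : Finset F) = Finset.univ :=
      Finset.eq_univ_of_card _ (by rw [hsub, hq])
    have : x ∈ ({0, 1, w, w + 1} : Finset F) := hu ▸ Finset.mem_univ x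
    simpa using this
  set e : Fin 4 → F := ![0, 1, w, w + 1] with he
  have hadd : ∀ a b, e (f4add a b) = e a + e b := by
    intro a b
    fin_cases a <;> fin_cases b <;> simp [he, f4add] <;> first
      | ring1
      | linear_combination -h2
      | linear_combination -w * h2
      | linear_combination -(w + 1) * h2
  have hmul : ∀ a b, e (f4mul a b) = e a * e b := by
    intro a b
    fin_cases a <;> fin_cases b <;> simp [he, f4mul] <;> first
      | ring1
      | linear_combination -hw
      | linear_combination -hw - w * h2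
      | linear_combination -hw - (w + 1) * h2
  let toM : (Fin 3 → Fin 3 → Fin 4) → Matrix (Fin 3) (Fin 3) F := fun A => Matrix.of fun i j => e (A i j)
  have hmm : ∀ A B, toM (f4mm A B) = toM A * toM B := by
    intro A B
    ext i j
    simp [toM, f4mm, Matrix.mul_apply, Fin.sum_univ_three, hadd, hmul]
  have hgdet : (toM f4g).det = 1 := by
    rw [Matrix.det_fin_three]
    simp [toM, f4g, he]
    linear_combination hw
  set g : Matrix.SpecialLinearGroup (Fin 3) F := ⟨_, hgdet⟩ with hg
  refine ⟨g, ?_⟩
  set u := regUnip F 3 with hu_def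
  set v := g * u * g⁻¹ with hv_def
  have hum : (u : Matrix (Fin 3) (Fin 3) F) = toM f4u := by
    rw [hu_def, regUnip_three]
    ext i j
    fin_cases i <;> fin_cases j <;> simp [toM, f4u, he]
  have hvm : (v : Matrix (Fin 3) (Fin 3) F) = toM f4v := by
    have h1 : toM f4v * toM f4g = toM f4g * toM f4u := by
      rw [← hmm, ← hmm]
      congr 1
      decide
    have h2' : toM f4g * ((g⁻¹ : Matrix.SpecialLinearGroup (Fin 3) F) : Matrix (Fin 3) (Fin 3) F) =
        1 := congrArg Subtype.val (mul_inv_cancel g)
    show toM f4g * (u : Matrix (Fin 3) (Fin 3) F) *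
      ((g⁻¹ : Matrix.SpecialLinearGroup (Fin 3) F) : Matrix (Fin 3) (Fin 3) F) = _
    rw [hum, ← h1, mul_assoc, h2', mul_one]
  set H := Subgroup.closure ({u, v} : Set (Matrix.SpecialLinearGroup (Fin 3) F))
  have hword : ∀ l : List Bool, ∃ y ∈ H, (y : Matrix (Fin 3) (Fin 3) F) = toM (f4word l) := by
    intro l
    induction l with
    | nil =>
      refine ⟨1, H.one_mem, ?_⟩
      show (1 : Matrix (Fin 3) (Fin 3) F) = _
      ext i j
      fin_cases i <;> fin_cases j <;> simp [toM, f4word, f4one, he]
    | cons b l ih =>
      obtain ⟨y, hy, hym⟩ := ih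
      cases b
      · refine ⟨u * y, H.mul_mem (Subgroup.subset_closure (by simp)) hy, ?_⟩
        show (u : Matrix (Fin 3) (Fin 3) F) * (y : Matrix (Fin 3) (Fin 3) F) = _
        rw [f4word, hum, hym, hmm]
        rfl
      · refine ⟨v * y, H.mul_mem (Subgroup.subset_closure (by simp)) hy, ?_⟩
        show (v : Matrix (Fin 3) (Fin 3) F) * (y : Matrix (Fin 3) (Fin 3) F) = _
        rw [f4word, hvm, hym, hmm]
        rfl
  have hroot : ∀ (i j : Fin 3) (hij : i ≠ j) (l : List Bool) (x : Fin 4),
      f4word l = f4root i j x → Matrix.SpecialLinearGroup.transvection hij (e x) ∈ H := by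
    intro i j hij l x hl
    obtain ⟨y, hy, hym⟩ := hword l
    convert hy using 1
    refine Subtype.ext ?_
    show (Matrix.SpecialLinearGroup.transvection hij (e x) : Matrix (Fin 3) (Fin 3) F) = y.1
    rw [hym, hl, Matrix.SpecialLinearGroup.transvection_coe]
    ext a b
    simp only [Matrix.add_apply, Matrix.single_apply, Matrix.one_apply, toM, Matrix.of_apply,
      f4root]
    by_cases hab : i = a ∧ j = b
    · obtain ⟨rfl, rfl⟩ := hab
      simp [hij]
    · have hab' : ¬ (a = i ∧ b = j) := fun h => hab ⟨h.1.symm, h.2.symm⟩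
      rcases eq_or_ne a b with rfl | hne <;> simp [hab, hab', he, *]
  refine CfsgLib.SLn.eq_top_of_transvection H fun i j hij c => ?_
  have hsum : ∀ a b : F, Matrix.SpecialLinearGroup.transvection hij a ∈ H →
      Matrix.SpecialLinearGroup.transvection hij b ∈ H →
      Matrix.SpecialLinearGroup.transvection hij (a + b) ∈ H := fun a b ha hb => by
    have h := H.mul_mem ha hb
    convert h using 1
    refine CfsgLib.SLn.ext_smul fun x => funext fun k => ?_
    rw [mul_smul]
    simp only [CfsgLib.SLn.transvection_smul_apply, hij.symm, if_false, add_zero]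
    split <;> ring
  have hboth : Matrix.SpecialLinearGroup.transvection hij 1 ∈ H ∧
      Matrix.SpecialLinearGroup.transvection hij w ∈ H := by
    have e1 : e 1 = 1 := by simp [he]
    have e2 : e 2 = w := by simp [he]
    fin_cases i <;> fin_cases j <;> simp at hij <;> constructor <;>
      first
      | (rw [← e1]; first
          | exact hroot _ _ _ [true, false, false, true, true, true, false, false, true, false,
              false, true, true, true, false] 1 (by decide +kernel)
          | exact hroot _ _ _ [false, false] 1 (by decide +kernel)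
          | exact hroot _ _ _ [false, true, false, false, true, true, true, false, false, false] 1
              (by decide +kernel)
          | exact hroot _ _ _ [true, false, false, true, true, true, false, false, true, false,
              false, true, true, true] 1 (by decide +kernel)
          | exact hroot _ _ _ [true, false, false, false, true, false, false, true, true, true,
              false, true, true, true] 1 (by decide +kernel)
          | exact hroot _ _ _ [true, false, true, true, false, true, false, false, true, false,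
              true, false, false] 1 (by decide +kernel))
      | (rw [← e2]; first
          | exact hroot _ _ _ [false, false, true, true, true, false, true, false, true, false,
              false, false, true, true, false, false, true] 2 (by decide +kernel)
          | exact hroot _ _ _ [true, false, true, true, true, false, false, false, true, true,
              true, false, true] 2 (by decide +kernel)
          | exact hroot _ _ _ [true, false, true, false, false, false, true, true, false, false,
              false] 2 (by decide +kernel)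
          | exact hroot _ _ _ [true, false, false, true, true, false, false, false, true, false,
              true, false, true, true, true] 2 (by decide +kernel)
          | exact hroot _ _ _ [false, false, false, true, true, true, false, true, true, false,
              false, false, true, false] 2 (by decide +kernel)
          | exact hroot _ _ _ [true, false, true, true, false, true, true, true, false, false,
              false, true, true] 2 (by decide +kernel))
  rcases hall c with rfl | rfl | rfl | rfl
  · rw [show Matrix.SpecialLinearGroup.transvection hij (0 : F) = 1 from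
      CfsgLib.SLn.ext_smul fun x => funext fun k => by simp [CfsgLib.SLn.transvection_smul_apply]]
    exact H.one_mem
  · exact hboth.1
  · exact hboth.2
  · exact hsum _ _ hboth.2 hboth.1

/-- Word witnesses over a small prime field. -/
theorem prime_word {p : ℕ} (φ : ZMod p →+* F) {a : ZMod p} (l : List Bool)
    (hl : (l.map fun b : Bool => if b then (!![1, 0, 0; 1, 1, 0; 0, 1, 1] :
      Matrix (Fin 3) (Fin 3) (ZMod p)) else !![1, 1, 0; 0, 1, 1; 0, 0, 1]).prod =
      !![1, 0, a; 0, 1, 0; 0, 0, 1])
    (H : Subgroup (Matrix.SpecialLinearGroup (Fin 3) F))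
    (v : Matrix.SpecialLinearGroup (Fin 3) F) (hu : regUnip F 3 ∈ H) (hv : v ∈ H)
    (hvm : (v : Matrix (Fin 3) (Fin 3) F) = !![1, 0, 0; 1, 1, 0; 0, 1, 1]) :
    Mem H (φ a • Pi.single 0 1) (Pi.single 2 1) := by
  have key : ∀ l : List Bool, ∃ y ∈ H, (y : Matrix (Fin 3) (Fin 3) F) =
      φ.mapMatrix (l.map fun b : Bool => if b then (!![1, 0, 0; 1, 1, 0; 0, 1, 1] :
        Matrix (Fin 3) (Fin 3) (ZMod p)) else !![1, 1, 0; 0, 1, 1; 0, 0, 1]).prod := by
    intro l
    induction l with
    | nil => exact ⟨1, H.one_mem, by rw [List.map_nil, List.prod_nil, map_one]; rfl⟩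
    | cons b l ih =>
      obtain ⟨y, hy, hym⟩ := ih
      rw [List.map_cons, List.prod_cons, map_mul]
      cases b
      · refine ⟨regUnip F 3 * y, H.mul_mem hu hy, ?_⟩
        show (regUnip F 3 : Matrix (Fin 3) (Fin 3) F) * (y : Matrix (Fin 3) (Fin 3) F) = _
        rw [hym, regUnip_three]
        congr 1
        ext i j
        fin_cases i <;> fin_cases j <;> simp
      · refine ⟨v * y, H.mul_mem hv hy, ?_⟩
        show (v : Matrix (Fin 3) (Fin 3) F) * (y : Matrix (Fin 3) (Fin 3) F) = _
        rw [hym, hvm]
        congr 1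
        ext i j
        fin_cases i <;> fin_cases j <;> simp
  obtain ⟨y, hy, hym⟩ := key l
  refine ⟨y, hy, ?_⟩
  rw [hym, hl, one_add_root_zero_two]
  ext i j
  fin_cases i <;> fin_cases j <;> simp

theorem word_three : (([false, true, false, true, false, true, true, false, false, true, true, false, false,
            true, true, false, true, false, true] : List Bool).map fun b : Bool =>
    if b then (!![1, 0, 0; 1, 1, 0; 0, 1, 1] : Matrix (Fin 3) (Fin 3) (ZMod 3))
    else !![1, 1, 0; 0, 1, 1; 0, 0, 1]).prod = !![1, 0, 2; 0, 1, 0; 0, 0, 1] := by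
  decide +kernel

theorem word_seven : (([true, false, false, false, true, true, true, false, false, false, false, true,
            false, false, false, false, false, true, true, true, true, false,
            true, true, true, true, true] : List Bool).map fun b : Bool =>
    if b then (!![1, 0, 0; 1, 1, 0; 0, 1, 1] : Matrix (Fin 3) (Fin 3) (ZMod 7))
    else !![1, 1, 0; 0, 1, 1; 0, 0, 1]).prod = !![1, 0, 2; 0, 1, 0; 0, 0, 1] := by
  decide +kernel

theorem two_regUnip_three :
    ∃ u g : Matrix.SpecialLinearGroup (Fin 3) F, IsRegUnip u ∧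
      Subgroup.closure ({u, g * u * g⁻¹} : Set (Matrix.SpecialLinearGroup (Fin 3) F)) = ⊤ := by
  classical
  haveI := Fintype.ofFinite F
  suffices h : ∃ g : Matrix.SpecialLinearGroup (Fin 3) F, Subgroup.closure
      ({regUnip F 3, g * regUnip F 3 * g⁻¹} : Set (Matrix.SpecialLinearGroup (Fin 3) F)) = ⊤ by
    obtain ⟨g, hg⟩ := h
    exact ⟨_, g, regUnip_isRegUnip (by norm_num), hg⟩
  obtain ⟨γ, hγ⟩ := IsCyclic.exists_generator (α := Fˣ)
  have hord : orderOf γ = Nat.card F - 1 := by
    rw [orderOf_eq_card_of_forall_mem_zpowers hγ, Nat.card_units]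
  obtain ⟨p, hp⟩ := CharP.exists F
  haveI := hp
  have hpr : p.Prime := CharP.char_is_prime F p
  haveI := Fact.mk hpr
  obtain ⟨e, -, he⟩ := FiniteField.card F p
  have hq1 : 2 ≤ Nat.card F := by
    rw [Nat.card_eq_fintype_card]; exact Fintype.one_lt_card
  by_cases hp2 : p = 2
  · subst hp2
    by_cases h4 : Nat.card F = 4
    · exact two_regUnip_three_four h4
    refine lower_pair (δ := (γ : F)) (α := 1) γ.ne_zero one_ne_zero ?_ ?_
    · intro K hK
      by_cases hprime : (Nat.card F).Prime
      · exact subfield_eq_top_of_prime hprime K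
      refine subfield_eq_top_of_mem (ω := γ ^ 3) (fun k m hk hk2 hm hm' h => ?_) K ?_
      · rw [← pow_mul] at h
        have hdvd := orderOf_dvd_of_pow_eq_one h
        rw [hord] at hdvd
        have hle := Nat.le_of_dvd (by omega) hdvd
        have hk3 : k ≤ 2 := by
          by_contra hk3
          have := Nat.mul_le_mul_right k (show 3 ≤ k by omega)
          omega
        have : Nat.card F ≤ 4 := by omega
        interval_cases hN : Nat.card F
        · exact hprime Nat.prime_two
        · exact hprime Nat.prime_three
        · exact h4 rfl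
      · simpa [CharTwo.neg_eq] using hK
    · intro H v hu _ _
      refine ⟨regUnip F 3 * regUnip F 3, H.mul_mem hu hu, ?_⟩
      show (regUnip F 3 : Matrix (Fin 3) (Fin 3) F) * (regUnip F 3 : Matrix (Fin 3) (Fin 3) F) = _
      rw [regUnip_three, one_add_root_zero_two]
      ext i j
      fin_cases i <;> fin_cases j <;>
        simp [Matrix.mul_apply, Fin.sum_univ_three, CharTwo.add_self_eq_zero]
  have hodd : Odd (Nat.card F) := by
    rw [Nat.card_eq_fintype_card, he]; exact (hpr.odd_of_ne_two hp2).pow
  by_cases h37 : Nat.card F = 3 ∨ Nat.card F = 7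
  · have hprime : (Nat.card F).Prime := by rcases h37 with h | h <;> rw [h] <;> norm_num
    have hgen : ∀ (α : F) (K : Subfield F), -(1 : F) ^ 3 * α ∈ K → K = ⊤ :=
      fun α K _ => subfield_eq_top_of_prime hprime K
    rcases h37 with h | h
    · haveI : Fact (Nat.Prime 3) := ⟨Nat.prime_three⟩
      haveI : CharP F 3 := charP_of_card_eq_prime (by rw [← h, Nat.card_eq_fintype_card])
      refine lower_pair one_ne_zero ?_ (hgen ((ZMod.castHom dvd_rfl F) (2 : ZMod 3)))
        (prime_word (ZMod.castHom dvd_rfl F) (a := 2) _ word_three)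
      rw [map_ofNat]
      exact Ring.two_ne_zero (by rw [ringChar.eq F 3]; norm_num)
    · haveI : Fact (Nat.Prime 7) := ⟨by norm_num⟩
      haveI : CharP F 7 := charP_of_card_eq_prime (by rw [← h, Nat.card_eq_fintype_card])
      refine lower_pair one_ne_zero ?_ (hgen ((ZMod.castHom dvd_rfl F) (2 : ZMod 7)))
        (prime_word (ZMod.castHom dvd_rfl F) (a := 2) _ word_seven)
      rw [map_ofNat]
      exact Ring.two_ne_zero (by rw [ringChar.eq F 7]; norm_num)
  push Not at h37
  have hq5 : 5 ≤ Nat.card F := by
    rcases hodd with ⟨r, hr⟩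
    omega
  have hdvd : ∀ m : ℕ, γ ^ m = 1 → Nat.card F - 1 ∣ m := fun m hm =>
    hord ▸ orderOf_dvd_of_pow_eq_one hm
  have h6 : γ ^ 6 ≠ 1 := by
    intro h
    have hd := hdvd 6 h
    have := Nat.le_of_dvd (by norm_num) hd
    rcases hodd with ⟨r, hr⟩
    obtain ⟨hN5⟩ : Nonempty (Nat.card F = 5) := ⟨by omega⟩
    rw [hN5] at hd
    norm_num at hd
  refine generic_three (c := (γ : F)) γ.ne_zero ?_ ?_ ?_
  · intro h
    have h1 : γ ^ 2 = 1 := Units.ext (by
      rw [Units.val_pow_eq_pow_val, Units.val_one]
      linear_combination ((γ : F) - 1) * h)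
    have := Nat.le_of_dvd (by norm_num) (hdvd 2 h1)
    omega
  · intro h
    refine h6 (Units.ext ?_)
    rw [Units.val_pow_eq_pow_val, Units.val_one, show (γ : F) ^ 6 = (γ : F) ^ 3 * (γ : F) ^ 3 by ring]
    nth_rewrite 1 [h]
    exact inv_mul_cancel₀ (pow_ne_zero _ γ.ne_zero)
  · intro K hK
    by_cases hprime : (Nat.card F).Prime
    · exact subfield_eq_top_of_prime hprime K
    refine subfield_eq_top_of_order (ω := γ ^ 3) (fun k m hk hk2 hm hm' h => ?_) K (by simpa using hK)
    rw [← pow_mul] at h
    have hd := hdvd _ h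
    have hle := Nat.le_of_dvd (by omega) hd
    have hk4 : k ≤ 4 := by
      by_contra hk4
      have := Nat.mul_le_mul_right k (show 5 ≤ k by omega)
      omega
    rcases hodd with ⟨r, hr⟩
    obtain ⟨t, ht⟩ := hd
    have : Nat.card F ≤ 3 * k + 4 := by omega
    interval_cases k <;> interval_cases hN : Nat.card F <;>
      first
        | omega
        | exact hprime (by norm_num)

end CfsgLib.H29.SLGen
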